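import Mathlib
import Cfsg.Agent.PLengthExp.Derived

/-!
The module series of the derived series of a 2-group, and weights moved by its terms.
-/

set_option autoImplicit false
set_option maxHeartbeats 400000

open scoped commutatorElement

namespace CfsgLib.PLengthTwoDer

open CfsgLib.PLengthExp

universe u v w

variable {k : Type w} [Field k] {V : Type v} [AddCommGroup V] [Module k V] {H : Type u} [Group H]

/-- The part in `V` of the derived series of `V ⋊ P`. -/
def dmod (ρ : H →* Module.End k V) (P : Subgroup H) : ℕ → Submodule k V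
  | 0 => ⊤
  | i + 1 => Submodule.span k {w | ∃ y ∈ dser P i, ∃ v ∈ dmod ρ P i, (ρ y - 1) v = w}

variable {ρ : H →* Module.End k V} {P : Subgroup H}

theorem sub_one_mem_succ {i : ℕ} {y : H} (hy : y ∈ dser P i) {v : V} (hv : v ∈ dmod ρ P i) :
    (ρ y - 1) v ∈ dmod ρ P (i + 1) :=
  Submodule.subset_span ⟨y, hy, v, hv, rfl⟩

/-- `[V, P_i] ≤ V_i`. -/
theorem sub_one_mem : ∀ {i : ℕ} {y : H}, y ∈ dser P i → ∀ v : V, (ρ y - 1) v ∈ dmod ρ P i := by
  intro i
  induction i with
  | zero => exact fun _ _ => Submodule.mem_top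
  | succ i ih =>
    intro y hy v
    rw [dser_succ, Subgroup.commutator_def] at hy
    revert v
    induction hy using Subgroup.closure_induction with
    | one =>
      intro v
      rw [map_one, sub_self, LinearMap.zero_apply]
      exact zero_mem _
    | mem y hy =>
      intro v
      obtain ⟨a, ha, b, hb, rfl⟩ := hy
      have e : ρ ⁅a, b⁆ - 1 = ((ρ a - 1) * (ρ b - 1) - (ρ b - 1) * (ρ a - 1)) * ρ (a⁻¹ * b⁻¹) := by
        rw [show (ρ a - 1) * (ρ b - 1) - (ρ b - 1) * (ρ a - 1) = ρ (a * b) - ρ (b * a) by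
          rw [map_mul, map_mul]; noncomm_ring, sub_mul, ← map_mul, ← map_mul, commutatorElement_def,
          show b * a * (a⁻¹ * b⁻¹) = 1 by group, map_one, show a * b * (a⁻¹ * b⁻¹) = a * b * a⁻¹ * b⁻¹ by group]
      rw [e, Module.End.mul_apply, LinearMap.sub_apply, Module.End.mul_apply, Module.End.mul_apply]
      exact sub_mem (sub_one_mem_succ ha (ih hb _)) (sub_one_mem_succ hb (ih ha _))
    | mul a b _ _ iha ihb =>
      intro v
      have e : (ρ (a * b) - 1) v = (ρ a - 1) (ρ b v) + (ρ b - 1) v := by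
        rw [map_mul]
        simp only [LinearMap.sub_apply, Module.End.mul_apply, Module.End.one_apply]
        abel
      rw [e]
      exact add_mem (iha _) (ihb _)
    | inv a _ iha =>
      intro v
      have e : (ρ a⁻¹ - 1) v = -((ρ a - 1) (ρ a⁻¹ v)) := by
        simp only [LinearMap.sub_apply, Module.End.one_apply]
        rw [← Module.End.mul_apply, ← map_mul, mul_inv_cancel, map_one, Module.End.one_apply]
        abel
      rw [e]
      exact neg_mem (iha _)

theorem kills {e : ℕ} (h0 : dmod ρ P (e + 1) = ⊥) {a : H} (ha : a ∈ dser P e) {v : V}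
    (hv : v ∈ dmod ρ P e) : (ρ a - 1) v = 0 :=
  (Submodule.eq_bot_iff _).1 h0 _ (sub_one_mem_succ ha hv)

theorem quad {e : ℕ} (h0 : dmod ρ P (e + 1) = ⊥) {a a' : H} (ha : a ∈ dser P e) (ha' : a' ∈ dser P e) :
    (ρ a - 1) * (ρ a' - 1) = 0 :=
  LinearMap.ext fun v => kills h0 ha (sub_one_mem ha' v)

theorem three {n : ℕ} (h0 : dmod ρ P (n + 1 + 1) = ⊥) {a z z' : H} (ha : a ∈ dser P (n + 1))
    (hz : z ∈ dser P n) (hz' : z' ∈ dser P n) : (ρ a - 1) * (ρ z - 1) * (ρ z' - 1) = 0 :=
  LinearMap.ext fun v => by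
    rw [Module.End.mul_apply, Module.End.mul_apply]
    exact kills h0 ha (sub_one_mem_succ hz (sub_one_mem hz' v))

theorem eq_bot_of_dmod (hinj : Function.Injective ρ) {e : ℕ} (h0 : dmod ρ P e = ⊥) : dser P e = ⊥ := by
  refine (Subgroup.eq_bot_iff_forall _).2 fun a ha => hinj ?_
  rw [map_one, ← sub_eq_zero]
  exact LinearMap.ext fun v => (Submodule.eq_bot_iff _).1 h0 _ (sub_one_mem ha v)

variable [CharP k 2]

omit [CharP k 2] in
theorem add_self_end [CharP k 2] (X : Module.End k V) : X + X = 0 := by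
  rw [← two_smul k X, show (2 : k) = 0 from CharTwo.two_eq_zero, zero_smul]

theorem sub_one_sq (g : H) : (ρ g - 1) * (ρ g - 1) = ρ (g ^ 2) - 1 := by
  have h := add_self_end (k := k) (V := V) (ρ g)
  have h2 : (ρ g - 1) * (ρ g - 1) = ρ (g ^ 2) - (ρ g + ρ g) + 1 := by
    rw [sq, map_mul]; noncomm_ring
  rw [h2, h, sub_zero, sub_eq_add_neg, eq_comm]
  congr 1
  exact neg_eq_of_add_eq_zero_left (add_self_end (k := k) (V := V) 1)

/-- A chain moving a weight: on the weight space the remaining product is projected to zero. -/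
theorem proj_of_moving [Finite H] (hP : IsPGroup 2 P) (π : Module.End k V) (St : Subgroup H)
    {e : ℕ} (hmov : ∀ i < e, ¬ dser P i ≤ St) (T : Module.End k V)
    (hT : ∀ y : ℕ → H, (∀ i < e, y i ∈ dser P i) → ∀ F : ℕ → Module.End k V, F 0 = 1 →
      (∀ i < e, F (i + 1) = (ρ (y i) - 1) * F i) → T * F e = 0)
    {x : V} (hTG : ∀ g ∈ P, (∀ b ∈ dser P e, b * g ∉ St) → π (T (ρ g x)) = 0) :
    π (T x) = 0 := by
  classical
  haveI := Fact.mk Nat.prime_two
  have hsel : ∀ i, ∃ y : H, i < e → y ∈ dser P i ∧ ∀ b ∈ dser P (i + 1), b * y ∉ St := by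
    intro i
    by_cases hi : i < e
    swap
    · exact ⟨1, fun h => absurd h hi⟩
    set Di := dser P i with hDidef
    set M := St.subgroupOf Di with hMdef
    have hM : M ≠ ⊤ := fun h => hmov i hi (Subgroup.subgroupOf_eq_top.1 h)
    have hMF : M ⊔ frattini Di ≠ ⊤ := fun h => hM (frattini_nongenerating h)
    obtain ⟨y, -, hy⟩ := SetLike.exists_of_lt (lt_top_iff_ne_top.2 hMF)
    refine ⟨y, fun _ => ⟨y.2, fun b hb hby => hy ?_⟩⟩
    rw [dser_succ, ← Subgroup.map_subtype_commutator] at hb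
    obtain ⟨b', hb', rfl⟩ := hb
    have h1 : b' * y ∈ M ⊔ frattini Di := (le_sup_left (b := frattini Di)) (show b' * y ∈ M from hby)
    have h2 : b' ∈ M ⊔ frattini Di := (le_sup_right (a := M)) (CfsgLib.PGroup.commutator_le_frattini
      (hP.to_le (dser_antitone P (Nat.zero_le i))) hb')
    simpa using mul_mem (inv_mem h2) h1
  choose y hy using hsel
  let F : ℕ → Module.End k V := fun n => Nat.rec (motive := fun _ => Module.End k V) 1
    (fun i f => (ρ (y i) - 1) * f) n
  let G : ℕ → Set H := fun j => {g | g ∈ P ∧ ∀ b ∈ dser P j, b * g ∉ St}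
  have hF : ∀ j ≤ e, F j x - (-1 : k) ^ j • x ∈ Submodule.span k ((fun g => ρ g x) '' G j) := by
    intro j hj
    induction j with
    | zero => simp [F]
    | succ j ih =>
      obtain ⟨hyD, hyS⟩ := hy j (by omega)
      have hyP : y j ∈ P := dser_antitone P (Nat.zero_le j) hyD
      set m := F j x - (-1 : k) ^ j • x with hmdef
      have hm := ih (by omega)
      have hmeq : F j x = (-1 : k) ^ j • x + m := by rw [hmdef]; abel
      have hGG : G j ⊆ G (j + 1) := fun g hg => ⟨hg.1, fun b hb => hg.2 b (dser_succ_le P j hb)⟩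
      have hm1 : ρ (y j) m ∈ Submodule.span k ((fun g => ρ g x) '' G (j + 1)) := by
        refine (?_ : Submodule.map (ρ (y j)) (Submodule.span k ((fun g => ρ g x) '' G j)) ≤ _) ⟨m, hm, rfl⟩
        rw [Submodule.map_span, Submodule.span_le]
        rintro _ ⟨_, ⟨g, hg, rfl⟩, rfl⟩
        refine Submodule.subset_span ⟨y j * g, ⟨mul_mem hyP hg.1, fun b hb => ?_⟩, ?_⟩
        · rw [← mul_assoc]
          exact hg.2 _ (mul_mem (dser_succ_le P j hb) hyD)
        · show ρ (y j * g) x = ρ (y j) (ρ g x)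
          rw [map_mul]; rfl
      have hm2 : m ∈ Submodule.span k ((fun g => ρ g x) '' G (j + 1)) :=
        Submodule.span_mono (Set.image_mono hGG) hm
      have hm3 : ρ (y j) x ∈ Submodule.span k ((fun g => ρ g x) '' G (j + 1)) :=
        Submodule.subset_span ⟨y j, ⟨hyP, hyS⟩, rfl⟩
      have heq : F (j + 1) x - (-1 : k) ^ (j + 1) • x = (-1 : k) ^ j • ρ (y j) x + ρ (y j) m - m := by
        show ((ρ (y j) - 1) * F j) x - _ = _
        rw [Module.End.mul_apply, LinearMap.sub_apply, Module.End.one_apply, hmeq, map_add, map_smul,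
          pow_succ, mul_neg_one, neg_smul]
        abel
      rw [heq]
      exact sub_mem (add_mem (Submodule.smul_mem _ _ hm3) hm1) hm2
  have h0 := LinearMap.congr_fun (hT y (fun i hi => (hy i hi).1) F rfl fun i _ => rfl) x
  obtain ⟨m, hm, hmeq⟩ : ∃ m ∈ Submodule.span k ((fun g => ρ g x) '' G e),
      F e x = (-1 : k) ^ e • x + m := ⟨_, hF e le_rfl, by abel⟩
  rw [Module.End.mul_apply, LinearMap.zero_apply, hmeq, map_add, map_smul] at h0
  have h1 : π (T m) = 0 := by
    refine (?_ : Submodule.span k ((fun g => ρ g x) '' G e) ≤ LinearMap.ker (π * T)) hm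
    rw [Submodule.span_le]
    rintro _ ⟨g, hg, rfl⟩
    rw [SetLike.mem_coe, LinearMap.mem_ker, Module.End.mul_apply]
    exact hTG g hg.1 hg.2
  have h2 := congrArg π h0
  rw [map_add, map_smul, h1, add_zero, map_zero, smul_eq_zero] at h2
  exact h2.resolve_left (pow_ne_zero _ (neg_ne_zero.2 one_ne_zero))

/-- The products along a chain fall into the module series. -/
theorem chain_mem {y : ℕ → H} {e : ℕ} (hy : ∀ i < e, y i ∈ dser P i) {F : ℕ → Module.End k V} (hF0 : F 0 = 1)
    (hF : ∀ i < e, F (i + 1) = (ρ (y i) - 1) * F i) (v : V) : ∀ i ≤ e, F i v ∈ dmod ρ P i := by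
  intro i hi
  induction i with
  | zero => exact Submodule.mem_top
  | succ i ih =>
    rw [hF i (by omega), Module.End.mul_apply]
    exact sub_one_mem_succ (hy i (by omega)) (ih (by omega))

end CfsgLib.PLengthTwoDer
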