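import Mathlib
import Cfsg.Agent.PLengthTwoExp.PieceStep
import Cfsg.Agent.PLengthTwoDer.Chain

/-!
Operators on a weight space of the radical of a piece: involutions linked by quadratic relations.
-/

set_option autoImplicit false
set_option maxHeartbeats 400000

open scoped commutatorElement

namespace CfsgLib.PLengthTwoDer

open CfsgLib.PLengthExp CfsgLib.PLengthGross CfsgLib.PLengthTwoExp

universe u v w

variable {k : Type w} [Field k] [IsAlgClosed k] {V : Type v} [AddCommGroup V] [Module k V] {H : Type u} [Group H]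
  {ρ : H →* Module.End k V}

/-- A weight of the radical of a piece. -/
structure RadWeight (pc : WeightPiece ρ) where
  ψ : pc.rad →* kˣ
  weight : ∃ x : V, x ≠ 0 ∧ (∀ a : Subgroup.center pc.L.R, ρ ((a : pc.L.R) : H) x = (pc.χ a : k) • x) ∧
    ∀ r : pc.rad, ρ ((r : pc.L.R) : H) x = (ψ r : k) • x

variable {pc : WeightPiece ρ}

theorem RadWeight.ψ_center (rw' : RadWeight pc) (a : Subgroup.center pc.L.R) :
    rw'.ψ ⟨a, pc.center_le_rad a.2⟩ = pc.χ a := by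
  obtain ⟨x, hx, h1, h2⟩ := rw'.weight
  exact Units.ext (smul_left_injective k hx ((h2 ⟨a, pc.center_le_rad a.2⟩).symm.trans (h1 a)))

/-- The weight space. -/
def RadWeight.W (rw' : RadWeight pc) : Submodule k V where
  carrier := {x | ∀ r : pc.rad, ρ ((r : pc.L.R) : H) x = (rw'.ψ r : k) • x}
  add_mem' := fun {x y} hx hy r => by rw [map_add, hx r, hy r, smul_add]
  zero_mem' := fun r => by rw [map_zero, smul_zero]
  smul_mem' := fun d x hx r => by rw [map_smul, hx r, smul_comm]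

theorem RadWeight.nontrivial (rw' : RadWeight pc) : Nontrivial rw'.W := by
  obtain ⟨x, hx, -, h2⟩ := rw'.weight
  exact ⟨⟨⟨x, h2⟩, 0, fun h => hx (congrArg Subtype.val h)⟩⟩

theorem RadWeight.map_mem (rw' : RadWeight pc) (s : pc.L.R) {x : V} (hx : x ∈ rw'.W) :
    ρ (s : H) x ∈ rw'.W := by
  intro r
  have e : ((r : pc.L.R) : H) * s = s * (r : pc.L.R) * ((⁅(r : pc.L.R)⁻¹, s⁻¹⁆ : pc.L.R) : H)⁻¹⁻¹⁻¹⁻¹ := by
    rw [inv_inv, inv_inv, commutatorElement_def]
    simp [mul_assoc]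
  set d : pc.L.R := ⁅(s : pc.L.R)⁻¹, (r : pc.L.R)⁆ with hd
  have hdc : d ∈ Subgroup.center pc.L.R := pc.L.class_two _ _
  have e2 : ((r : pc.L.R) : H) * s = s * ((d : H) * (r : pc.L.R)) := by
    rw [hd, commutatorElement_def]
    simp [mul_assoc]
  have h1 : ρ (d : H) ((rw'.ψ r : k) • x) = (rw'.ψ r : k) • x := by
    have h2 := hx ⟨d, pc.center_le_rad hdc⟩
    rw [map_smul, h2, rw'.ψ_center ⟨d, hdc⟩]
    have h3 : pc.χ ⟨d, hdc⟩ = 1 := by
      have h4 := r.2 s⁻¹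
      have h5 : (⟨d, hdc⟩ : Subgroup.center pc.L.R) = (⟨⁅(r : pc.L.R), s⁻¹⁆, pc.L.class_two _ _⟩)⁻¹ :=
        Subtype.ext (commutatorElement_inv (r : pc.L.R) s⁻¹).symm
      rw [h5, map_inv, h4, inv_one]
    rw [h3, Units.val_one, one_smul]
  rw [← Module.End.mul_apply, ← map_mul, e2, map_mul, map_mul, Module.End.mul_apply, Module.End.mul_apply,
    hx r, h1, map_smul]

/-- The layer acting on the weight space. -/
def RadWeight.L (rw' : RadWeight pc) : pc.L.R →* Module.End k rw'.W where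
  toFun s := (ρ (s : H)).restrict fun _ hx => rw'.map_mem s hx
  map_one' := LinearMap.ext fun x => Subtype.ext (by simp)
  map_mul' s t := LinearMap.ext fun x => Subtype.ext (by simp)

theorem RadWeight.L_rad (rw' : RadWeight pc) (r : pc.rad) : rw'.L (r : pc.L.R) = (rw'.ψ r : k) • 1 :=
  LinearMap.ext fun x => Subtype.ext (x.2 r)

theorem RadWeight.L_comm (rw' : RadWeight pc) (s t : pc.L.R) :
    rw'.L s * rw'.L t = (pc.χ ⟨⁅s, t⁆, pc.L.class_two s t⟩ : k) • (rw'.L t * rw'.L s) := by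
  have e : s * t = ⁅s, t⁆ * (t * s) := by rw [commutatorElement_def]; group
  rw [← map_mul, e, map_mul, map_mul, rw'.L_rad ⟨⁅s, t⁆, pc.center_le_rad (pc.L.class_two s t)⟩,
    rw'.ψ_center ⟨⁅s, t⁆, pc.L.class_two s t⟩, smul_mul_assoc, one_mul]

variable [Finite H]

theorem act_rad_mem (g : pieceStab pc) (r : pc.rad) : pc.L.act (g : H) (r : pc.L.R) ∈ pc.rad :=
  (map_rad_eq pc g).le ⟨r, r.2, rfl⟩

/-- The stabilizer of the weight of the radical. -/
def RadWeight.Stab (rw' : RadWeight pc) : Subgroup H where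
  carrier := {g | ∃ h : g ∈ pieceStab pc, ∀ r : pc.rad, rw'.ψ ⟨_, act_rad_mem ⟨g, h⟩ r⟩ = rw'.ψ r}
  one_mem' := ⟨one_mem _, fun r => congrArg rw'.ψ (Subtype.ext (by
    show pc.L.act 1 (r : pc.L.R) = _
    rw [map_one]; rfl))⟩
  mul_mem' := fun {g g'} ⟨h, hg⟩ ⟨h', hg'⟩ => ⟨mul_mem h h', fun r => by
    rw [← hg' r, ← hg ⟨_, act_rad_mem ⟨g', h'⟩ r⟩]
    refine congrArg rw'.ψ (Subtype.ext ?_)
    show pc.L.act (g * g') (r : pc.L.R) = pc.L.act g (pc.L.act g' (r : pc.L.R))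
    rw [map_mul]; rfl⟩
  inv_mem' := fun {g} ⟨h, hg⟩ => ⟨inv_mem h, fun r => by
    rw [← hg ⟨_, act_rad_mem ⟨g⁻¹, inv_mem h⟩ r⟩]
    refine congrArg rw'.ψ (Subtype.ext ?_)
    show pc.L.act g (pc.L.act g⁻¹ (r : pc.L.R)) = _
    rw [← MulAut.mul_apply, ← map_mul, mul_inv_cancel, map_one]; rfl⟩

theorem RadWeight.mem_pieceStab {rw' : RadWeight pc} {g : H} (hg : g ∈ rw'.Stab) : g ∈ pieceStab pc := hg.1

theorem RadWeight.map_mem_stab (rw' : RadWeight pc) {g : H} (hg : g ∈ rw'.Stab) {x : V} (hx : x ∈ rw'.W) :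
    ρ g x ∈ rw'.W := by
  intro r
  obtain ⟨h, hg'⟩ := inv_mem hg
  have h1 := hx ⟨_, act_rad_mem ⟨g⁻¹, h⟩ r⟩
  rw [hg' r] at h1
  have e : ((r : pc.L.R) : H) * g = g * ((pc.L.act g⁻¹ (r : pc.L.R) : pc.L.R) : H) := by
    rw [pc.L.act_coe]; group
  rw [← Module.End.mul_apply, ← map_mul, e, map_mul, Module.End.mul_apply, h1, map_smul]

/-- The stabilizer acting on the weight space. -/
def RadWeight.T (rw' : RadWeight pc) : rw'.Stab →* Module.End k rw'.W where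
  toFun g := (ρ (g : H)).restrict fun _ hx => rw'.map_mem_stab g.2 hx
  map_one' := LinearMap.ext fun x => Subtype.ext (by simp)
  map_mul' g g' := LinearMap.ext fun x => Subtype.ext (by simp)

/-- The stabilizer acting on the piece. -/
noncomputable def RadWeight.bar (rw' : RadWeight pc) : rw'.Stab →* MulAut (PieceMod pc) :=
  (pieceAct pc).comp (Subgroup.inclusion fun _ hg => hg.1)

theorem RadWeight.bar_mk (rw' : RadWeight pc) (g : rw'.Stab) (s : pc.L.R) :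
    rw'.bar g (s : PieceMod pc) = ((pc.L.act (g : H) s : pc.L.R) : PieceMod pc) := rfl

theorem RadWeight.T_L (rw' : RadWeight pc) (g : rw'.Stab) (s : pc.L.R) :
    rw'.T g * rw'.L s = rw'.L (pc.L.act (g : H) s) * rw'.T g :=
  LinearMap.ext fun x => Subtype.ext (by
    show ρ (g : H) (ρ (s : H) x.1) = ρ ((pc.L.act (g : H) s : pc.L.R) : H) (ρ (g : H) x.1)
    rw [pc.L.act_coe, ← Module.End.mul_apply, ← Module.End.mul_apply, ← map_mul, ← map_mul, inv_mul_cancel_right])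

omit [Finite H] in
theorem RadWeight.L_inv_mul (rw' : RadWeight pc) (s : pc.L.R) : rw'.L s⁻¹ * rw'.L s = 1 := by
  rw [← map_mul, inv_mul_cancel, map_one]

theorem RadWeight.T_mul_inv (rw' : RadWeight pc) (g : rw'.Stab) : rw'.T g * rw'.T g⁻¹ = 1 := by
  rw [← map_mul, mul_inv_cancel, map_one]

theorem eq_one_of_coprime_pow {G : Type*} [Monoid G] {e : G} {m n : ℕ} (h : Nat.Coprime m n) (h1 : e ^ m = 1)
    (h2 : e ^ n = 1) : e = 1 :=
  orderOf_eq_one_iff.1 (Nat.eq_one_of_dvd_coprimes h (orderOf_dvd_of_pow_eq_one h1) (orderOf_dvd_of_pow_eq_one h2))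

theorem eq_one_of_two_pow (q : ℕ) [hq : Fact q.Prime] (hq2 : q ≠ 2) {e : kˣ} {l i : ℕ} (h1 : e ^ 2 ^ l = 1)
    (h2 : e ^ q ^ i = 1) : e = 1 :=
  eq_one_of_coprime_pow (Nat.Coprime.pow l i ((Nat.coprime_primes Nat.prime_two hq.out).2 hq2.symm)) h1 h2

theorem RadWeight.ψ_two_pow (rw' : RadWeight pc) (r : pc.rad) {l : ℕ} (h : rw'.ψ r ^ 2 ^ l = 1) :
    rw'.ψ r = 1 := by
  haveI := Fact.mk pc.L.prime
  obtain ⟨i, hi⟩ := (pc.L.isPGroup.to_subgroup pc.rad) r
  exact eq_one_of_two_pow pc.L.q pc.L.ne_two h (by rw [← map_pow, hi, map_one])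

/-- A 2-element commutes with the lifts of its fixed points. -/
theorem RadWeight.commute_of_fixed (rw' : RadWeight pc) {g : rw'.Stab} (hg : ∃ l : ℕ, g ^ 2 ^ l = 1)
    {t : pc.L.R} (ht : rw'.bar g (t : PieceMod pc) = t) : rw'.T g * rw'.L t = rw'.L t * rw'.T g := by
  rw [rw'.bar_mk, eq_comm, QuotientGroup.eq] at ht
  set r : pc.rad := ⟨_, ht⟩ with hr
  have e : rw'.L (pc.L.act (g : H) t) = (rw'.ψ r : k) • rw'.L t := by
    rw [show pc.L.act (g : H) t = t * (r : pc.L.R) by rw [hr]; group, map_mul, rw'.L_rad, mul_smul_comm, mul_one]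
  have hi : ∀ i : ℕ, rw'.T g ^ i * rw'.L t = ((rw'.ψ r ^ i : kˣ) : k) • (rw'.L t * rw'.T g ^ i) := by
    intro i
    induction i with
    | zero => simp
    | succ i ih =>
      rw [pow_succ', mul_assoc, ih, mul_smul_comm, ← mul_assoc, rw'.T_L, e, smul_mul_assoc, smul_mul_assoc,
        smul_smul, pow_succ, Units.val_mul, mul_assoc]
  obtain ⟨l, hl⟩ := hg
  have h1 := hi (2 ^ l)
  rw [← map_pow, hl, map_one, one_mul, mul_one] at h1
  have hψ : rw'.ψ r = 1 := by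
    refine rw'.ψ_two_pow r (l := l) (Units.ext ?_)
    haveI := rw'.nontrivial
    obtain ⟨x, hx⟩ := exists_ne (0 : rw'.W)
    have h2 : rw'.L t x ≠ 0 := fun h0 => hx (by
      have := congrArg (rw'.L t⁻¹) h0
      rwa [← Module.End.mul_apply, rw'.L_inv_mul, Module.End.one_apply, map_zero] at this)
    refine (smul_left_injective k h2 ?_).symm
    simpa using LinearMap.congr_fun h1 x
  rw [rw'.T_L, e, hψ, Units.val_one, one_smul]

/-- A lift of an inverted point that is inverted. -/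
theorem RadWeight.exists_inverted (rw' : RadWeight pc) (g : rw'.Stab) {x : PieceMod pc}
    (hx : rw'.bar g x = x⁻¹) : ∃ t : pc.L.R, (t : PieceMod pc) = x ∧ rw'.T g * rw'.L t = rw'.L t⁻¹ * rw'.T g := by
  haveI := Fact.mk pc.L.prime
  obtain ⟨t₀, rfl⟩ := QuotientGroup.mk_surjective x
  rw [rw'.bar_mk, ← QuotientGroup.mk_inv, eq_comm, QuotientGroup.eq] at hx
  set r : pc.rad := ⟨_, hx⟩ with hr
  have hodd : ¬ 2 ∣ Nat.card pc.rad := not_two_dvd_card (pc.L.isPGroup.to_subgroup pc.rad) pc.L.ne_two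
  obtain ⟨z, hz⟩ : ∃ z : pc.rad, z ^ 2 = r⁻¹ :=
    (powCoprime ((Nat.prime_two.coprime_iff_not_dvd.2 hodd).symm)).surjective r⁻¹
  refine ⟨t₀ * (z : pc.L.R), ?_, ?_⟩
  · rw [QuotientGroup.mk_mul, (QuotientGroup.eq_one_iff (z : pc.L.R)).2 z.2, mul_one]
  · rw [rw'.T_L]
    have e1 : rw'.L (pc.L.act (g : H) t₀) = (rw'.ψ r : k) • rw'.L t₀⁻¹ := by
      rw [show pc.L.act (g : H) t₀ = t₀⁻¹ * (r : pc.L.R) by rw [hr]; group, map_mul, rw'.L_rad, mul_smul_comm,
        mul_one]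
    have e2 : rw'.L (pc.L.act (g : H) (z : pc.L.R)) = (rw'.ψ z : k) • 1 := by
      obtain ⟨hgs, hgψ⟩ := g.2
      rw [rw'.L_rad ⟨_, act_rad_mem (pc := pc) ⟨(g : H), hgs⟩ z⟩, hgψ z]
    have e3 : rw'.L (t₀ * (z : pc.L.R))⁻¹ = ((rw'.ψ z)⁻¹ : kˣ).val • rw'.L t₀⁻¹ := by
      rw [mul_inv_rev, map_mul, ← Subgroup.coe_inv, rw'.L_rad, map_inv, smul_mul_assoc, one_mul]
    have e4 : (rw'.ψ r : k) * (rw'.ψ z : k) = ((rw'.ψ z)⁻¹ : kˣ).val := by
      rw [← Units.val_mul, show r = (z ^ 2)⁻¹ by rw [hz, inv_inv], map_inv, map_pow]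
      congr 1
      group
    rw [map_mul (pc.L.act (g : H)), map_mul rw'.L, e1, e2, e3, mul_smul_comm, mul_one, smul_smul, mul_comm, e4]
where
  not_two_dvd_card {G : Type u} [Group G] [Finite G] {q : ℕ} [Fact q.Prime] (hG : IsPGroup q G) (hq : q ≠ 2) :
      ¬ 2 ∣ Nat.card G := by
    obtain ⟨i, hi⟩ := IsPGroup.iff_card.1 hG
    rw [hi]
    exact fun h => hq ((Nat.prime_dvd_prime_iff_eq Nat.prime_two (Fact.out : q.Prime)).1
      (Nat.prime_two.dvd_of_dvd_pow h)).symm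

end CfsgLib.PLengthTwoDer
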