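import Mathlib
import Cfsg.Agent.PLengthTwoDer.Twist

/-!
The projection on a weight space of the radical, and what the derived series does on it.
-/

set_option autoImplicit false
set_option maxHeartbeats 400000

open scoped commutatorElement

namespace CfsgLib.PLengthTwoDer

open CfsgLib.PLengthExp CfsgLib.PLengthGross CfsgLib.PLengthTwoExp

universe u v w

variable {k : Type w} [Field k] [IsAlgClosed k] {V : Type v} [AddCommGroup V] [Module k V] {H : Type u}
  [Group H] [Finite H] {ρ : H →* Module.End k V} {pc : WeightPiece ρ}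

/-- The projection on the weight space. -/
noncomputable def RadWeight.proj (rw' : RadWeight pc) : Module.End k V :=
  letI := Fintype.ofFinite pc.rad
  ∑ r : pc.rad, ((rw'.ψ r)⁻¹ : kˣ).val • ρ ((r : pc.L.R) : H)

theorem RadWeight.proj_mul (rw' : RadWeight pc) (s : pc.rad) :
    rw'.proj * ρ ((s : pc.L.R) : H) = (rw'.ψ s : k) • rw'.proj := by
  letI := Fintype.ofFinite pc.rad
  unfold RadWeight.proj
  rw [Finset.sum_mul, Finset.smul_sum]
  refine Fintype.sum_equiv (Equiv.mulRight s) _ _ fun r => ?_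
  rw [Equiv.coe_mulRight, smul_mul_assoc, ← map_mul, smul_smul, map_mul rw'.ψ, mul_inv_rev,
    ← Units.val_mul, mul_inv_cancel_left]
  rfl

theorem RadWeight.proj_weight (rw' : RadWeight pc) {x : V} (hx : x ∈ rw'.W) :
    rw'.proj x = (Nat.card pc.rad : k) • x := by
  letI := Fintype.ofFinite pc.rad
  unfold RadWeight.proj
  rw [LinearMap.sum_apply, Finset.sum_congr rfl fun z _ =>
      show (((rw'.ψ z)⁻¹ : kˣ).val • ρ ((z : pc.L.R) : H)) x = x by
    rw [LinearMap.smul_apply, hx, smul_smul, Units.inv_mul, one_smul],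
    Finset.sum_const, Finset.card_univ, Nat.card_eq_fintype_card, Nat.cast_smul_eq_nsmul]

/-- The projection kills what an element outside the stabilizer moves out. -/
theorem RadWeight.proj_moved (rw' : RadWeight pc) {g : H} (hg : g ∉ rw'.Stab) {x : V} (hx : x ∈ rw'.W) :
    rw'.proj (ρ g x) = 0 := by
  by_contra h0
  have key : ∀ r r' : pc.rad, pc.L.act g (r : pc.L.R) = (r' : pc.L.R) → rw'.ψ r' = rw'.ψ r := by
    intro r r' he
    have e : ((r' : pc.L.R) : H) * g = g * ((r : pc.L.R) : H) := by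
      rw [← he, pc.L.act_coe, inv_mul_cancel_right]
    have h1 := LinearMap.congr_fun (rw'.proj_mul r') (ρ g x)
    rw [Module.End.mul_apply, LinearMap.smul_apply, ← Module.End.mul_apply (ρ _) (ρ g), ← map_mul ρ, e, map_mul ρ,
      Module.End.mul_apply, hx r, map_smul, map_smul] at h1
    exact Units.ext (smul_left_injective k h0 h1.symm)
  have hps : g ∈ pieceStab pc := fun a => by
    have h := key ⟨a, pc.center_le_rad a.2⟩
      ⟨_, pc.center_le_rad (centerAut (pc.L.act g) a).2⟩ rfl
    rwa [rw'.ψ_center, rw'.ψ_center] at h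
  exact hg ⟨hps, fun r => key r _ rfl⟩

theorem RadWeight.card_ne_zero [CharP k 2] (_rw' : RadWeight pc) : (Nat.card pc.rad : k) ≠ 0 := by
  haveI := Fact.mk pc.L.prime
  obtain ⟨i, hi⟩ := IsPGroup.iff_card.1 (pc.L.isPGroup.to_subgroup pc.rad)
  rw [Ne, CharP.cast_eq_zero_iff k 2, hi]
  exact fun h => pc.L.ne_two ((Nat.prime_dvd_prime_iff_eq Nat.prime_two pc.L.prime).1
    (Nat.prime_two.dvd_of_dvd_pow h)).symm

/-- A piece has a weight of its radical. -/
theorem exists_radWeight [CharP k 2] (pc : WeightPiece ρ) : Nonempty (RadWeight pc) := by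
  classical
  let W0 : Submodule k V :=
    { carrier := {x | ∀ a : Subgroup.center pc.L.R, ρ ((a : pc.L.R) : H) x = (pc.χ a : k) • x}
      add_mem' := fun {x y} hx hy r => by rw [map_add, hx r, hy r, smul_add]
      zero_mem' := fun r => by rw [map_zero, smul_zero]
      smul_mem' := fun d x hx r => by rw [map_smul, hx r, smul_comm] }
  have hW : ∀ s : pc.L.R, ∀ x ∈ W0, ρ (s : H) x ∈ W0 := fun s x hx a => by
    rw [← Module.End.mul_apply, ← map_mul, ← Subgroup.coe_mul, ← Subgroup.mem_center_iff.1 a.2 s, Subgroup.coe_mul,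
      map_mul, Module.End.mul_apply, hx, map_smul]
  let f : pc.rad →* Module.End k W0 :=
    { toFun := fun r => (ρ ((r : pc.L.R) : H)).restrict (hW r)
      map_one' := LinearMap.ext fun x => Subtype.ext (by simp)
      map_mul' := fun s t => LinearMap.ext fun x => Subtype.ext (by simp) }
  have hker : commutator pc.rad ≤ f.ker := by
    rw [commutator_def, Subgroup.commutator_le]
    intro r _ r' _
    refine MonoidHom.mem_ker.2 (LinearMap.ext fun x => Subtype.ext ?_)
    show ρ ((⁅(r : pc.L.R), (r' : pc.L.R)⁆ : pc.L.R) : H) x.1 = x.1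
    have h1 : ρ ((⁅(r : pc.L.R), (r' : pc.L.R)⁆ : pc.L.R) : H) x.1 = _ := x.2 ⟨_, pc.L.class_two r r'⟩
    rw [h1, r.2 (r' : pc.L.R), Units.val_one, one_smul]
  let F : Abelianization pc.rad →* Module.End k W0 := QuotientGroup.lift _ f hker
  have hk : (Nat.card (Abelianization pc.rad) : k) ≠ 0 := by
    haveI := Fact.mk pc.L.prime
    obtain ⟨i, hi⟩ := IsPGroup.iff_card.1 ((pc.L.isPGroup.to_subgroup pc.rad).to_quotient (commutator pc.rad))
    show (Nat.card (pc.rad ⧸ commutator pc.rad) : k) ≠ 0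
    rw [Ne, CharP.cast_eq_zero_iff k 2, hi]
    exact fun h => pc.L.ne_two ((Nat.prime_dvd_prime_iff_eq Nat.prime_two pc.L.prime).1
      (Nat.prime_two.dvd_of_dvd_pow h)).symm
  obtain ⟨u, hu, hχu⟩ := pc.weight
  obtain ⟨ψ, x, hx, hψ⟩ : ∃ (ψ : Abelianization pc.rad →* kˣ) (x : W0), x ≠ 0 ∧ ∀ r, F r x = (ψ r : k) • x := by
    by_contra hcon
    push Not at hcon
    have h1 := CfsgLib.FpfAut.eq_zero_of_eigen hk F (1 : Module.End k W0) fun ψ x hx => by
      by_contra hx0
      obtain ⟨r, hr⟩ := hcon ψ x hx0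
      exact hr (hx r)
    exact hu (congrArg Subtype.val (LinearMap.congr_fun h1 ⟨u, hχu⟩))
  exact ⟨⟨ψ.comp Abelianization.of, x.1, fun h => hx (Subtype.ext h), x.2,
    fun r => congrArg Subtype.val (hψ (Abelianization.of r))⟩⟩

/-- An element acting as a scalar-free identity on the weight space acts trivially on the piece. -/
theorem RadWeight.bar_eq_one_of_T (rw' : RadWeight pc) {g : rw'.Stab} (h : rw'.T g = 1) : rw'.bar g = 1 := by
  refine MulEquiv.ext fun y => ?_
  induction y using QuotientGroup.induction_on with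
  | _ s =>
    rw [MulAut.one_apply, rw'.bar_mk, QuotientGroup.eq]
    refine fun t => ?_
    set r := (pc.L.act (g : H) s)⁻¹ * s with hr
    have h1 := rw'.T_L g s
    rw [h, one_mul, mul_one] at h1
    have h2 : rw'.L r = 1 := by rw [hr, map_mul, h1, rw'.L_inv_mul]
    haveI := rw'.nontrivial
    obtain ⟨x, hx⟩ := exists_ne (0 : rw'.W)
    have h3 : rw'.L t x ≠ 0 := fun h0 => hx (by
      have := congrArg (rw'.L t⁻¹) h0
      rwa [← Module.End.mul_apply, rw'.L_inv_mul, Module.End.one_apply, map_zero] at this)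
    have h4 := LinearMap.congr_fun (rw'.L_comm r t) x
    rw [h2, one_mul, mul_one, LinearMap.smul_apply] at h4
    exact Units.ext (smul_left_injective k h3 ((one_smul k _).trans h4)).symm

section Series

variable [CharP k 2] {P : Subgroup H}

/-- The last term fixes the weights. -/
theorem RadWeight.mem_stab (rw' : RadWeight pc) (hP : IsPGroup 2 P) {n : ℕ}
    (h0 : dmod ρ P (n + 1 + 1) = ⊥) {a : H} (ha : a ∈ dser P (n + 1)) : a ∈ rw'.Stab := by
  by_contra has
  obtain ⟨x, hx, -, hx2⟩ := rw'.weight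
  have h := proj_of_moving (ρ := ρ) hP rw'.proj rw'.Stab (e := n + 1)
    (fun i hi hle => has (hle (dser_antitone P hi.le ha))) (ρ a - 1)
    (fun y hy F hF0 hF => LinearMap.ext fun v => kills h0 ha (chain_mem hy hF0 hF v _ le_rfl))
    (x := x) (fun g hg hb => ?_)
  · rw [LinearMap.sub_apply, Module.End.one_apply, map_sub, rw'.proj_moved has hx2, rw'.proj_weight hx2,
      zero_sub, neg_eq_zero, smul_eq_zero] at h
    exact h.elim rw'.card_ne_zero hx
  · rw [LinearMap.sub_apply, Module.End.one_apply, map_sub, ← Module.End.mul_apply (ρ _) (ρ g), ← map_mul ρ,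
      rw'.proj_moved (hb a ha) hx2, rw'.proj_moved (by simpa using hb 1 (one_mem _)) hx2, sub_zero]

/-- The last term is the identity unless the term before it fixes the weight. -/
theorem RadWeight.le_stab (rw' : RadWeight pc) (hP : IsPGroup 2 P) {n : ℕ}
    (h0 : dmod ρ P (n + 1 + 1) = ⊥) {a : rw'.Stab} (ha : (a : H) ∈ dser P (n + 1)) (hne : rw'.T a ≠ 1) :
    dser P n ≤ rw'.Stab := by
  by_contra hn
  refine hne (LinearMap.ext fun x => Subtype.ext ?_)
  have h := proj_of_moving (ρ := ρ) hP rw'.proj rw'.Stab (e := n + 1)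
    (fun i hi hle => hn ((dser_antitone P (Nat.le_of_lt_succ hi)).trans hle)) (ρ (a : H) - 1)
    (fun y hy F hF0 hF => LinearMap.ext fun v => kills h0 ha (chain_mem hy hF0 hF v _ le_rfl))
    (x := (x : V)) (fun g hg hb => ?_)
  · have hmem : (ρ (a : H) - 1) (x : V) ∈ rw'.W := sub_mem (rw'.map_mem_stab a.2 x.2) x.2
    rw [rw'.proj_weight hmem, smul_eq_zero, LinearMap.sub_apply, Module.End.one_apply, sub_eq_zero] at h
    exact h.resolve_left rw'.card_ne_zero
  · rw [LinearMap.sub_apply, Module.End.one_apply, map_sub, ← Module.End.mul_apply (ρ _) (ρ g), ← map_mul ρ,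
      rw'.proj_moved (hb a ha) x.2, rw'.proj_moved (by simpa using hb 1 (one_mem _)) x.2, sub_zero]

/-- The product of two factors is zero unless the term before them fixes the weight. -/
theorem RadWeight.two_factor (rw' : RadWeight pc) (hP : IsPGroup 2 P) {n : ℕ}
    (h0 : dmod ρ P (n + 1 + 1) = ⊥) (hmov : ∀ i < n, ¬ dser P i ≤ rw'.Stab) {a z : rw'.Stab}
    (ha : (a : H) ∈ dser P (n + 1)) (hz : (z : H) ∈ dser P n) : (rw'.T a - 1) * (rw'.T z - 1) = 0 := by
  refine LinearMap.ext fun x => Subtype.ext ?_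
  have h := proj_of_moving (ρ := ρ) hP rw'.proj rw'.Stab (e := n) hmov ((ρ (a : H) - 1) * (ρ (z : H) - 1))
    (fun y hy F hF0 hF => LinearMap.ext fun v => kills h0 ha (sub_one_mem_succ hz (chain_mem hy hF0 hF v _ le_rfl)))
    (x := (x : V)) (fun g hg hb => ?_)
  · have hz' : (ρ (z : H) - 1) (x : V) ∈ rw'.W := sub_mem (rw'.map_mem_stab z.2 x.2) x.2
    have hmem : ((ρ (a : H) - 1) * (ρ (z : H) - 1)) (x : V) ∈ rw'.W := sub_mem (rw'.map_mem_stab a.2 hz') hz'
    rw [rw'.proj_weight hmem, smul_eq_zero] at h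
    exact h.resolve_left rw'.card_ne_zero
  · have e : ∀ b ∈ dser P n, rw'.proj (ρ (b * g) (x : V)) = 0 := fun b hb' => rw'.proj_moved (hb b hb') x.2
    have haz : (a : H) ∈ dser P n := dser_succ_le P n ha
    simp only [Module.End.mul_apply, LinearMap.sub_apply, Module.End.one_apply, map_sub]
    simp only [← Module.End.mul_apply (ρ _) (ρ _), ← map_mul ρ, ← mul_assoc]
    rw [e _ (mul_mem haz hz), e _ haz, e _ hz, show rw'.proj (ρ g (x : V)) = 0 by simpa using e 1 (one_mem _)]
    simp

end Series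

end CfsgLib.PLengthTwoDer
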