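import Mathlib
import Cfsg.Agent.PLengthTwoDer.Twist

/-!
Quadratic relations between involutions on a weight space of a piece.
-/

set_option autoImplicit false
set_option maxHeartbeats 400000

open scoped commutatorElement

namespace CfsgLib.PLengthTwoDer

open CfsgLib.PLengthExp CfsgLib.PLengthGross CfsgLib.PLengthTwoExp

universe u v w

variable {k : Type w} [Field k] [IsAlgClosed k] {V : Type v} [AddCommGroup V] [Module k V] {H : Type u}
  [Group H] [Finite H] {ρ : H →* Module.End k V} {pc : WeightPiece ρ} (rw' : RadWeight pc)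
  {β : PieceMod pc →* PieceMod pc →* kˣ}

/-- The hypotheses on the pairing of a piece. -/
def IsPiecePairing (pc : WeightPiece ρ) (β : PieceMod pc →* PieceMod pc →* kˣ) : Prop :=
  IsAlt β ∧ (∀ y : pieceStab pc, Isom β (pieceAct pc y)) ∧
    ∀ s t : pc.L.R, β (s : PieceMod pc) (t : PieceMod pc) = pc.χ ⟨⁅s, t⁆, pc.L.class_two s t⟩

theorem isom_bar (hβ : IsPiecePairing pc β) (g : rw'.Stab) : Isom β (rw'.bar g) := hβ.2.1 _

theorem L_swap (hβ : IsPiecePairing pc β) (s t : pc.L.R) :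
    rw'.L s * rw'.L t = (β (s : PieceMod pc) (t : PieceMod pc) : k) • (rw'.L t * rw'.L s) := by
  rw [hβ.2.2, rw'.L_comm]

theorem exists_nonorth {N : Subgroup (PieceMod pc)} (hN : IsAlt (resPair β N)) {x : PieceMod pc} (hx : x ∈ N)
    (hx1 : x ≠ 1) : ∃ y ∈ N, β x y ≠ 1 := by
  by_contra h
  push Not at h
  exact hx1 (congrArg Subtype.val (hN.2 ⟨x, hx⟩ fun y => h y y.2) :)

theorem pair_sq_ne {x y : PieceMod pc} (h : β x y ≠ 1) : β (x ^ 2) (y ^ 2) ≠ 1 := by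
  haveI := Fact.mk pc.L.prime
  intro h4
  rw [map_pow, map_pow, MonoidHom.pow_apply, ← pow_mul] at h4
  obtain ⟨i, hi⟩ := isPGroup_pieceMod pc y
  exact h (eq_one_of_two_pow pc.L.q pc.L.ne_two (l := 2) h4 (by rw [← map_pow, hi, map_one]))

theorem eq_zero_of_smul_eq {M : Type*} [AddCommGroup M] [Module k M] {c : k} (hc : c ≠ 1) {X : M}
    (h : c • X = X) : X = 0 :=
  (smul_eq_zero.1 (show (c - 1) • X = 0 by rw [sub_smul, one_smul, h, sub_self])).resolve_left (sub_ne_zero.2 hc)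

/-- Left fixed by two non-orthogonal operators is zero. -/
theorem eq_zero_of_kill (hβ : IsPiecePairing pc β) {s t : pc.L.R}
    (hst : β (s : PieceMod pc) (t : PieceMod pc) ≠ 1) {X : Module.End k rw'.W} (hs : rw'.L s * X = X)
    (ht : rw'.L t * X = X) : X = 0 := by
  have h1 : rw'.L s * (rw'.L t * X) = X := by rw [ht, hs]
  rw [← mul_assoc, L_swap rw' hβ, smul_mul_assoc, mul_assoc, hs, ht] at h1
  exact eq_zero_of_smul_eq (k := k) (fun h => hst (Units.ext h)) h1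

theorem L_two (s : pc.L.R) : rw'.L (s ^ 2) = rw'.L s * rw'.L s := by rw [sq, map_mul]

/-- Moving an operator inverted by `g` across it. -/
theorem L_conj {g : rw'.Stab} {s : pc.L.R} (h : rw'.T g * rw'.L s = rw'.L s⁻¹ * rw'.T g) :
    rw'.L s * rw'.T g * rw'.L s⁻¹ = rw'.L (s ^ 2) * rw'.T g := by
  have h1 : rw'.T g * rw'.L s⁻¹ = rw'.L s * rw'.T g := by
    calc rw'.T g * rw'.L s⁻¹ = rw'.L s * (rw'.L s⁻¹ * rw'.T g) * rw'.L s⁻¹ := by
          rw [← mul_assoc (rw'.L s), ← map_mul, mul_inv_cancel, map_one, one_mul]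
      _ = rw'.L s * rw'.T g := by rw [← h, mul_assoc, mul_assoc, ← map_mul, mul_inv_cancel, map_one, mul_one]
  rw [mul_assoc, h1, ← mul_assoc, L_two]

theorem L_conj_comm {X : Module.End k rw'.W} {s : pc.L.R} (h : X * rw'.L s = rw'.L s * X) :
    rw'.L s * X * rw'.L s⁻¹ = X := by
  rw [← h, mul_assoc, ← map_mul, mul_inv_cancel, map_one, mul_one]

theorem conj_mul_end (s : pc.L.R) (X Y : Module.End k rw'.W) :
    rw'.L s * (X * Y) * rw'.L s⁻¹ = rw'.L s * X * rw'.L s⁻¹ * (rw'.L s * Y * rw'.L s⁻¹) := by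
  simp only [mul_assoc]
  rw [← mul_assoc (rw'.L s⁻¹) (rw'.L s), ← map_mul, inv_mul_cancel, map_one, one_mul]

theorem conj_sub_one (s : pc.L.R) (X : Module.End k rw'.W) :
    rw'.L s * (X - 1) * rw'.L s⁻¹ = rw'.L s * X * rw'.L s⁻¹ - 1 := by
  rw [mul_sub, sub_mul, mul_one, ← map_mul, mul_inv_cancel, map_one]

theorem cancel_T (g : rw'.Stab) {X : Module.End k rw'.W} (h : X * rw'.T g = 0) : X = 0 := by
  have h1 := congrArg (· * rw'.T g⁻¹) h
  simp only [zero_mul, mul_assoc, rw'.T_mul_inv, mul_one] at h1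
  exact h1

theorem conj_apply_T (g v : rw'.Stab) : rw'.T g * (rw'.T v - 1) = (rw'.T (g * v * g⁻¹) - 1) * rw'.T g := by
  rw [mul_sub, mul_one, sub_mul, one_mul, ← map_mul, ← map_mul, inv_mul_cancel_right]

variable {P : Subgroup H}

theorem pow_of_mem (hP : IsPGroup 2 P) {g : rw'.Stab} (hg : (g : H) ∈ P) : ∃ l : ℕ, g ^ 2 ^ l = 1 := by
  obtain ⟨l, hl⟩ := hP ⟨g, hg⟩
  refine ⟨l, Subtype.ext ?_⟩
  have h := congrArg Subtype.val hl
  rw [Subgroup.coe_pow, Subgroup.coe_one] at h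
  rw [Subgroup.coe_pow, Subgroup.coe_one]
  exact h

variable (hP : IsPGroup 2 P) (hβ : IsPiecePairing pc β)
include hP hβ

/-- An involution does not act as the identity along a kernel. -/
theorem false_of_fix_neg {g : rw'.Stab} (hg : (g : H) ∈ P) (hg2 : rw'.bar g ^ 2 = 1) {t : pc.L.R}
    (htf : (t : PieceMod pc) ∈ fixSub (rw'.bar g)) (ht1 : (t : PieceMod pc) ≠ 1) {x : PieceMod pc}
    (hxn : x ∈ negSub (rw'.bar g)) (hx1 : x ≠ 1) (h : (rw'.L (t ^ 2) - 1) * (rw'.T g - 1) = 0) : False := by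
  haveI := Fact.mk pc.L.prime
  have hM := isPGroup_pieceMod pc
  have hq2 := pc.L.ne_two
  obtain ⟨hF, hN⟩ := isAlt_res hq2 hM hβ.1 hg2 (isom_bar rw' hβ g)
  obtain ⟨r, rfl, hr⟩ := rw'.exists_inverted g hxn
  have hrt : rw'.L (t ^ 2) * rw'.L r = rw'.L r * rw'.L (t ^ 2) := by
    rw [L_swap rw' hβ, QuotientGroup.mk_pow, (beta_fix_neg hq2 hM (isom_bar rw' hβ g) (pow_mem htf 2) hxn).1,
      Units.val_one, one_smul]
  have h1 := congrArg (fun X => rw'.L r * X * rw'.L r⁻¹) h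
  simp only [mul_zero, zero_mul, conj_mul_end, conj_sub_one, L_conj_comm rw' hrt, L_conj rw' hr] at h1
  have h2 : (rw'.L (t ^ 2) - 1) * (rw'.L (r ^ 2) - 1) * rw'.T g = 0 := by
    calc (rw'.L (t ^ 2) - 1) * (rw'.L (r ^ 2) - 1) * rw'.T g
        = (rw'.L (t ^ 2) - 1) * (rw'.L (r ^ 2) * rw'.T g - 1) - (rw'.L (t ^ 2) - 1) * (rw'.T g - 1) := by
          (simp only [mul_sub, sub_mul, mul_add, add_mul, mul_one, one_mul, mul_assoc]; abel)
      _ = 0 := by rw [h1, h, sub_zero]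
  have h3 := cancel_T rw' g h2
  obtain ⟨y, hy, hty⟩ := exists_nonorth hF htf ht1
  obtain ⟨y, rfl⟩ := QuotientGroup.mk_surjective y
  have hyr : rw'.L (r ^ 2) * rw'.L y = rw'.L y * rw'.L (r ^ 2) := by
    rw [L_swap rw' hβ, QuotientGroup.mk_pow, (beta_fix_neg hq2 hM (isom_bar rw' hβ g) hy (pow_mem hxn 2)).2,
      Units.val_one, one_smul]
  set mu := β (y : PieceMod pc) ((t ^ 2 : pc.L.R) : PieceMod pc) with hmu
  have hmu1 : mu ≠ 1 := by
    intro hmu1
    rw [hmu, QuotientGroup.mk_pow, map_pow] at hmu1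
    obtain ⟨i, hi⟩ := hM (t : PieceMod pc)
    have h5 : β (y : PieceMod pc) (t : PieceMod pc) = 1 :=
      eq_one_of_two_pow pc.L.q hq2 (l := 1) (by rwa [pow_one]) (by rw [← map_pow, hi, map_one])
    refine hty ?_
    have h6 := hβ.1.1 ((t : PieceMod pc) * (y : PieceMod pc))
    rw [map_mul β, MonoidHom.mul_apply, map_mul, map_mul, hβ.1.1, hβ.1.1, h5, one_mul, mul_one, mul_one] at h6
    exact h6
  have h4 := congrArg (fun X => rw'.L y * X * rw'.L y⁻¹) h3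
  simp only [mul_zero, zero_mul, conj_mul_end, conj_sub_one, L_conj_comm rw' hyr] at h4
  rw [L_swap rw' hβ y (t ^ 2), ← hmu, smul_mul_assoc, mul_assoc, ← map_mul _ y y⁻¹, mul_inv_cancel, map_one,
    mul_one] at h4
  have h5 : rw'.L (t ^ 2) * (rw'.L (r ^ 2) - 1) = 0 := by
    refine eq_zero_of_smul_eq (k := k) (c := (mu : k)) (fun e => hmu1 (Units.ext e)) ?_
    rw [← smul_mul_assoc]
    calc (mu : k) • rw'.L (t ^ 2) * (rw'.L (r ^ 2) - 1)
        = ((mu : k) • rw'.L (t ^ 2) - 1) * (rw'.L (r ^ 2) - 1) + (rw'.L (r ^ 2) - 1) := by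
          rw [sub_mul, one_mul, sub_add_cancel]
      _ = (rw'.L (t ^ 2) - 1) * (rw'.L (r ^ 2) - 1) + (rw'.L (r ^ 2) - 1) := by rw [h4, h3]
      _ = rw'.L (t ^ 2) * (rw'.L (r ^ 2) - 1) := by rw [sub_mul, one_mul, sub_add_cancel]
  have h6 : rw'.L (r ^ 2) = 1 := by
    have h7 := congrArg (rw'.L (t ^ 2)⁻¹ * ·) h5
    simp only [mul_zero, ← mul_assoc, ← map_mul, inv_mul_cancel, map_one, one_mul] at h7
    exact sub_eq_zero.1 h7
  obtain ⟨r', -, hr'⟩ := exists_nonorth hN hxn hx1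
  obtain ⟨r', rfl⟩ := QuotientGroup.mk_surjective r'
  have h8 := L_swap rw' hβ (r ^ 2) (r' ^ 2)
  rw [h6, one_mul, mul_one] at h8
  have h9 : rw'.L (r' ^ 2) ≠ 0 := by
    haveI := rw'.nontrivial
    intro h0
    have := rw'.L_inv_mul (r' ^ 2)
    rw [h0, mul_zero] at this
    exact zero_ne_one this
  refine pair_sq_ne hr' (Units.ext ?_)
  rw [← QuotientGroup.mk_pow, ← QuotientGroup.mk_pow]
  exact (smul_left_injective k h9 ((one_smul k _).trans h8)).symm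

variable {a : rw'.Stab} (ha : (a : H) ∈ P) (ha2 : rw'.bar a ^ 2 = 1) (ha1 : rw'.bar a ≠ 1)
include ha ha2 ha1

omit hP ha in
theorem exists_pair_neg : ∃ s t : pc.L.R, rw'.T a * rw'.L s = rw'.L s⁻¹ * rw'.T a ∧
    rw'.T a * rw'.L t = rw'.L t⁻¹ * rw'.T a ∧ (s : PieceMod pc) ∈ negSub (rw'.bar a) ∧
    (t : PieceMod pc) ∈ negSub (rw'.bar a) ∧ β ((s ^ 2 : pc.L.R) : PieceMod pc) ((t ^ 2 : pc.L.R) : PieceMod pc) ≠ 1 := by
  haveI := Fact.mk pc.L.prime
  obtain ⟨x, hx⟩ : ∃ x, rw'.bar a x ≠ x := by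
    by_contra h
    push Not at h
    exact ha1 (MulEquiv.ext h)
  have hxn := (mul_apply_mem ha2 x).2
  have hx1 : x * (rw'.bar a x)⁻¹ ≠ 1 := fun h => hx (mul_inv_eq_one.1 h).symm
  obtain ⟨y, hy, hxy⟩ := exists_nonorth
    (isAlt_res pc.L.ne_two (isPGroup_pieceMod pc) hβ.1 ha2 (isom_bar rw' hβ a)).2 hxn hx1
  obtain ⟨s, hs, hs'⟩ := rw'.exists_inverted a hxn
  obtain ⟨t, ht, ht'⟩ := rw'.exists_inverted a hy
  exact ⟨s, t, hs', ht', hs ▸ hxn, ht ▸ hy, by
    rw [QuotientGroup.mk_pow, QuotientGroup.mk_pow, hs, ht]; exact pair_sq_ne hxy⟩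

/-- An element linked quadratically with a nontrivial involution and trivial on the piece is the identity. -/
theorem T_eq_one {e : rw'.Stab} (he : (e : H) ∈ P) (he1 : rw'.bar e = 1)
    (h : (rw'.T a - 1) * (rw'.T e - 1) = 0) : rw'.T e = 1 := by
  obtain ⟨s, t, hs, ht, -, -, hst⟩ := exists_pair_neg rw' hβ ha2 ha1
  have key : ∀ s : pc.L.R, rw'.T a * rw'.L s = rw'.L s⁻¹ * rw'.T a →
      rw'.L (s ^ 2) * (rw'.T (a * e * a⁻¹) - 1) = rw'.T (a * e * a⁻¹) - 1 := by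
    intro s hs
    have hes := rw'.commute_of_fixed (pow_of_mem rw' hP he) (t := s) (by rw [he1]; rfl)
    have h1 := congrArg (fun X => rw'.L s * X * rw'.L s⁻¹) h
    simp only [mul_zero, zero_mul, conj_mul_end, conj_sub_one, L_conj rw' hs, L_conj_comm rw' hes] at h1
    have h2 : (rw'.L (s ^ 2) - 1) * (rw'.T (a * e * a⁻¹) - 1) * rw'.T a = 0 := by
      rw [mul_assoc, ← conj_apply_T]
      calc (rw'.L (s ^ 2) - 1) * (rw'.T a * (rw'.T e - 1))
          = (rw'.L (s ^ 2) * rw'.T a - 1) * (rw'.T e - 1) - (rw'.T a - 1) * (rw'.T e - 1) := by (simp only [mul_sub, sub_mul, mul_add, add_mul, mul_one, one_mul, mul_assoc]; abel)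
        _ = 0 := by rw [h1, h, sub_zero]
    have h3 := cancel_T rw' a h2
    rwa [sub_mul, one_mul, sub_eq_zero] at h3
  have h4 := sub_eq_zero.1 (eq_zero_of_kill rw' hβ hst (key s hs) (key t ht))
  calc rw'.T e = rw'.T (a⁻¹ * (a * e * a⁻¹) * a) := congrArg rw'.T (by group)
    _ = 1 := by rw [map_mul, map_mul, h4, mul_one, ← map_mul, inv_mul_cancel, map_one]

/-- Two involutions linked quadratically agree on the piece. -/
theorem bar_eq {v : rw'.Stab} (hv : (v : H) ∈ P) (hv2 : rw'.bar v ^ 2 = 1) (hv1 : rw'.bar v ≠ 1)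
    (hcomm : rw'.bar a * rw'.bar v = rw'.bar v * rw'.bar a) (h : (rw'.T a - 1) * (rw'.T v - 1) = 0) :
    rw'.bar v = rw'.bar a := by
  haveI := Fact.mk pc.L.prime
  have hM := isPGroup_pieceMod pc
  have hq2 := pc.L.ne_two
  have hneg : ∀ w : rw'.Stab, rw'.bar w ^ 2 = 1 → rw'.bar w ≠ 1 → ∃ x ∈ negSub (rw'.bar w), x ≠ 1 := by
    intro w hw2 hw1
    by_contra hc
    push Not at hc
    exact hw1 (MulEquiv.ext fun x => (mul_inv_eq_one.1 (hc _ (mul_apply_mem hw2 x).2)).symm)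
  by_cases h1 : ∃ x ∈ negSub (rw'.bar a), x ∈ fixSub (rw'.bar v) ∧ x ≠ 1
  · exfalso
    obtain ⟨x, hxn, hxf, hx1⟩ := h1
    obtain ⟨t, rfl, ht⟩ := rw'.exists_inverted a hxn
    have htv := rw'.commute_of_fixed (pow_of_mem rw' hP hv) (t := t) hxf
    have h2 := congrArg (fun X => rw'.L t * X * rw'.L t⁻¹) h
    simp only [mul_zero, zero_mul, conj_mul_end, conj_sub_one, L_conj rw' ht, L_conj_comm rw' htv] at h2
    have h3 : (rw'.L (t ^ 2) - 1) * (rw'.T (a * v * a⁻¹) - 1) * rw'.T a = 0 := by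
      rw [mul_assoc, ← conj_apply_T]
      calc (rw'.L (t ^ 2) - 1) * (rw'.T a * (rw'.T v - 1))
          = (rw'.L (t ^ 2) * rw'.T a - 1) * (rw'.T v - 1) - (rw'.T a - 1) * (rw'.T v - 1) := by (simp only [mul_sub, sub_mul, mul_add, add_mul, mul_one, one_mul, mul_assoc]; abel)
        _ = 0 := by rw [h2, h, sub_zero]
    have hbar : rw'.bar (a * v * a⁻¹) = rw'.bar v := by
      rw [map_mul, map_mul, map_inv, hcomm, mul_inv_cancel_right]
    obtain ⟨y, hyn, hy1⟩ := hneg v hv2 hv1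
    exact false_of_fix_neg rw' hP hβ (g := a * v * a⁻¹) (mul_mem (mul_mem ha hv) (inv_mem ha)) (hbar ▸ hv2)
      (t := t) (hbar ▸ hxf) hx1 (hbar ▸ hyn) hy1 (cancel_T rw' a h3)
  by_cases h2 : ∃ x ∈ negSub (rw'.bar v), x ∈ fixSub (rw'.bar a) ∧ x ≠ 1
  · exfalso
    obtain ⟨x, hxn, hxf, hx1⟩ := h2
    obtain ⟨t, rfl, ht⟩ := rw'.exists_inverted v hxn
    have hta := rw'.commute_of_fixed (pow_of_mem rw' hP ha) (t := t) hxf
    have hta2 : rw'.T a * rw'.L (t ^ 2) = rw'.L (t ^ 2) * rw'.T a := by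
      rw [L_two, ← mul_assoc, hta, mul_assoc, hta, mul_assoc]
    have h2' := congrArg (fun X => rw'.L t * X * rw'.L t⁻¹) h
    simp only [mul_zero, zero_mul, conj_mul_end, conj_sub_one, L_conj rw' ht, L_conj_comm rw' hta] at h2'
    have h3 : (rw'.L (t ^ 2) - 1) * (rw'.T a - 1) * rw'.T v = 0 := by
      have e : (rw'.L (t ^ 2) - 1) * (rw'.T a - 1) = (rw'.T a - 1) * (rw'.L (t ^ 2) - 1) := by
        simp only [sub_mul, mul_sub, one_mul, mul_one, hta2]; abel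
      rw [e]
      calc (rw'.T a - 1) * (rw'.L (t ^ 2) - 1) * rw'.T v
          = (rw'.T a - 1) * (rw'.L (t ^ 2) * rw'.T v - 1) - (rw'.T a - 1) * (rw'.T v - 1) := by (simp only [mul_sub, sub_mul, mul_add, add_mul, mul_one, one_mul, mul_assoc]; abel)
        _ = 0 := by rw [h2', h, sub_zero]
    obtain ⟨y, hyn, hy1⟩ := hneg a ha2 ha1
    exact false_of_fix_neg rw' hP hβ ha ha2 (t := t) hxf hx1 hyn hy1 (cancel_T rw' v h3)
  -- equal negatives
  push Not at h1 h2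
  have hsub : ∀ (u w : MulAut (PieceMod pc)), u ^ 2 = 1 → w ^ 2 = 1 → w * u = u * w →
      (∀ x ∈ negSub u, x ∈ fixSub w → x = 1) → negSub u ≤ negSub w := by
    intro u w hu2 hw2 hwu hh x hx
    have hwx : w x ∈ negSub u := ((mem_presSub_neg_of_commute hwu) x).1 hx
    have h3 := hh (x * w x) (mul_mem hx hwx) (mul_apply_mem hw2 x).1
    exact mem_negSub.2 (eq_inv_of_mul_eq_one_right h3)
  have e1 := hsub _ _ ha2 hv2 hcomm.symm h1
  refine ext_fix_neg hq2 hM ha2 (fun x hx => ?_) fun x hx => ?_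
  · rw [mem_fixSub.1 hx]
    have hvx : rw'.bar v x ∈ fixSub (rw'.bar a) := ((mem_presSub_of_commute hcomm.symm) x).1 hx
    exact (mul_inv_eq_one.1 (h2 _ (mul_apply_mem hv2 x).2 (mul_mem hx (inv_mem hvx)))).symm
  · rw [mem_negSub.1 hx, mem_negSub.1 (e1 hx)]

/-- Two elements with the same involution on the piece linked quadratically are equal operators. -/
theorem T_eq [CharP k 2] {v : rw'.Stab} (hv : (v : H) ∈ P) (hva : rw'.bar v = rw'.bar a)
    (h : (rw'.T a - 1) * (rw'.T v - 1) = 0) : rw'.T v = rw'.T a := by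
  obtain ⟨s, t, hs, ht, -, -, hst⟩ := exists_pair_neg rw' hβ ha2 ha1
  have key : ∀ s : pc.L.R, rw'.T a * rw'.L s = rw'.L s⁻¹ * rw'.T a →
      rw'.L (s ^ 2) * (rw'.T a + rw'.T v) = rw'.T a + rw'.T v := by
    intro s hs
    have hd : (a⁻¹ * v : rw'.Stab) ∈ P.subgroupOf rw'.Stab := mul_mem (inv_mem ha) hv
    have hvs : rw'.T v * rw'.L s = rw'.L s⁻¹ * rw'.T v := by
      have hf := rw'.commute_of_fixed (pow_of_mem rw' hP (g := a⁻¹ * v) hd) (t := s)
        (by rw [map_mul, map_inv, hva, inv_mul_cancel]; rfl)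
      rw [show rw'.T v = rw'.T a * rw'.T (a⁻¹ * v) by rw [← map_mul, mul_inv_cancel_left], mul_assoc, hf,
        ← mul_assoc, hs, mul_assoc]
    have h1 := congrArg (fun X => rw'.L s * X * rw'.L s⁻¹) h
    simp only [mul_zero, zero_mul, conj_mul_end, conj_sub_one, L_conj rw' hs, L_conj rw' hvs] at h1
    have hsa : rw'.T a * rw'.L (s ^ 2) = rw'.L (s ^ 2)⁻¹ * rw'.T a := by
      rw [L_two, ← mul_assoc, hs, mul_assoc, hs, ← mul_assoc, ← map_mul]
      congr 2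
      group
    have hLL : rw'.L (s ^ 2) * rw'.L (s ^ 2)⁻¹ = 1 := by rw [← map_mul, mul_inv_cancel, map_one]
    have e : rw'.L (s ^ 2) * rw'.T a * (rw'.L (s ^ 2) * rw'.T v) = rw'.T a * rw'.T v := by
      rw [mul_assoc, ← mul_assoc (rw'.T a), hsa, mul_assoc (rw'.L _), ← mul_assoc, hLL, one_mul]
    have h2 : rw'.L (s ^ 2) * (rw'.T a + rw'.T v) - (rw'.T a + rw'.T v) = 0 := by
      calc rw'.L (s ^ 2) * (rw'.T a + rw'.T v) - (rw'.T a + rw'.T v)
          = (rw'.T a - 1) * (rw'.T v - 1) - (rw'.L (s ^ 2) * rw'.T a - 1) * (rw'.L (s ^ 2) * rw'.T v - 1) +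
            (rw'.L (s ^ 2) * rw'.T a * (rw'.L (s ^ 2) * rw'.T v) - rw'.T a * rw'.T v) := by (simp only [mul_sub, sub_mul, mul_add, add_mul, mul_one, one_mul, mul_assoc]; abel)
        _ = 0 := by rw [h, h1, e, sub_self, sub_self, add_zero]
    exact sub_eq_zero.1 h2
  have h3 := eq_zero_of_kill rw' hβ hst (key s hs) (key t ht)
  have h4 : rw'.T v + rw'.T v = 0 := add_self_end _
  exact add_right_cancel (h4.trans h3.symm)

end CfsgLib.PLengthTwoDer
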