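import Mathlib
import Cfsg.Agent.PLengthTwoDer.Quad
import Cfsg.Agent.PLengthTwoDer.Project

/-!
Averaging over the layer: the conjugates of an involution inverting a nondegenerate part of a piece.
-/

set_option autoImplicit false
set_option maxHeartbeats 400000

open scoped commutatorElement

namespace CfsgLib.PLengthTwoDer

open CfsgLib.PLengthExp CfsgLib.PLengthGross CfsgLib.PLengthTwoExp

universe u v w

variable {k : Type w} [Field k] [IsAlgClosed k] {V : Type v} [AddCommGroup V] [Module k V] {H : Type u}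
  [Group H] [Finite H] {ρ : H →* Module.End k V} {pc : WeightPiece ρ} (rw' : RadWeight pc)
  (β : PieceMod pc →* PieceMod pc →* kˣ)

omit [IsAlgClosed k] in
theorem eq_zero_of_smul_eq_smul {M : Type*} [AddCommGroup M] [Module k M] {c d : k} (h : c ≠ d) {X : M}
    (e : c • X = d • X) : X = 0 :=
  (smul_eq_zero.1 (show (c - d) • X = 0 by rw [sub_smul, e, sub_self])).resolve_left (sub_ne_zero.2 h)

/-- The average of the conjugates of an operator against a character of the piece. -/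
noncomputable def avg (y : PieceMod pc) : Module.End k rw'.W →ₗ[k] Module.End k rw'.W :=
  letI := Fintype.ofFinite pc.L.R
  ∑ t : pc.L.R, ((β (t : PieceMod pc) y)⁻¹ : kˣ).val •
    ((LinearMap.mulLeft k (rw'.L t)).comp (LinearMap.mulRight k (rw'.L t⁻¹)))

theorem avg_apply [Fintype pc.L.R] (y : PieceMod pc) (Z : Module.End k rw'.W) :
    avg rw' β y Z = ∑ t : pc.L.R, ((β (t : PieceMod pc) y)⁻¹ : kˣ).val • (rw'.L t * Z * rw'.L t⁻¹) := by
  unfold avg
  rw [LinearMap.sum_apply]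
  refine Finset.sum_congr (by ext; simp) fun t _ => ?_
  rw [LinearMap.smul_apply, LinearMap.comp_apply, LinearMap.mulRight_apply, LinearMap.mulLeft_apply, mul_assoc]

theorem L_conj_swap (hβ : IsPiecePairing pc β) (s t : pc.L.R) (Z : Module.End k rw'.W) :
    rw'.L s * (rw'.L t * Z * rw'.L t⁻¹) * rw'.L s⁻¹ = rw'.L t * (rw'.L s * Z * rw'.L s⁻¹) * rw'.L t⁻¹ := by
  have h1 := L_swap rw' hβ s t
  have h2 := L_swap rw' hβ t⁻¹ s⁻¹
  have h3 : (β (s : PieceMod pc) (t : PieceMod pc) : k) *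
      (β ((t⁻¹ : pc.L.R) : PieceMod pc) ((s⁻¹ : pc.L.R) : PieceMod pc) : k) = 1 := by
    have h := hβ.1.1 ((s : PieceMod pc) * (t : PieceMod pc))
    rw [map_mul β, MonoidHom.mul_apply, map_mul, map_mul, hβ.1.1, hβ.1.1, one_mul, mul_one] at h
    rw [← Units.val_mul, QuotientGroup.mk_inv, QuotientGroup.mk_inv, map_inv β, MonoidHom.inv_apply, map_inv,
      inv_inv, h, Units.val_one]
  calc rw'.L s * (rw'.L t * Z * rw'.L t⁻¹) * rw'.L s⁻¹
      = (rw'.L s * rw'.L t) * Z * (rw'.L t⁻¹ * rw'.L s⁻¹) := by simp only [mul_assoc]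
    _ = rw'.L t * (rw'.L s * Z * rw'.L s⁻¹) * rw'.L t⁻¹ := by
      rw [h1, h2, smul_mul_assoc, mul_smul_comm, smul_mul_assoc, smul_smul, mul_comm _ (β (s : PieceMod pc) (t : PieceMod pc) : k), h3, one_smul]
      simp only [mul_assoc]

theorem avg_conj (s : pc.L.R) (y : PieceMod pc) (Z : Module.End k rw'.W) :
    rw'.L s * avg rw' β y Z * rw'.L s⁻¹ = (β (s : PieceMod pc) y : k) • avg rw' β y Z := by
  letI := Fintype.ofFinite pc.L.R
  rw [avg_apply, Finset.mul_sum, Finset.sum_mul, Finset.smul_sum]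
  refine Fintype.sum_equiv (Equiv.mulLeft s) _ _ fun t => ?_
  rw [Equiv.coe_mulLeft, mul_smul_comm, smul_mul_assoc, smul_smul, QuotientGroup.mk_mul, map_mul β,
    MonoidHom.mul_apply, mul_inv, ← Units.val_mul, mul_inv_cancel_left, map_mul, mul_inv_rev, map_mul]
  simp only [mul_assoc]

theorem conj_avg (hβ : IsPiecePairing pc β) (s : pc.L.R) (y : PieceMod pc) (Z : Module.End k rw'.W) :
    rw'.L s * avg rw' β y Z * rw'.L s⁻¹ = avg rw' β y (rw'.L s * Z * rw'.L s⁻¹) := by
  letI := Fintype.ofFinite pc.L.R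
  rw [avg_apply, avg_apply, Finset.mul_sum, Finset.sum_mul]
  exact Finset.sum_congr rfl fun t _ => by rw [mul_smul_comm, smul_mul_assoc, L_conj_swap rw' β hβ]

theorem avg_L_mul (hβ : IsPiecePairing pc β) (r : pc.L.R) (y : PieceMod pc) (Z : Module.End k rw'.W) :
    avg rw' β y (rw'.L r * Z) = rw'.L r * avg rw' β (y * ((r : PieceMod pc))⁻¹) Z := by
  letI := Fintype.ofFinite pc.L.R
  rw [avg_apply, avg_apply, Finset.mul_sum]
  refine Finset.sum_congr rfl fun t _ => ?_
  rw [← mul_assoc (rw'.L t), L_swap rw' hβ t r, smul_mul_assoc, smul_mul_assoc, mul_smul_comm, smul_smul,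
    map_mul (β (t : PieceMod pc)), map_inv (β (t : PieceMod pc)), mul_inv, inv_inv, Units.val_mul]
  simp only [mul_assoc]

variable {P : Subgroup H} (hP : IsPGroup 2 P) (hβ : IsPiecePairing pc β)
include hP hβ

/-- The average kills a conjugate whose character does not match. -/
theorem avg_kill {g : rw'.Stab} (hg : (g : H) ∈ P) (hg2 : rw'.bar g ^ 2 = 1) (r : pc.L.R) {y : PieceMod pc}
    (h : rw'.bar g ((r : PieceMod pc) * y⁻¹) ≠ ((r : PieceMod pc) * y⁻¹)⁻¹) :
    avg rw' β y (rw'.L r * rw'.T g) = 0 := by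
  haveI := Fact.mk pc.L.prime
  set z := (r : PieceMod pc) * y⁻¹ with hz
  clear_value z
  obtain ⟨t₁, ht₁, hne⟩ := exists_nonorth
    (isAlt_res pc.L.ne_two (isPGroup_pieceMod pc) hβ.1 hg2 (isom_bar rw' hβ g)).1 (mul_apply_mem hg2 z).1
    fun e => h (eq_inv_of_mul_eq_one_right e)
  obtain ⟨t₁, rfl⟩ := QuotientGroup.mk_surjective t₁
  have hzt : β (t₁ : PieceMod pc) z ≠ 1 := by
    intro e
    have e' : β z (t₁ : PieceMod pc) = 1 := by
      have h6 := hβ.1.1 (z * (t₁ : PieceMod pc))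
      rw [map_mul β, MonoidHom.mul_apply, map_mul, map_mul, hβ.1.1, hβ.1.1, e, one_mul, mul_one, mul_one] at h6
      exact h6
    refine hne ?_
    rw [map_mul β, MonoidHom.mul_apply, e', one_mul]
    have h2 := isom_bar rw' hβ g z (t₁ : PieceMod pc)
    rw [mem_fixSub.1 ht₁] at h2
    rw [h2, e']
  have hc : rw'.L t₁ * (rw'.L r * rw'.T g) * rw'.L t₁⁻¹ =
      (β (t₁ : PieceMod pc) (r : PieceMod pc) : k) • (rw'.L r * rw'.T g) := by
    have h1 := rw'.commute_of_fixed (pow_of_mem rw' hP hg) (t := t₁) (mem_fixSub.1 ht₁)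
    rw [← mul_assoc, L_swap rw' hβ t₁ r, smul_mul_assoc, smul_mul_assoc, mul_assoc (rw'.L r), ← h1, mul_assoc,
      mul_assoc, ← map_mul, mul_inv_cancel, map_one, mul_one]
  have h1 := conj_avg rw' β hβ t₁ y (rw'.L r * rw'.T g)
  rw [avg_conj, hc, map_smul] at h1
  refine eq_zero_of_smul_eq_smul (k := k) (fun e => hzt ?_) h1
  rw [hz, map_mul, map_inv, Units.ext e, mul_inv_cancel]

omit hP in
/-- The average of a conjugate by an inverted lift. -/
theorem avg_inverted {a : rw'.Stab} {r : pc.L.R} (hr : rw'.T a * rw'.L r = rw'.L r⁻¹ * rw'.T a) (y : PieceMod pc) :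
    avg rw' β y (rw'.L (r ^ 2) * rw'.T a) = (β (r : PieceMod pc) y : k) • avg rw' β y (rw'.T a) := by
  rw [← L_conj rw' hr, ← conj_avg rw' β hβ, avg_conj]

/-- The averages of an involution along the inverted points do not vanish. -/
theorem avg_ne_zero [CharP k 2] {a : rw'.Stab} (ha : (a : H) ∈ P) (ha2 : rw'.bar a ^ 2 = 1) {y : PieceMod pc}
    (hy : y ∈ negSub (rw'.bar a)) : avg rw' β y (rw'.T a) ≠ 0 := by
  haveI := Fact.mk pc.L.prime
  haveI := rw'.nontrivial
  intro h0
  have hall : ∀ x : PieceMod pc, avg rw' β x (rw'.T a) = 0 := by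
    intro x
    by_cases hx : x ∈ negSub (rw'.bar a)
    · obtain ⟨d, hd⟩ := exists_sq pc.L.ne_two ((isPGroup_pieceMod pc).to_subgroup (negSub (rw'.bar a)))
        (⟨y, hy⟩ * ⟨x, hx⟩⁻¹ : negSub (rw'.bar a))
      obtain ⟨r, hr, hr'⟩ := rw'.exists_inverted a d.2
      have h1 := avg_inverted rw' β hβ hr' y
      rw [h0, smul_zero, avg_L_mul rw' β hβ] at h1
      have h2 := congrArg (rw'.L (r ^ 2)⁻¹ * ·) h1
      simp only [mul_zero, ← mul_assoc, rw'.L_inv_mul, one_mul] at h2
      have e : (((r ^ 2 : pc.L.R)) : PieceMod pc) = y * x⁻¹ := by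
        rw [QuotientGroup.mk_pow, hr]
        exact congrArg Subtype.val hd
      rwa [e, mul_inv_rev, inv_inv, mul_comm x, mul_inv_cancel_left] at h2
    · have h1 := avg_kill rw' β hP hβ ha ha2 1 (y := x) (fun e => hx ?_)
      · rwa [map_one, one_mul] at h1
      · rw [QuotientGroup.mk_one, one_mul, inv_inv] at e
        rw [mem_negSub, ← inv_inj, ← map_inv, e, inv_inv]
  letI := Fintype.ofFinite pc.L.R
  letI := Fintype.ofFinite (PieceMod pc)
  classical
  have hsum : ∑ x : PieceMod pc, avg rw' β x (rw'.T a) =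
      ((Nat.card (PieceMod pc) : k) * (Nat.card pc.rad : k)) • rw'.T a := by
    simp only [avg_apply]
    rw [Finset.sum_comm, ← Finset.sum_filter_add_sum_filter_not Finset.univ (fun t => t ∈ pc.rad)]
    have hin : ∀ t ∈ Finset.univ.filter (fun t : pc.L.R => t ∈ pc.rad),
        ∑ x : PieceMod pc, ((β (t : PieceMod pc) x)⁻¹ : kˣ).val • (rw'.L t * rw'.T a * rw'.L t⁻¹) =
          (Nat.card (PieceMod pc) : k) • rw'.T a := by
      intro t ht
      have htr := (Finset.mem_filter.1 ht).2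
      rw [← Finset.sum_smul, Finset.sum_congr rfl fun x _ => show ((β (t : PieceMod pc) x)⁻¹ : kˣ).val = 1 by
          rw [(QuotientGroup.eq_one_iff t).2 htr, map_one, MonoidHom.one_apply, inv_one, Units.val_one],
        Finset.sum_const, Finset.card_univ, ← Nat.card_eq_fintype_card, nsmul_eq_mul, mul_one,
        rw'.L_rad ⟨t, htr⟩, show t⁻¹ = ((⟨t, htr⟩⁻¹ : pc.rad) : pc.L.R) from rfl, rw'.L_rad, map_inv,
        smul_mul_assoc, one_mul, smul_mul_assoc, mul_smul_comm, mul_one, smul_smul (rw'.ψ _).val, ← Units.val_mul,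
        mul_inv_cancel, Units.val_one, one_smul]
    have hout : ∀ t ∈ Finset.univ.filter (fun t : pc.L.R => ¬ t ∈ pc.rad),
        ∑ x : PieceMod pc, ((β (t : PieceMod pc) x)⁻¹ : kˣ).val • (rw'.L t * rw'.T a * rw'.L t⁻¹) = 0 := by
      intro t ht
      have hφ : (β (t : PieceMod pc))⁻¹ ≠ (1 : PieceMod pc →* kˣ) := fun e => (Finset.mem_filter.1 ht).2
        ((QuotientGroup.eq_one_iff t).1 (hβ.1.2 _ fun x => inv_eq_one.1 (DFunLike.congr_fun e x)))
      rw [← Finset.sum_smul, show (∑ x : PieceMod pc, ((β (t : PieceMod pc) x)⁻¹ : kˣ).val) = 0 from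
        CfsgLib.FpfAut.sum_units_eq_zero hφ, zero_smul]
    rw [Finset.sum_congr rfl hin, Finset.sum_congr rfl hout, Finset.sum_const_zero, add_zero, Finset.sum_const,
      ← Nat.cast_smul_eq_nsmul k, smul_smul, mul_comm]
    congr 3
    rw [Nat.card_eq_fintype_card, Fintype.card_subtype]
  rw [Finset.sum_eq_zero fun x _ => hall x, eq_comm, smul_eq_zero] at hsum
  rcases hsum with h | h
  · refine (mul_ne_zero ?_ rw'.card_ne_zero) h
    obtain ⟨i, hi⟩ := IsPGroup.iff_card.1 (isPGroup_pieceMod pc)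
    rw [Ne, CharP.cast_eq_zero_iff k 2, hi]
    exact fun h => pc.L.ne_two ((Nat.prime_dvd_prime_iff_eq Nat.prime_two pc.L.prime).1
      (Nat.prime_two.dvd_of_dvd_pow h)).symm
  · have := rw'.T_mul_inv a
    rw [h, zero_mul] at this
    exact zero_ne_one this

end CfsgLib.PLengthTwoDer
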