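import Mathlib
import Cfsg.Agent.PLengthTwoDer.Average

/-!
Two anticommuting involutions on the points inverted by a third: the order of the plane.
-/

set_option autoImplicit false
set_option maxHeartbeats 800000

open scoped commutatorElement

namespace CfsgLib.PLengthTwoDer

open CfsgLib.PLengthExp CfsgLib.PLengthGross CfsgLib.PLengthTwoExp

universe u v w

variable {k : Type w} [Field k] [IsAlgClosed k] {V : Type v} [AddCommGroup V] [Module k V] {H : Type u}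
  [Group H] [Finite H] {ρ : H →* Module.End k V} {pc : WeightPiece ρ} (rw' : RadWeight pc)
  {β : PieceMod pc →* PieceMod pc →* kˣ}

/-- The inverse of an inverted operator is inverted. -/
theorem inverted_inv {g : rw'.Stab} {s : pc.L.R} (h : rw'.T g * rw'.L s = rw'.L s⁻¹ * rw'.T g) :
    rw'.T g * rw'.L s⁻¹ = rw'.L s * rw'.T g := by
  calc rw'.T g * rw'.L s⁻¹ = rw'.L s * (rw'.L s⁻¹ * rw'.T g) * rw'.L s⁻¹ := by
        rw [← mul_assoc (rw'.L s), ← map_mul, mul_inv_cancel, map_one, one_mul]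
    _ = rw'.L s * rw'.T g := by rw [← h, mul_assoc, mul_assoc, ← map_mul, mul_inv_cancel, map_one, mul_one]

theorem inverted_sq {g : rw'.Stab} {s : pc.L.R} (h : rw'.T g * rw'.L s = rw'.L s⁻¹ * rw'.T g) :
    rw'.T g * rw'.L (s ^ 2) = rw'.L (s ^ 2)⁻¹ * rw'.T g := by
  rw [L_two, ← mul_assoc, h, mul_assoc, h, ← mul_assoc, ← map_mul]
  congr 2
  group

omit [IsAlgClosed k] in
theorem eq_zero_of_four {M : Type*} [AddCommGroup M] [Module k M] {c₁ c₂ c₃ c₄ : k} {S : M} (hS : S ≠ 0)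
    (h : -(c₁ • S) + -(c₂ • S) + (-(c₃ • S) + -(c₄ • S)) = 0) : c₁ + c₂ + (c₃ + c₄) = 0 := by
  rw [← neg_add, ← neg_add, ← neg_add, neg_eq_zero, ← add_smul, ← add_smul, ← add_smul, smul_eq_zero] at h
  exact h.resolve_right hS

variable [CharP k 2] {P : Subgroup H} (hP : IsPGroup 2 P) (hβ : IsPiecePairing pc β) {a b c : rw'.Stab}
  (ha : (a : H) ∈ P) (hcP : (c : H) ∈ P) (ha2 : rw'.bar a ^ 2 = 1) (ha1 : rw'.bar a ≠ 1)
  (hc2 : rw'.bar c ^ 2 = 1) (hac : rw'.bar a * rw'.bar c = rw'.bar c * rw'.bar a)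
  (hab : rw'.bar a * rw'.bar b = rw'.bar b * rw'.bar a) (hbc : rw'.bar b * rw'.bar c = rw'.bar c * rw'.bar a * rw'.bar b)
  (hTab : rw'.T b * rw'.T a = rw'.T a * rw'.T b) (hTP : rw'.T b * ((rw'.T a - 1) * (rw'.T c - 1)) = (rw'.T a - 1) * (rw'.T c - 1))
include hP hβ ha hcP ha2 ha1 hc2 hac hab hbc hTab hTP

/-- The halves of the inverted points have order at most `9`. -/
theorem card_halves : pc.L.q = 3 ∧ Nat.card (negSub (rw'.bar a) ⊓ fixSub (rw'.bar c) : Subgroup (PieceMod pc)) ≤ 9 ∧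
    Nat.card (negSub (rw'.bar a) ⊓ negSub (rw'.bar c) : Subgroup (PieceMod pc)) ≤ 9 := by
  classical
  haveI := Fact.mk pc.L.prime
  haveI := rw'.nontrivial
  have hq2 := pc.L.ne_two
  have hM := isPGroup_pieceMod pc
  set U := negSub (rw'.bar a) with hU
  set Up : Subgroup (PieceMod pc) := U ⊓ fixSub (rw'.bar c) with hUp
  set Um : Subgroup (PieceMod pc) := U ⊓ negSub (rw'.bar c) with hUm
  have hbU : ∀ x ∈ U, rw'.bar b x ∈ U := fun x hx => by
    have h := DFunLike.congr_fun hab x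
    rw [MulAut.mul_apply, MulAut.mul_apply, mem_negSub.1 hx, map_inv] at h
    exact mem_negSub.2 h
  have hcb : ∀ x ∈ U, rw'.bar c (rw'.bar b x) = rw'.bar b (rw'.bar c x)⁻¹ := by
    intro x hx
    have h := DFunLike.congr_fun hbc x
    simp only [MulAut.mul_apply] at h
    rw [mem_negSub.1 (hbU x hx), map_inv] at h
    rw [map_inv, h, inv_inv]
  have hpm : ∀ x ∈ Up, rw'.bar b x ∈ Um := fun x hx =>
    ⟨hbU x hx.1, mem_negSub.2 (by rw [hcb x hx.1, mem_fixSub.1 hx.2, map_inv])⟩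
  have hmp : ∀ x ∈ Um, rw'.bar b x ∈ Up := fun x hx =>
    ⟨hbU x hx.1, mem_fixSub.2 (by rw [hcb x hx.1, mem_negSub.1 hx.2, inv_inv])⟩
  have hle1 : Nat.card Up ≤ Nat.card Um :=
    Nat.card_le_card_of_injective (fun x : Up => (⟨_, hpm x x.2⟩ : Um)) fun x y h =>
      Subtype.ext ((rw'.bar b).injective (congrArg Subtype.val h))
  have hle2 : Nat.card Um ≤ Nat.card Up :=
    Nat.card_le_card_of_injective (fun x : Um => (⟨_, hmp x x.2⟩ : Up)) fun x y h =>
      Subtype.ext ((rw'.bar b).injective (congrArg Subtype.val h))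
  have hcU : ∀ x ∈ U, rw'.bar c x ∈ U := fun x hx => by
    have h := DFunLike.congr_fun hac x
    rw [MulAut.mul_apply, MulAut.mul_apply, mem_negSub.1 hx, map_inv] at h
    exact mem_negSub.2 h
  have hne : Up ≠ ⊥ := by
    intro h
    have hUm1 : Um = ⊥ := Subgroup.eq_bot_of_card_eq _ (le_antisymm
      (hle2.trans (by rw [h, Subgroup.card_bot])) Nat.card_pos)
    refine ha1 (ext_fix_neg hq2 hM ha2 (fun x hx => mem_fixSub.1 hx) fun x hx => ?_)
    have h1 : x * rw'.bar c x ∈ Up := ⟨mul_mem hx (hcU x hx), (mul_apply_mem hc2 x).1⟩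
    have h2 : x * (rw'.bar c x)⁻¹ ∈ Um :=
      Subgroup.mem_inf.2 ⟨mul_mem hx (inv_mem (hcU x hx)), (mul_apply_mem hc2 x).2⟩
    rw [h, Subgroup.mem_bot] at h1
    rw [hUm1, Subgroup.mem_bot, mul_inv_eq_one] at h2
    rw [← h2, ← sq] at h1
    rw [eq_one_of_sq hq2 hM h1, map_one, MulAut.one_apply]
  haveI : Nontrivial Up := (Subgroup.nontrivial_iff_ne_bot _).2 hne
  obtain ⟨l, hl, hl'⟩ := (hM.to_subgroup Up).nontrivial_iff_card.1 inferInstance
  obtain ⟨⟨x₁, hx₁⟩, hx₁o⟩ := exists_prime_orderOf_dvd_card' (G := Up) pc.L.q (hl' ▸ dvd_pow_self _ hl.ne')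
  have hx₁q : x₁ ^ pc.L.q = 1 := by
    have h := pow_orderOf_eq_one (⟨x₁, hx₁⟩ : Up)
    rw [hx₁o] at h
    exact congrArg Subtype.val h
  have hx₁1 : x₁ ≠ 1 := fun h => by
    rw [show (⟨x₁, hx₁⟩ : Up) = 1 from Subtype.ext h, orderOf_one] at hx₁o
    exact pc.L.prime.ne_one hx₁o.symm
  obtain ⟨y₀, hy₀, hxy₀⟩ := exists_nonorth (isAlt_res hq2 hM hβ.1 ha2 (isom_bar rw' hβ a)).2 hx₁.1 hx₁1
  set yp := y₀ * rw'.bar c y₀ with hyp
  have hypU : yp ∈ Up := ⟨mul_mem hy₀ (hcU y₀ hy₀), (mul_apply_mem hc2 y₀).1⟩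
  have hζ : β x₁ yp ^ 2 ≠ 1 := by
    intro h
    refine hxy₀ (eq_one_of_two_pow pc.L.q hq2 (l := 2) (i := 1) ?_ (by
      rw [pow_one, ← MonoidHom.pow_apply, ← map_pow, hx₁q, map_one, MonoidHom.one_apply]))
    have e := isom_bar rw' hβ c x₁ y₀
    rw [mem_fixSub.1 hx₁.2] at e
    rw [hyp, map_mul, e, ← sq] at h
    rwa [show (2 : ℕ) ^ 2 = 2 * 2 from rfl, pow_mul]
  clear_value yp
  have hlt : pc.L.q < Nat.card Up := by
    have hle : Subgroup.zpowers x₁ < Up := by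
      refine lt_of_le_of_ne (Subgroup.zpowers_le.2 hx₁) fun e => hζ ?_
      obtain ⟨i, hi⟩ := Subgroup.mem_zpowers_iff.1 (e.symm ▸ hypU : yp ∈ Subgroup.zpowers x₁)
      rw [← hi, map_zpow, hβ.1.1, one_zpow, one_pow]
    have h1 : Nat.card (Subgroup.zpowers x₁) = pc.L.q := by
      rw [Nat.card_zpowers, ← hx₁o, ← Subgroup.orderOf_coe]
    rw [← h1]
    exact lt_of_not_ge fun h => hle.ne (Subgroup.eq_of_le_of_card_ge hle.le h)
  suffices hsmall : Nat.card Um ≤ 3 * pc.L.q by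
    have hl2 : 2 ≤ l := by
      by_contra h
      have : pc.L.q ^ l ≤ pc.L.q ^ 1 := Nat.pow_le_pow_right pc.L.prime.pos (by omega)
      rw [pow_one] at this
      omega
    have hqq : pc.L.q * pc.L.q ≤ 3 * pc.L.q := by
      refine le_trans ?_ hsmall
      refine le_trans ?_ hle1
      rw [← sq, hl']
      exact Nat.pow_le_pow_right pc.L.prime.pos hl2
    have hq3 : pc.L.q = 3 := by
      have := Nat.le_of_mul_le_mul_right hqq pc.L.prime.pos
      have := pc.L.prime.two_le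
      omega
    rw [hq3] at hsmall
    exact ⟨hq3, hle1.trans hsmall, hsmall⟩
  obtain ⟨h₁, rfl, hh₁⟩ := rw'.exists_inverted a hx₁.1
  set k₁ := pc.L.act (b : H) h₁ with hk₁
  have hk₁c : (k₁ : PieceMod pc) = rw'.bar b (h₁ : PieceMod pc) := rfl
  have hkU : (k₁ : PieceMod pc) ∈ Um := hpm _ hx₁
  have hbk : rw'.T b * rw'.L h₁ = rw'.L k₁ * rw'.T b := rw'.T_L b h₁
  have hbk' : rw'.T b * rw'.L h₁⁻¹ = rw'.L k₁⁻¹ * rw'.T b := by rw [rw'.T_L, map_inv]
  have hak : rw'.T a * rw'.L k₁ = rw'.L k₁⁻¹ * rw'.T a := by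
    refine sub_eq_zero.1 (cancel_T rw' b ?_)
    rw [sub_mul, sub_eq_zero, mul_assoc, ← hbk, ← mul_assoc, ← hTab, mul_assoc, hh₁, ← mul_assoc, hbk', mul_assoc,
      hTab, ← mul_assoc]
  have hch : ∀ t : pc.L.R, (t : PieceMod pc) ∈ fixSub (rw'.bar c) → rw'.T c * rw'.L t = rw'.L t * rw'.T c :=
    fun t ht => rw'.commute_of_fixed (pow_of_mem rw' hP hcP) (mem_fixSub.1 ht)
  set PP := (rw'.T a - 1) * (rw'.T c - 1) with hPP
  set X := rw'.L (h₁ ^ 2) + rw'.L (h₁ ^ 2)⁻¹ with hX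
  set Y := rw'.L (k₁ ^ 2) + rw'.L (k₁ ^ 2)⁻¹ with hY
  have hXa : rw'.T a * X = X * rw'.T a := by
    rw [hX, mul_add, add_mul, inverted_sq rw' hh₁, inverted_inv rw' (inverted_sq rw' hh₁), add_comm]
  have hXc : rw'.T c * X = X * rw'.T c := by
    have hm : ((h₁ ^ 2 : pc.L.R) : PieceMod pc) ∈ fixSub (rw'.bar c) := pow_mem hx₁.2 2
    rw [hX, mul_add, add_mul, hch _ hm, hch _ (inv_mem hm)]
  have hXPP : PP * X = X * PP := by
    have e1 : (rw'.T c - 1) * X = X * (rw'.T c - 1) := by rw [sub_mul, mul_sub, one_mul, mul_one, hXc]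
    have e2 : (rw'.T a - 1) * X = X * (rw'.T a - 1) := by rw [sub_mul, mul_sub, one_mul, mul_one, hXa]
    rw [hPP, mul_assoc, e1, ← mul_assoc, e2, mul_assoc]
  have hbX : rw'.T b * X = Y * rw'.T b := by
    rw [hX, hY, mul_add, add_mul, ← inv_pow, ← inv_pow, L_two, L_two, L_two, L_two, ← mul_assoc, ← mul_assoc, hbk,
      hbk', mul_assoc (rw'.L k₁), mul_assoc (rw'.L k₁⁻¹), hbk, hbk', ← mul_assoc, ← mul_assoc]
  have hzero : (X + Y) * PP = 0 := by
    have e : Y * PP = X * PP := by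
      calc Y * PP = Y * (rw'.T b * PP) := by rw [hTP]
        _ = rw'.T b * (PP * X) := by rw [← mul_assoc, ← hbX, mul_assoc, hXPP]
        _ = X * PP := by rw [← mul_assoc, hTP, hXPP]
    rw [add_mul, e, add_self_end]
  -- the average
  have key : ∀ ym ∈ Um, β (k₁ : PieceMod pc) ym = 1 → ym = 1 ∨ ym = (k₁ : PieceMod pc) ^ 2 ∨
      ym = ((k₁ : PieceMod pc) ^ 2)⁻¹ := by
    intro ym hym hη
    by_contra hcon
    push Not at hcon
    set y := yp * ym with hy
    have hyU : y ∈ U := mul_mem hypU.1 hym.1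
    have hkill : ∀ (r : pc.L.R) (p m : PieceMod pc), p ∈ Up → m ∈ Um → p ≠ yp → m ≠ ym →
        (r : PieceMod pc) = p * m → ∀ g ∈ ({1, c, a * c} : Set rw'.Stab), avg rw' β y (rw'.L r * rw'.T g) = 0 := by
      intro r p m hp hm hpy hmy hr g hg
      set zp := p * yp⁻¹ with hzp
      set zm := m * ym⁻¹ with hzm
      clear_value zp zm
      have hzpU : zp ∈ Up := hzp ▸ mul_mem hp (inv_mem hypU)
      have hzmU : zm ∈ Um := hzm ▸ mul_mem hm (inv_mem hym)
      have hz : (r : PieceMod pc) * y⁻¹ = zp * zm := by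
        rw [hr, hy, mul_inv, mul_mul_mul_comm, hzp, hzm]
      have hc' : rw'.bar c (zp * zm) ≠ (zp * zm)⁻¹ := by
        intro e
        rw [map_mul, mem_fixSub.1 hzpU.2, mem_negSub.1 hzmU.2, mul_inv, mul_left_inj] at e
        exact hpy (mul_inv_eq_one.1 (hzp.symm.trans (eq_one_of_sq hq2 hM (x := zp) (by rw [sq]; nth_rw 1 [e]; exact inv_mul_cancel _))))
      rcases hg with rfl | rfl | rfl
      · refine avg_kill rw' β hP hβ (one_mem P) (by rw [map_one, one_pow]) r ?_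
        rw [hz, map_one, MulAut.one_apply]
        intro e
        refine hc' ?_
        rw [eq_one_of_sq hq2 hM (x := zp * zm) (by rw [sq]; nth_rw 1 [e]; exact inv_mul_cancel _), map_one, inv_one]
      · exact avg_kill rw' β hP hβ hcP hc2 r (by rwa [hz])
      · refine avg_kill rw' β hP hβ (mul_mem ha hcP) (by
          rw [map_mul, (show Commute (rw'.bar a) (rw'.bar c) from hac).mul_pow, ha2, hc2, one_mul]) r ?_
        rw [hz, map_mul rw'.bar, MulAut.mul_apply, map_mul, mem_fixSub.1 hzpU.2, mem_negSub.1 hzmU.2, map_mul, map_inv,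
          mem_negSub.1 hzpU.1, mem_negSub.1 hzmU.1, inv_inv, mul_inv]
        intro e
        rw [mul_right_inj] at e
        exact hmy (mul_inv_eq_one.1 (hzm.symm.trans (eq_one_of_sq hq2 hM (x := zm) (by rw [sq]; nth_rw 1 [e]; exact inv_mul_cancel _))))
    have hxx : β (h₁ : PieceMod pc) ((h₁ : PieceMod pc) ^ 2) = 1 := by rw [map_pow, hβ.1.1, one_pow]
    have hp1 : yp ≠ 1 := fun e => hζ (by rw [e, map_one, one_pow])
    have hp2 : (h₁ : PieceMod pc) ^ 2 ≠ yp := fun e => hζ (by rw [← e, hxx, one_pow])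
    have hp3 : ((h₁ : PieceMod pc) ^ 2)⁻¹ ≠ yp := fun e => hζ (by rw [← e, map_inv, hxx, inv_one, one_pow])
    have k1 := hkill (h₁ ^ 2) _ 1 (pow_mem hx₁ 2) (one_mem _) hp2 (Ne.symm hcon.1) (by rw [mul_one, QuotientGroup.mk_pow])
    have k2 := hkill (h₁ ^ 2)⁻¹ _ 1 (inv_mem (pow_mem hx₁ 2)) (one_mem _) hp3 (Ne.symm hcon.1)
      (by rw [mul_one, QuotientGroup.mk_inv, QuotientGroup.mk_pow])
    have k3 := hkill (k₁ ^ 2) 1 _ (one_mem _) (pow_mem hkU 2) hp1.symm (Ne.symm hcon.2.1)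
      (by rw [one_mul, QuotientGroup.mk_pow])
    have k4 := hkill (k₁ ^ 2)⁻¹ 1 _ (one_mem _) (inv_mem (pow_mem hkU 2)) hp1.symm (Ne.symm hcon.2.2)
      (by rw [one_mul, QuotientGroup.mk_inv, QuotientGroup.mk_pow])
    have hr : ∀ r : pc.L.R, (∀ g ∈ ({1, c, a * c} : Set rw'.Stab), avg rw' β y (rw'.L r * rw'.T g) = 0) →
        avg rw' β y (rw'.L r * PP) = - avg rw' β y (rw'.L r * rw'.T a) := by
      intro r hr
      have e : rw'.L r * PP = rw'.L r * rw'.T (a * c) - rw'.L r * rw'.T a - rw'.L r * rw'.T c + rw'.L r * rw'.T 1 := by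
        rw [map_mul, map_one, hPP]
        simp only [mul_sub, sub_mul, mul_add, add_mul, mul_one, one_mul, mul_assoc]
        abel
      rw [e, map_add, map_sub, map_sub, hr _ (Set.mem_insert _ _), hr c (by simp), hr (a * c) (by simp)]
      abel
    have h0 := congrArg (avg rw' β y) hzero
    rw [hX, hY, add_mul, add_mul, add_mul, map_add, map_add, map_add, map_zero, hr _ k1, hr _ k2, hr _ k3, hr _ k4,
      avg_inverted rw' β hβ hh₁, ← inv_pow, avg_inverted rw' β hβ (inverted_inv rw' hh₁ |>.trans (by rw [inv_inv])),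
      avg_inverted rw' β hβ hak, ← inv_pow, avg_inverted rw' β hβ (inverted_inv rw' hak |>.trans (by rw [inv_inv]))] at h0
    have e := eq_zero_of_four (k := k) (avg_ne_zero rw' β hP hβ ha ha2 hyU) h0
    have eh : β (h₁ : PieceMod pc) ym = 1 := (beta_fix_neg hq2 hM (isom_bar rw' hβ c) hx₁.2 hym.2).1
    have ek : β (k₁ : PieceMod pc) yp = 1 := (beta_fix_neg hq2 hM (isom_bar rw' hβ c) hypU.2 hkU.2).2
    rw [QuotientGroup.mk_inv, QuotientGroup.mk_inv, map_inv β, map_inv β, MonoidHom.inv_apply, MonoidHom.inv_apply,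
      hy, map_mul, map_mul, eh, ek, hη, mul_one, mul_one, inv_one, Units.val_one] at e
    have h2 : (2 : k) = 0 := CharTwo.two_eq_zero
    set ζ := β (h₁ : PieceMod pc) yp with hζd
    refine hζ (Units.ext ?_)
    rw [Units.val_pow_eq_pow_val, Units.val_one]
    have e2 : (ζ : k) * ((ζ⁻¹ : kˣ) : k) = 1 := by rw [← Units.val_mul, mul_inv_cancel, Units.val_one]
    linear_combination (ζ : k) * e + (-1 : k) * e2 + (-(ζ : k) - 1) * h2
  -- the kernel on the other half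
  let φ : Um →* kˣ := (β (k₁ : PieceMod pc)).comp Um.subtype
  have hker : Nat.card φ.ker ≤ 3 := by
    let F : Finset (PieceMod pc) := {1, (k₁ : PieceMod pc) ^ 2, ((k₁ : PieceMod pc) ^ 2)⁻¹}
    have hmem : ∀ x : φ.ker, ((x : Um) : PieceMod pc) ∈ F := fun x => by
      rcases key _ (x : Um).2 x.2 with h | h | h <;> simp [F, h]
    refine (Nat.card_le_card_of_injective (fun x : φ.ker => (⟨_, hmem x⟩ : F)) fun x x' h => ?_).trans ?_
    · exact Subtype.ext (Subtype.ext (congrArg Subtype.val h :))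
    · rw [Nat.card_eq_finsetCard]
      exact Finset.card_le_three
  have hrange : Nat.card φ.range ≤ pc.L.q := by
    haveI : NeZero pc.L.q := ⟨pc.L.prime.ne_zero⟩
    refine le_trans (Subgroup.card_le_of_le (K := rootsOfUnity pc.L.q k) ?_)
      (card_rootsOfUnity k pc.L.q)
    rintro _ ⟨x, rfl⟩
    rw [mem_rootsOfUnity]
    show β (k₁ : PieceMod pc) (x : PieceMod pc) ^ pc.L.q = 1
    rw [← MonoidHom.pow_apply, ← map_pow, hk₁c, ← map_pow (rw'.bar b), hx₁q, map_one, map_one, MonoidHom.one_apply]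
  calc Nat.card Um = Nat.card φ.ker * Nat.card φ.range := by
        rw [← Subgroup.index_ker, Subgroup.card_mul_index]
    _ ≤ 3 * pc.L.q := Nat.mul_le_mul hker hrange

end CfsgLib.PLengthTwoDer
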