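import Mathlib
import Cfsg.Agent.PLengthTwoExp.Plane

/-!
Isometries of alternating pairings on groups of order `9` and `81`.
-/

set_option autoImplicit false
set_option maxHeartbeats 400000

namespace CfsgLib.PLengthTwoDer

open CfsgLib.PLengthExp CfsgLib.PLengthGross CfsgLib.PLengthTwoExp

universe v w

variable {A : Type v} [CommGroup A] {M : Type w} [CommGroup M] [Finite M] {β : M →* M →* A}

/-- No isometry of order eight. -/
theorem false_of_pow_four [hq : Fact (Nat.Prime 3)] (hM : IsPGroup 3 M) (hβ : IsAlt β)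
    (hcard : Nat.card M ≤ 9) [Nontrivial M] {c : MulAut M} (hc : Isom β c) (hc4 : ∀ x, (c ^ 4) x = x⁻¹) :
    False := by
  obtain ⟨v, hv⟩ := exists_ne (1 : M)
  have h4 : ∀ x, c (c (c (c x))) = x⁻¹ := fun x => by rw [← hc4 x]; rfl
  have hM9 : Nat.card M = 9 := le_antisymm hcard (sq_le_card hM hβ hv)
  have hne : ∀ x : M, x ≠ 1 → x⁻¹ ≠ x := fun x hx h => hx (eq_one_of_sq (by norm_num) hM (by
    rw [sq]; nth_rw 1 [← h]; exact inv_mul_cancel x))
  obtain ⟨i, hi⟩ := IsPGroup.iff_card.1 hM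
  have hexp : ∀ x : M, x ^ 3 = 1 := by
    intro x
    by_contra hx
    have ho : orderOf x ∣ 3 ^ 2 := by rw [show (3 : ℕ) ^ 2 = Nat.card M by rw [hM9]; norm_num]; exact orderOf_dvd_natCard x
    obtain ⟨j, hj, hj'⟩ := (Nat.dvd_prime_pow hq.out).1 ho
    have hj2 : j = 2 := by
      by_contra h
      exact hx (orderOf_dvd_iff_pow_eq_one.1 (hj' ▸ pow_dvd_pow 3 (show j ≤ 1 by omega)))
    have htop : Subgroup.zpowers x = ⊤ :=
      Subgroup.eq_top_of_card_eq _ (by rw [Nat.card_zpowers, hj', hj2, hM9]; norm_num)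
    suffices hx1 : x = 1 from hx (by rw [hx1, one_pow])
    refine hβ.2 x fun y => ?_
    obtain ⟨l, rfl⟩ := Subgroup.mem_zpowers_iff.1 (htop ▸ Subgroup.mem_top y : y ∈ Subgroup.zpowers x)
    rw [map_zpow, hβ.1, one_zpow]
  set w := c v with hw
  have hcases : ∀ x : M, ∀ l : ℤ, x ^ l = 1 ∨ x ^ l = x ∨ x ^ l = x⁻¹ := by
    intro x l
    have h3 : x ^ (3 : ℤ) = 1 := by rw [show (3 : ℤ) = ((3 : ℕ) : ℤ) from rfl, zpow_natCast, hexp]
    rw [← Int.mul_ediv_add_emod l 3, zpow_add, zpow_mul, h3, one_zpow, one_mul]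
    have h5 := Int.emod_lt_of_pos l (show (0 : ℤ) < 3 by norm_num)
    have h6 := Int.emod_nonneg l (show (3 : ℤ) ≠ 0 by norm_num)
    interval_cases hl : l % 3
    · left; exact zpow_zero x
    · right; left; exact zpow_one x
    · right; right
      refine eq_inv_of_mul_eq_one_left ?_
      rw [← zpow_add_one]; exact h3
  have hwv : w ∉ Subgroup.zpowers v := by
    rintro ⟨l, hl⟩
    have hl' : v ^ l = w := hl
    have hw1 : w ≠ 1 := fun h => hv (c.map_eq_one_iff.1 h)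
    rcases hcases v l with h | h | h
    · exact hw1 (hl'.symm.trans h)
    · have hcv : c v = v := hl'.symm.trans h
      have := h4 v
      rw [hcv, hcv, hcv, hcv] at this
      exact hne v hv this.symm
    · have hcv : c v = v⁻¹ := hl'.symm.trans h
      have := h4 v
      rw [hcv, map_inv, hcv, inv_inv, hcv, map_inv, hcv, inv_inv] at this
      exact hne v hv this.symm
  have hgen : ∀ x : M, ∃ i j : ℤ, v ^ i * w ^ j = x := by
    intro x
    have htop : Subgroup.zpowers v ⊔ Subgroup.zpowers w = ⊤ := by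
      refine Subgroup.eq_top_of_card_eq _ ?_
      have hlt : Subgroup.zpowers v < Subgroup.zpowers v ⊔ Subgroup.zpowers w :=
        lt_of_le_of_ne le_sup_left fun h => hwv (h ▸ Subgroup.mem_sup_right (Subgroup.mem_zpowers w))
      have hd := Subgroup.card_subgroup_dvd_card (Subgroup.zpowers v ⊔ Subgroup.zpowers w)
      rw [hM9, show 9 = 3 ^ 2 from rfl] at hd
      obtain ⟨j, hj, hj'⟩ := (Nat.dvd_prime_pow hq.out).1 hd
      have h3 : Nat.card (Subgroup.zpowers v) = 3 := by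
        rw [Nat.card_zpowers]; exact orderOf_eq_prime (hexp v) hv
      have hlt' : 3 < 3 ^ j := by
        rw [← hj', ← h3]
        exact lt_of_not_ge fun hge => hlt.ne (Subgroup.eq_of_le_of_card_ge hlt.le hge)
      rw [hj', hM9]
      interval_cases j <;> simp_all
    obtain ⟨a, ⟨i, rfl⟩, b, ⟨j, rfl⟩, hab⟩ := Subgroup.mem_sup.1 (htop ▸ Subgroup.mem_top x :
      x ∈ Subgroup.zpowers v ⊔ Subgroup.zpowers w)
    exact ⟨i, j, hab⟩
  have hε : β v w ≠ 1 := by
    intro h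
    refine hv (hβ.2 v fun y => ?_)
    obtain ⟨i, j, rfl⟩ := hgen y
    rw [map_mul, map_zpow, map_zpow, hβ.1, h, one_zpow, one_zpow, mul_one]
  obtain ⟨i, j, hij⟩ := hgen (c w)
  have hswap : β w v = (β v w)⁻¹ := by
    have h := hβ.1 (v * w)
    rw [map_mul β, MonoidHom.mul_apply, map_mul, map_mul, hβ.1, hβ.1, one_mul, mul_one] at h
    exact eq_inv_of_mul_eq_one_right h
  have h1 : β v w = ((β v w)⁻¹) ^ i := by
    calc β v w = β w (c w) := (hc v w).symm
      _ = _ := by rw [← hij, map_mul, map_zpow, map_zpow, hβ.1, one_zpow, mul_one, hswap]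
  have hvi : v ^ i = v⁻¹ := by
    rcases hcases v i with h | h | h
    · exfalso
      have : β (v ^ i) w = 1 := by rw [h, map_one, MonoidHom.one_apply]
      rw [map_zpow, MonoidHom.zpow_apply] at this
      rw [inv_zpow, this, inv_one] at h1
      exact hε h1
    · exfalso
      have : β (v ^ i) w = β v w := by rw [h]
      rw [map_zpow, MonoidHom.zpow_apply] at this
      rw [inv_zpow, this] at h1
      have h2 : β v w ^ 3 = 1 := by rw [← MonoidHom.pow_apply, ← map_pow, hexp, map_one, MonoidHom.one_apply]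
      refine hε ?_
      rw [pow_succ, sq] at h2
      nth_rw 2 [h1] at h2
      rwa [mul_inv_cancel, one_mul] at h2
    · exact h
  rw [hvi] at hij
  have h4v := h4 v
  rw [← hw] at h4v
  rcases hcases w j with h | h | h <;> rw [h] at hij
  · rw [← hij, mul_one, map_inv, ← hw, map_inv, ← hij, mul_one, inv_inv] at h4v
    exact hne v hv h4v.symm
  · rw [← hij, map_mul, map_inv, ← hw, ← hij, inv_mul_cancel_comm_assoc, map_inv, ← hw] at h4v
    exact hwv (by rw [← inv_inj.1 h4v.symm]; exact Subgroup.mem_zpowers v)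
  · rw [← hij, map_mul, map_inv, map_inv, ← hw, ← hij] at h4v
    have e : w⁻¹ * (v⁻¹ * w⁻¹)⁻¹ = v := by
      rw [mul_inv_rev, inv_inv, inv_inv, ← mul_assoc, inv_mul_cancel, one_mul]
    rw [e, ← hw] at h4v
    exact hwv (h4v ▸ inv_mem (Subgroup.mem_zpowers v))

/-- An involutory isometry of a group of order `q ^ 2` is the identity or the inversion. -/
theorem eq_one_or_inv_of_plane {q : ℕ} [Fact q.Prime] (hq2 : q ≠ 2) (hM : IsPGroup q M) (hβ : IsAlt β)
    (hcard : Nat.card M ≤ q ^ 2) {w : MulAut M} (hw : Isom β w) (hw2 : w ^ 2 = 1) :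
    (∀ x, w x = x) ∨ ∀ x, w x = x⁻¹ := by
  by_cases h : ∃ x ∈ fixSub w, x ≠ 1
  · obtain ⟨x, hx, hx1⟩ := h
    refine Or.inl fun y => mem_fixSub.1 ((?_ : fixSub w = ⊤) ▸ Subgroup.mem_top y)
    exact Subgroup.eq_top_of_le_card _ (hcard.trans
      (sq_le_card (hM.to_subgroup _) (isAlt_res hq2 hM hβ hw2 hw).1 (x := ⟨x, hx⟩) fun e => hx1 (congrArg Subtype.val e)))
  · push Not at h
    exact Or.inr fun x => eq_inv_of_mul_eq_one_right (h _ (mul_apply_mem hw2 x).1)

/-- In a 2-group of isometries of a group of order `81` the derived group has no anticommuting pair. -/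
theorem false_of_eighty_one [Fact (Nat.Prime 3)] (hM : IsPGroup 3 M) (hβ : IsAlt β)
    {G : Subgroup (MulAut M)} (hG : IsPGroup 2 G) (hGβ : ∀ σ ∈ G, Isom β σ) {ι c b : MulAut M} (hιG : ι ∈ G)
    (hι : ∀ x, ι x = x⁻¹) (hc : c ∈ sqOf G) (hb : b ∈ sqOf G) (hc2 : c ^ 2 = 1)
    (hbc : b * c * b⁻¹ = c * ι) (hne : b * c ≠ c * b)
    (hfix : Nat.card (fixSub c) ≤ 9) (hneg : Nat.card (negSub c) ≤ 9) : False := by
  haveI := Fact.mk Nat.prime_two
  have hcG : c ∈ G := sqOf_le G hc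
  have hbG : b ∈ G := sqOf_le G hb
  have hι2 : ι ^ 2 = 1 := MulEquiv.ext fun x => by rw [sq, MulAut.mul_apply, hι, hι, inv_inv]; rfl
  have hιc : ∀ g : MulAut M, g * ι = ι * g := fun g => MulEquiv.ext fun x => by
    rw [MulAut.mul_apply, MulAut.mul_apply, hι, hι, map_inv]
  have hι1 : ι ≠ 1 := fun h => hne (by
    rw [h, mul_one] at hbc
    exact mul_inv_eq_iff_eq_mul.1 hbc)
  obtain ⟨hF, hN⟩ := isAlt_res (by norm_num) hM hβ hc2 (hGβ c hcG)
  -- involutions commuting with `c`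
  have hcl : ∀ w ∈ G, w ^ 2 = 1 → w * c = c * w → w = 1 ∨ w = ι ∨ w = c ∨ w = c * ι := by
    intro w hw hw2 hwc
    have hres : ∀ (N : Subgroup M) (hwN : w ∈ presSub N), IsAlt (resPair β N) → Nat.card N ≤ 9 →
        (∀ x ∈ N, w x = x) ∨ ∀ x ∈ N, w x = x⁻¹ := by
      intro N hwN hNβ hcardN
      rcases eq_one_or_inv_of_plane (q := 3) (by norm_num) (hM.to_subgroup N) hNβ hcardN
        (w := resAut N ⟨w, hwN⟩) (fun x y => hGβ w hw _ _)
        (by rw [← map_pow, show (⟨w, hwN⟩ : presSub N) ^ 2 = 1 from Subtype.ext hw2, map_one]) with h | h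
      · exact Or.inl fun x hx => congrArg Subtype.val (h ⟨x, hx⟩)
      · exact Or.inr fun x hx => congrArg Subtype.val (h ⟨x, hx⟩)
    rcases hres _ (mem_presSub_of_commute hwc) hF hfix with h1 | h1 <;>
      rcases hres _ (mem_presSub_neg_of_commute hwc) hN hneg with h2 | h2
    · exact Or.inl (ext_fix_neg (by norm_num) hM hc2 h1 h2)
    · exact Or.inr (Or.inr (Or.inl (ext_fix_neg (by norm_num) hM hc2
        (fun x hx => (h1 x hx).trans (mem_fixSub.1 hx).symm) fun x hx => (h2 x hx).trans (mem_negSub.1 hx).symm)))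
    · refine Or.inr (Or.inr (Or.inr (ext_fix_neg (by norm_num) hM hc2 (fun x hx => ?_) fun x hx => ?_)))
      · rw [MulAut.mul_apply, hι, map_inv, mem_fixSub.1 hx, h1 x hx]
      · rw [MulAut.mul_apply, hι, map_inv, mem_negSub.1 hx, inv_inv, h2 x hx]
    · exact Or.inr (Or.inl (ext_fix_neg (by norm_num) hM hc2 (fun x hx => (h1 x hx).trans (hι x).symm)
        fun x hx => (h2 x hx).trans (hι x).symm))
  -- the derived group centralises an involution with two conjugates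
  suffices h : ∃ e ∈ G, e ^ 2 = 1 ∧ e ≠ 1 ∧ e ≠ ι ∧ ∀ g ∈ G, g * e * g⁻¹ = e ∨ g * e * g⁻¹ = e * ι by
    obtain ⟨e, heG, he2, he1, heι, hec⟩ := h
    have hcent : sqOf G ≤ Subgroup.centralizer {e} := by
      rw [sqOf, Subgroup.closure_le]
      rintro _ ⟨g, hg, rfl⟩
      refine Subgroup.mem_centralizer_singleton_iff.2 (mul_inv_eq_iff_eq_mul.1 ?_)
      rcases hec g hg with h | h
      · calc g ^ 2 * e * (g ^ 2)⁻¹ = g * (g * e * g⁻¹) * g⁻¹ := by rw [sq]; group
          _ = e := by rw [h, h]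
      · calc g ^ 2 * e * (g ^ 2)⁻¹ = g * (g * e * g⁻¹) * g⁻¹ := by rw [sq]; group
          _ = g * e * g⁻¹ * (g * ι * g⁻¹) := by nth_rw 1 [h]; group
          _ = e := by rw [hιc g, mul_inv_cancel_right, h, mul_assoc, ← sq, hι2, mul_one]
    have hce := Subgroup.mem_centralizer_singleton_iff.1 (hcent hc)
    have hbe := Subgroup.mem_centralizer_singleton_iff.1 (hcent hb)
    rcases hcl e heG he2 hce.symm with rfl | rfl | rfl | rfl
    · exact he1 rfl
    · exact heι rfl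
    · exact hne hbe
    · refine hne ?_
      refine mul_right_cancel (b := ι) ?_
      rw [mul_assoc, hbe, mul_assoc, ← hιc b, ← mul_assoc]
  by_cases hrank : ∀ B : Subgroup G, B.Normal → IsMulCommutative B → IsCyclic B
  · exfalso
    have hnc : ¬ IsCyclic G := fun h => hne (by
      letI : CommGroup G := IsCyclic.commGroup
      exact congrArg Subtype.val (mul_comm (⟨b, hbG⟩ : G) ⟨c, hcG⟩))
    obtain ⟨k, r, z, -, -, ⟨F⟩⟩ :=
      (CfsgLib.TwoGroup.isMaxClassType_of_normal_rank_one hG hnc hrank).exists_maxType_frame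
    have hsq : ∀ g : G, ∃ i, g ^ 2 = F.e i := fun g => by
      obtain ⟨i, rfl | rfl⟩ := F.cover g
      · exact ⟨i + i, by rw [sq, F.map_add]⟩
      · exact ⟨_, F.ey_sq i⟩
    have hcomm : ∀ g ∈ G, ∀ g' ∈ G, g ^ 2 * g' ^ 2 = g' ^ 2 * g ^ 2 := fun g hg g' hg' => by
      obtain ⟨i, hi⟩ := hsq ⟨g, hg⟩
      obtain ⟨j, hj⟩ := hsq ⟨g', hg'⟩
      exact congrArg Subtype.val (show (⟨g, hg⟩ : G) ^ 2 * ⟨g', hg'⟩ ^ 2 = ⟨g', hg'⟩ ^ 2 * ⟨g, hg⟩ ^ 2 by
        rw [hi, hj]; exact (F.comm_e i j).eq)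
    have hle : sqOf G ≤ Subgroup.centralizer (((fun x => x ^ 2) '' (G : Set (MulAut M)))) := by
      rw [sqOf, Subgroup.closure_le]
      rintro _ ⟨g, hg, rfl⟩
      refine Subgroup.mem_centralizer_iff.2 ?_
      rintro _ ⟨g', hg', rfl⟩
      exact hcomm g' hg' g hg
    have hle2 : sqOf G ≤ Subgroup.centralizer {c} := by
      rw [sqOf, Subgroup.closure_le]
      intro x hx
      exact Subgroup.mem_centralizer_singleton_iff.2 (Subgroup.mem_centralizer_iff.1 (hle hc) x hx)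
    exact hne (Subgroup.mem_centralizer_singleton_iff.1 (hle2 hb))
  push Not at hrank
  obtain ⟨B, hBn, hBc, hBnc⟩ := hrank
  haveI := hBn
  set ιG : G := ⟨ι, hιG⟩ with hιGdef
  have hιG2 : ιG ^ 2 = 1 := Subtype.ext hι2
  have hιo : orderOf ιG = 2 := orderOf_eq_prime hιG2 fun h => hι1 (congrArg Subtype.val h)
  let E : Subgroup G :=
    { carrier := {a | a ∈ B ∧ a ^ 2 = 1}
      one_mem' := ⟨one_mem _, one_pow 2⟩
      mul_mem' := fun {a d} ha hd => ⟨mul_mem ha.1 hd.1, by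
        rw [(show Commute a d from congrArg Subtype.val (hBc.is_comm.comm ⟨a, ha.1⟩ ⟨d, hd.1⟩)).mul_pow,
          ha.2, hd.2, one_mul]⟩
      inv_mem' := fun {a} ha => ⟨inv_mem ha.1, by rw [inv_pow, ha.2, inv_one]⟩ }
  haveI : E.Normal := ⟨fun a ha d => ⟨hBn.conj_mem a ha.1 d, by rw [conj_pow, ha.2, mul_one, mul_inv_cancel]⟩⟩
  have hzi : ∀ l : ℤ, ιG ^ l = 1 ∨ ιG ^ l = ιG := fun l => by
    rcases Int.even_or_odd l with ⟨m, rfl⟩ | ⟨m, rfl⟩
    · left; rw [← two_mul, zpow_mul, zpow_ofNat, hιG2, one_zpow]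
    · right; rw [zpow_add_one, zpow_mul, zpow_ofNat, hιG2, one_zpow, one_mul]
  haveI : (Subgroup.zpowers ιG).Normal := ⟨fun a ha d => by
    obtain ⟨l, rfl⟩ := ha
    show d * ιG ^ l * d⁻¹ ∈ _
    rw [← conj_zpow, show d * ιG = ιG * d from Subtype.ext (hιc d), mul_inv_cancel_right]
    exact ⟨l, rfl⟩⟩
  have hEne : E.map (QuotientGroup.mk' (Subgroup.zpowers ιG)) ≠ ⊥ := by
    intro h
    rw [Subgroup.map_eq_bot_iff, QuotientGroup.ker_mk'] at h
    refine hBnc (CfsgLib.TwoGroup.isCyclic_of_comm_atMostOneInvolution (hG.to_subgroup B)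
      (fun a d => hBc.is_comm.comm a d) fun a d ha hd => ?_)
    have key : ∀ a : B, orderOf a = 2 → (a : G) = ιG := by
      intro a ha
      obtain ⟨l, hl⟩ := h (show (a : G) ∈ E from ⟨a.2, by
        rw [← ha, ← Subgroup.coe_pow, pow_orderOf_eq_one]; rfl⟩)
      have hl' : ιG ^ l = (a : G) := hl
      rcases hzi l with h1 | h1
      · rw [h1] at hl'
        rw [← Subgroup.orderOf_coe, ← hl', orderOf_one] at ha
        omega
      · exact hl'.symm.trans h1
    exact Subtype.ext ((key a ha).trans (key d hd).symm)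
  haveI : (E.map (QuotientGroup.mk' (Subgroup.zpowers ιG))).Normal :=
    Subgroup.Normal.map inferInstance _ (QuotientGroup.mk'_surjective _)
  obtain ⟨y, ⟨⟨e, he, rfl⟩, hyc⟩, hy1⟩ := (Subgroup.bot_or_exists_ne_one _).resolve_left
    (CfsgLib.PGroup.inf_center_ne_bot (hG.to_quotient (Subgroup.zpowers ιG)) _ hEne)
  refine ⟨e, e.2, congrArg Subtype.val he.2, fun h => hy1 (by rw [show e = 1 from Subtype.ext h, map_one]),
    fun h => hy1 ((QuotientGroup.eq_one_iff e).2 ((show e = ιG from Subtype.ext h) ▸ Subgroup.mem_zpowers ιG)),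
    fun g hg => ?_⟩
  have h1 : e⁻¹ * (⟨g, hg⟩ * e * (⟨g, hg⟩ : G)⁻¹) ∈ Subgroup.zpowers ιG := by
    rw [← QuotientGroup.eq_one_iff]
    simp only [QuotientGroup.mk_mul, QuotientGroup.mk_inv]
    have h2 := Subgroup.mem_center_iff.1 hyc ((⟨g, hg⟩ : G) : G ⧸ Subgroup.zpowers ιG)
    rw [show QuotientGroup.mk' (Subgroup.zpowers ιG) e = (e : G ⧸ Subgroup.zpowers ιG) from rfl] at h2
    rw [h2, mul_inv_cancel_right, inv_mul_cancel]
  obtain ⟨l, hl⟩ := h1
  have hl' : ιG ^ l = e⁻¹ * (⟨g, hg⟩ * e * (⟨g, hg⟩ : G)⁻¹) := hl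
  rcases hzi l with h | h <;> rw [h] at hl'
  · exact Or.inl (congrArg Subtype.val (inv_mul_eq_one.1 hl'.symm).symm)
  · exact Or.inr (congrArg Subtype.val (inv_mul_eq_iff_eq_mul.1 hl'.symm))

end CfsgLib.PLengthTwoDer
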