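import Mathlib
import Cfsg.Agent.PLengthTwoDer.Project
import Cfsg.Agent.PLengthTwoDer.Root
import Cfsg.Agent.PLengthTwoDer.Small

/-!
On a piece the commutators of the last but one term of the derived series are squares.
-/

set_option autoImplicit false
set_option maxHeartbeats 800000

open scoped commutatorElement

namespace CfsgLib.PLengthTwoDer

open CfsgLib.PLengthExp CfsgLib.PLengthGross CfsgLib.PLengthTwoExp

universe u v w

variable {k : Type w} [Field k] [IsAlgClosed k] [CharP k 2] {V : Type v} [AddCommGroup V] [Module k V] {H : Type u}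
  [Group H] [Finite H] {ρ : H →* Module.End k V} {pc : WeightPiece ρ} (rw' : RadWeight pc)
  {β : PieceMod pc →* PieceMod pc →* kˣ}

omit [CharP k 2] in
theorem rel_two {a z : rw'.Stab} (h : (ρ (a : H) - 1) * (ρ (z : H) - 1) = 0) :
    (rw'.T a - 1) * (rw'.T z - 1) = 0 :=
  LinearMap.ext fun x => Subtype.ext (LinearMap.congr_fun h (x : V))

omit [CharP k 2] in
theorem rel_three {a z z' : rw'.Stab} (h : (ρ (a : H) - 1) * (ρ (z : H) - 1) * (ρ (z' : H) - 1) = 0) :
    (rw'.T a - 1) * (rw'.T z - 1) * (rw'.T z' - 1) = 0 :=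
  LinearMap.ext fun x => Subtype.ext (LinearMap.congr_fun h (x : V))

variable (hinj : Function.Injective ρ) {P : Subgroup H} (hP : IsPGroup 2 P) (hβ : IsPiecePairing pc β) {n : ℕ}
  (h0 : dmod ρ P (n + 1 + 1) = ⊥)

include hinj h0 in
theorem comm_last {a a' : H} (ha : a ∈ dser P (n + 1)) (ha' : a' ∈ dser P (n + 1)) : a * a' = a' * a :=
  commutatorElement_eq_one_iff_mul_comm.1 ((Subgroup.eq_bot_iff_forall _).1 (eq_bot_of_dmod hinj h0) _
    (Subgroup.commutator_mem_commutator ha ha'))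

include hinj h0 in
theorem sq_last {a : rw'.Stab} (ha : (a : H) ∈ dser P (n + 1)) : a ^ 2 = 1 := by
  refine Subtype.ext (hinj ?_)
  rw [Subgroup.coe_pow, Subgroup.coe_one, map_one, ← sub_eq_zero, ← sub_one_sq]
  exact quad h0 ha ha

include hinj hP hβ h0

/-- The nontrivial images of the last term agree. -/
theorem last_eq {a v : rw'.Stab} (ha : (a : H) ∈ dser P (n + 1)) (hv : (v : H) ∈ dser P (n + 1))
    (ha1 : rw'.bar a ≠ 1) (hv1 : rw'.bar v ≠ 1) : rw'.bar v = rw'.bar a ∧ rw'.T v = rw'.T a := by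
  have haP := dser_antitone P (Nat.zero_le _) ha
  have hvP := dser_antitone P (Nat.zero_le _) hv
  have h2 : ∀ x : rw'.Stab, (x : H) ∈ dser P (n + 1) → rw'.bar x ^ 2 = 1 := fun x hx => by
    rw [← map_pow, sq_last rw' hinj h0 hx, map_one]
  have hq := rel_two rw' (quad h0 ha hv)
  have e := bar_eq rw' hP hβ haP (h2 a ha) ha1 hvP (h2 v hv) hv1
    (by rw [← map_mul, ← map_mul, show a * v = v * a from Subtype.ext (comm_last hinj h0 ha hv)]) hq
  exact ⟨e, T_eq rw' hP hβ haP (h2 a ha) ha1 hvP e hq⟩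

/-- The last term is central on the weight space. -/
theorem last_central {a g : rw'.Stab} (ha : (a : H) ∈ dser P (n + 1)) (hg : (g : H) ∈ P) (ha1 : rw'.bar a ≠ 1) :
    rw'.bar g * rw'.bar a = rw'.bar a * rw'.bar g ∧ rw'.T g * rw'.T a = rw'.T a * rw'.T g := by
  have hc : ((g * a * g⁻¹ : rw'.Stab) : H) ∈ dser P (n + 1) := conj_mem_dser hg ha
  have hc1 : rw'.bar (g * a * g⁻¹) ≠ 1 := fun h => ha1 (by
    rw [map_mul, map_mul, map_inv] at h
    exact conj_eq_one_iff.1 h)
  obtain ⟨e1, e2⟩ := last_eq rw' hinj hP hβ h0 ha hc ha1 hc1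
  constructor
  · rw [map_mul, map_mul, map_inv, mul_inv_eq_iff_eq_mul] at e1
    exact e1
  · calc rw'.T g * rw'.T a = rw'.T (g * a * g⁻¹) * rw'.T g := by rw [← map_mul, ← map_mul, inv_mul_cancel_right]
      _ = _ := by rw [e2]

variable {c b : rw'.Stab}

/-- The case of an involution with the term above in the stabilizer. -/
theorem false_of_involution {m : ℕ} (hnm : n = m + 1) (hG : dser P m ≤ rw'.Stab) (hc : (c : H) ∈ dser P n)
    (hb : (b : H) ∈ dser P n) (ha1 : rw'.bar ⁅c, b⁆ ≠ 1) (hc2 : rw'.bar c ^ 2 = 1) : False := by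
  classical
  haveI := Fact.mk Nat.prime_two
  haveI := Fact.mk pc.L.prime
  set a := ⁅c, b⁆ with hadef
  have ha : (a : H) ∈ dser P (n + 1) := Subgroup.commutator_mem_commutator hc hb
  have hcP : (c : H) ∈ P := dser_antitone P (Nat.zero_le _) hc
  have hbP : (b : H) ∈ P := dser_antitone P (Nat.zero_le _) hb
  have haP : (a : H) ∈ P := dser_antitone P (Nat.zero_le _) ha
  have ha2 : rw'.bar a ^ 2 = 1 := by rw [← map_pow, sq_last rw' hinj h0 ha, map_one]
  obtain ⟨hca, hTca⟩ := last_central rw' hinj hP hβ h0 ha hcP ha1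
  obtain ⟨hba, hTba⟩ := last_central rw' hinj hP hβ h0 ha hbP ha1
  have hainv : (rw'.bar a)⁻¹ = rw'.bar a := inv_eq_of_mul_eq_one_right (by rw [← sq, ha2])
  have hbc : rw'.bar b * rw'.bar c = rw'.bar c * rw'.bar a * rw'.bar b := by
    have e : b * c = a⁻¹ * c * b := by rw [hadef, commutatorElement_def]; group
    rw [← map_mul, e, map_mul, map_mul, map_inv, hainv, hca]
  have hTP : rw'.T b * ((rw'.T a - 1) * (rw'.T c - 1)) = (rw'.T a - 1) * (rw'.T c - 1) := by
    have h := rel_three rw' (three h0 ha hb hc)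
    have e : (rw'.T a - 1) * (rw'.T b - 1) = (rw'.T b - 1) * (rw'.T a - 1) := by
      simp only [sub_mul, mul_sub, one_mul, mul_one, hTba]; abel
    rwa [e, mul_assoc, sub_mul, one_mul, sub_eq_zero] at h
  obtain ⟨hq3, hcard1, hcard2⟩ := card_halves rw' hP hβ (b := b) haP hcP ha2 ha1 hc2 hca.symm hba.symm hbc hTba hTP
  haveI : Fact (Nat.Prime 3) := ⟨Nat.prime_three⟩
  have hM : IsPGroup 3 (PieceMod pc) := hq3 ▸ isPGroup_pieceMod pc
  set U := negSub (rw'.bar a) with hU
  let G₀ := (dser P m).subgroupOf rw'.Stab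
  have hpres : ∀ g : G₀, rw'.bar g ∈ presSub U := fun g => mem_presSub_neg_of_commute
    (last_central rw' hinj hP hβ h0 ha (dser_antitone P (Nat.zero_le _) g.2) ha1).1
  let r : G₀ →* MulAut U := (resAut U).comp (MonoidHom.codRestrict (rw'.bar.comp G₀.subtype) (presSub U) hpres)
  have hrv : ∀ (g : G₀) (x : U), ((r g x : U) : PieceMod pc) = rw'.bar g (x : PieceMod pc) := fun _ _ => rfl
  have hG₀ : IsPGroup 2 G₀ :=
    (hP.to_le (dser_antitone P (Nat.zero_le m))).comap_of_injective rw'.Stab.subtype rw'.Stab.subtype_injective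
  have hsub : dser P n ≤ dser P m := by rw [hnm]; exact dser_succ_le P m
  let gc : G₀ := ⟨c, hsub hc⟩
  let gb : G₀ := ⟨b, hsub hb⟩
  let ga : G₀ := ⟨a, hsub (dser_succ_le P n ha)⟩
  have hsq : ∀ g : G₀, (g : H) ∈ dser P n → r g ∈ sqOf r.range := by
    intro g hg
    let f : G₀ →* H := rw'.Stab.subtype.comp G₀.subtype
    have h2 : dser P n ≤ (⁅(⊤ : Subgroup G₀), (⊤ : Subgroup G₀)⁆ : Subgroup G₀).map f := by
      have e : (⊤ : Subgroup G₀).map f = dser P m := by
        ext x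
        constructor
        · rintro ⟨y, -, rfl⟩; exact y.2
        · exact fun hx => ⟨⟨⟨x, hG hx⟩, hx⟩, trivial, rfl⟩
      rw [Subgroup.map_commutator, e, hnm, dser_succ]
    obtain ⟨g', hg', he⟩ := h2 hg
    rw [show g = g' from Subtype.ext (Subtype.ext he.symm)]
    refine (Subgroup.commutator_le.2 (fun x _ y _ => ?_) : ⁅(⊤ : Subgroup G₀), ⊤⁆ ≤ (sqOf r.range).comap r) hg'
    rw [Subgroup.mem_comap, map_commutatorElement, commutatorElement_def]
    exact comm_mem_sqOf ⟨x, rfl⟩ ⟨y, rfl⟩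
  have hι : ∀ x : U, r ga x = x⁻¹ := fun x => Subtype.ext x.2
  have hUalt := (isAlt_res pc.L.ne_two (isPGroup_pieceMod pc) hβ.1 ha2 (isom_bar rw' hβ a)).2
  have hbc' : r gb * r gc * (r gb)⁻¹ = r gc * r ga := by
    rw [mul_inv_eq_iff_eq_mul]
    refine MulEquiv.ext fun x => Subtype.ext ?_
    exact DFunLike.congr_fun hbc (x : PieceMod pc)
  have hne : r gb * r gc ≠ r gc * r gb := by
    intro h
    have h3 : r ga = 1 := by
      rw [mul_inv_eq_iff_eq_mul, h, mul_assoc] at hbc'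
      exact mul_eq_right.1 (mul_left_cancel hbc').symm
    obtain ⟨s, t, -, -, hs, -, hst⟩ := exists_pair_neg rw' hβ ha2 ha1
    have h4 := hι ⟨_, hs⟩
    rw [h3, MulAut.one_apply] at h4
    refine hst ?_
    have h5 : (s : PieceMod pc) = 1 := eq_one_of_sq pc.L.ne_two (isPGroup_pieceMod pc) (by
      rw [sq]
      nth_rw 1 [show (s : PieceMod pc) = (s : PieceMod pc)⁻¹ from congrArg Subtype.val h4]
      exact inv_mul_cancel _)
    rw [QuotientGroup.mk_pow, h5, one_pow, map_one, MonoidHom.one_apply]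
  have hle : ∀ (N : Subgroup U) (N' : Subgroup (PieceMod pc)), (∀ x : U, x ∈ N → (x : PieceMod pc) ∈ N') →
      Nat.card N' ≤ 9 → Nat.card N ≤ 9 := fun N N' h h' => le_trans
    (Nat.card_le_card_of_injective (fun x : N => (⟨_, h x x.2⟩ : N')) fun x y e =>
      Subtype.ext (Subtype.ext (congrArg Subtype.val e :))) h'
  refine false_of_eighty_one (hM.to_subgroup U) hUalt (G := r.range)
    (hG₀.of_surjective r.rangeRestrict r.rangeRestrict_surjective)
    (by rintro _ ⟨g, rfl⟩ x y; exact isom_bar rw' hβ g _ _)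
    (ι := r ga) (c := r gc) (b := r gb) ⟨ga, rfl⟩ hι (hsq gc hc) (hsq gb hb) ?_ hbc' hne
    (hle _ _ (fun x hx => Subgroup.mem_inf.2 ⟨x.2, mem_fixSub.2 (congrArg Subtype.val (mem_fixSub.1 hx))⟩) hcard1)
    (hle _ _ (fun x hx => Subgroup.mem_inf.2 ⟨x.2, mem_negSub.2 (congrArg Subtype.val (mem_negSub.1 hx))⟩) hcard2)
  refine MulEquiv.ext fun x => Subtype.ext ?_
  exact DFunLike.congr_fun hc2 (x : PieceMod pc)

variable [FiniteDimensional k V]

omit hinj hP h0 in
/-- A cubic root of the plane involution forces `q = 3` and a plane. -/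
theorem small_of_cubic {w : rw'.Stab} (hcube : (rw'.T w - 1) * (rw'.T w - 1) * (rw'.T w - 1) = 0)
    (hne : rw'.bar (w ^ 2) ≠ 1) (h2 : rw'.bar (w ^ 2) ^ 2 = 1) :
    pc.L.q = 3 ∧ Nat.card (negSub (rw'.bar (w ^ 2))) ≤ 9 := by
  classical
  haveI := Fact.mk Nat.prime_two
  haveI := Fact.mk pc.L.prime
  haveI := rw'.nontrivial
  haveI : FiniteDimensional k rw'.W := inferInstance
  set T := rw'.T w with hT
  have hdbl : ∀ X : Module.End k rw'.W, X + X = 0 := add_self_end
  have hT4 : T ^ 2 ^ 2 = 1 := by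
    have h := congrArg ((T - 1) * ·) hcube
    simp only [mul_zero, ← mul_assoc] at h
    rw [hT, sub_one_sq, mul_assoc, sub_one_sq, sub_one_sq, sub_eq_zero] at h
    rw [hT, ← map_pow, show (2 : ℕ) ^ 2 = 2 * 2 from rfl, pow_mul]
    exact h
  have hsum : ∑ i ∈ Finset.range (2 ^ 2), T ^ i = 0 := by
    rw [show (2 : ℕ) ^ 2 = 4 from rfl, Finset.sum_range_succ, Finset.sum_range_succ, Finset.sum_range_succ,
      Finset.sum_range_one, pow_zero, pow_one, pow_succ, pow_succ, pow_succ, pow_zero, one_mul]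
    have e : (T - 1) * (T - 1) * (T - 1) + (1 + 1) + (T * T + T * T) + (T * T + T * T) =
        1 + T + T * T + T * T * T + (T + T) := by
      simp only [mul_sub, sub_mul, mul_add, add_mul, mul_one, one_mul, mul_assoc]; abel
    simp only [hcube, hdbl, zero_add, add_zero] at e
    exact e.symm
  let K : Subgroup pc.L.R := rw'.L.ker
  have hKinv : K.map (pc.L.act ((w : rw'.Stab) : H)).toMonoidHom = K := by
    refine Subgroup.eq_of_le_of_card_ge ?_
      (Subgroup.card_map_of_injective (f := (pc.L.act (w : H)).toMonoidHom) (pc.L.act (w : H)).injective).ge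
    rintro _ ⟨s, hs, rfl⟩
    refine MonoidHom.mem_ker.2 (sub_eq_zero.1 (cancel_T rw' w ?_))
    show (rw'.L (pc.L.act (w : H) s) - 1) * T = 0
    rw [sub_mul, hT, ← rw'.T_L, MonoidHom.mem_ker.1 hs, mul_one, one_mul, sub_self]
  let S := pc.L.R ⧸ K
  let L' : S →* Module.End k rw'.W := QuotientGroup.lift K rw'.L le_rfl
  have hL' : Function.Injective L' := by
    refine (injective_iff_map_eq_one L').2 fun x hx => ?_
    induction x using QuotientGroup.induction_on with
    | _ s => exact (QuotientGroup.eq_one_iff s).2 (MonoidHom.mem_ker.2 hx)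
  have hcen : ∀ s : pc.L.R, (s : S) ∈ Subgroup.center S ↔ s ∈ pc.rad := by
    intro s
    rw [Subgroup.mem_center_iff]
    constructor
    · intro h t
      have h1 : rw'.L t * rw'.L s = rw'.L s * rw'.L t := by
        rw [← map_mul, ← map_mul]
        exact congrArg L' (h (t : S))
      obtain ⟨x, hx⟩ := exists_ne (0 : rw'.W)
      have h3 : (rw'.L t * rw'.L s) x ≠ 0 := fun h0 => hx (by
        have := congrArg (rw'.L (t * s)⁻¹) h0
        rwa [← map_mul, ← Module.End.mul_apply, rw'.L_inv_mul, Module.End.one_apply, map_zero] at this)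
      have h4 := LinearMap.congr_fun (rw'.L_comm s t) x
      rw [← h1, LinearMap.smul_apply] at h4
      exact Units.ext (smul_left_injective k h3 ((one_smul k _).trans h4)).symm
    · intro hs x
      induction x using QuotientGroup.induction_on with
      | _ t =>
        refine hL' ?_
        rw [map_mul, map_mul]
        show rw'.L t * rw'.L s = rw'.L s * rw'.L t
        rw [rw'.L_rad ⟨s, hs⟩, smul_mul_assoc, mul_smul_comm, one_mul, mul_one]
  let σ : MulAut S := QuotientGroup.congr K K (pc.L.act (w : H)) hKinv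
  have hσv : ∀ (i : ℕ) (s : pc.L.R), (σ ^ i) (s : S) = ((pc.L.act ((w : H) ^ i) s : pc.L.R) : S) := by
    intro i
    induction i with
    | zero => intro s; rw [pow_zero, pow_zero, map_one]; rfl
    | succ i ih =>
      intro s
      rw [pow_succ', MulAut.mul_apply, ih, pow_succ', map_mul]
      rfl
  have hTL : ∀ x : S, T * L' x = L' (σ x) * T := fun x => by
    induction x using QuotientGroup.induction_on with
    | _ s => exact rw'.T_L w s
  have hpowT : ∀ (i : ℕ) (x : S), T ^ i * L' x = L' ((σ ^ i) x) * T ^ i :=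
    fun i => CfsgLib.HallHigmanB.twist_pow hTL i
  have hσ : σ ^ 2 ^ 2 = 1 := MulEquiv.ext fun x => hL' (by
    have h := hpowT (2 ^ 2) x
    rw [hT4, one_mul, mul_one] at h
    exact h.symm)
  obtain ⟨i, hi⟩ := IsPGroup.iff_card.1 (pc.L.isPGroup.to_quotient K)
  have hSk : (Nat.card S : k) ≠ 0 := by
    rw [Ne, CharP.cast_eq_zero_iff k 2, hi]
    exact fun h => pc.L.ne_two ((Nat.prime_dvd_prime_iff_eq Nat.prime_two pc.L.prime).1
      (Nat.prime_two.dvd_of_dvd_pow h)).symm
  have hclass : ∀ x y : S, ⁅x, y⁆ ∈ Subgroup.center S := by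
    intro x y
    induction x using QuotientGroup.induction_on with
    | _ s =>
      induction y using QuotientGroup.induction_on with
      | _ t => exact (hcen ⁅s, t⁆).2 (pc.center_le_rad (pc.L.class_two s t))
  have hscalar : ∀ x y : S, ∃ c : k, L' ⁅x, y⁆ = c • 1 := by
    intro x y
    induction x using QuotientGroup.induction_on with
    | _ s =>
      induction y using QuotientGroup.induction_on with
      | _ t => exact ⟨_, rw'.L_rad ⟨⁅s, t⁆, pc.center_le_rad (pc.L.class_two s t)⟩⟩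
  have hfix : ∀ x y : S, (σ ^ 2 ^ (2 - 1)) ⁅x, y⁆ = ⁅x, y⁆ := by
    intro x y
    induction x using QuotientGroup.induction_on with
    | _ s =>
      induction y using QuotientGroup.induction_on with
      | _ t =>
        show (σ ^ 2 ^ (2 - 1)) ((⁅s, t⁆ : pc.L.R) : S) = ((⁅s, t⁆ : pc.L.R) : S)
        rw [hσv]
        refine hL' ?_
        show rw'.L _ = rw'.L _
        obtain ⟨hps, -⟩ := pow_mem w.2 (2 ^ (2 - 1))
        set z : Subgroup.center pc.L.R := ⟨⁅s, t⁆, pc.L.class_two s t⟩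
        refine ((rw'.L_rad ⟨_, pc.center_le_rad (centerAut (pc.L.act ((w : H) ^ 2 ^ (2 - 1))) z).2⟩).trans ?_).trans
          (rw'.L_rad ⟨_, pc.center_le_rad z.2⟩).symm
        rw [rw'.ψ_center, rw'.ψ_center, show pc.χ (centerAut (pc.L.act ((w : H) ^ 2 ^ (2 - 1))) z) = pc.χ z from hps z]
  let C : Subgroup S := (fixSub (rw'.bar (w ^ 2))).comap
    (QuotientGroup.lift K (QuotientGroup.mk' pc.rad) fun s hs => by
      rw [QuotientGroup.ker_mk']
      refine (hcen s).1 ?_
      rw [(QuotientGroup.eq_one_iff s).2 hs]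
      exact one_mem _)
  have hC : ∀ x : S, x ∈ C ↔ (σ ^ 2 ^ (2 - 1)) x * x⁻¹ ∈ Subgroup.center S := by
    intro x
    induction x using QuotientGroup.induction_on with
    | _ s =>
      rw [hσv, ← QuotientGroup.mk_inv, ← QuotientGroup.mk_mul, hcen, ← QuotientGroup.eq_one_iff (N := pc.rad) (pc.L.act _ s * s⁻¹), QuotientGroup.mk_mul,
        QuotientGroup.mk_inv, mul_inv_eq_one]
      exact Iff.rfl
  have hidx : C.index = (fixSub (rw'.bar (w ^ 2))).index := by
    refine Subgroup.index_comap_of_surjective _ fun y => ?_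
    induction y using QuotientGroup.induction_on with
    | _ s => exact ⟨(s : S), rfl⟩
  rcases fixed_mod_center_two (p := 2) rfl (q := pc.L.q) (pc.L.isPGroup.to_quotient K) hSk L' hL' hclass hscalar σ
      (f := 2) hσ T hT4 hTL hsum hfix C hC with h | ⟨j, hj, hq, hle, -⟩
  · exfalso
    rw [h, Subgroup.index_top, eq_comm, Subgroup.index_eq_one] at hidx
    exact hne (MulEquiv.ext fun x => mem_fixSub.1 (hidx ▸ Subgroup.mem_top x))
  · obtain rfl : j = 0 := by omega
    norm_num at hq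
    have hq3 : pc.L.q = 3 := by omega
    rw [hidx, index_fixSub_eq pc.L.ne_two (isPGroup_pieceMod pc) h2, hq3] at hle
    exact ⟨hq3, hle⟩

/-- The commutators of the last but one term are squares on the piece. -/
theorem bar_sq_eq
    (hdich : (∀ a z : rw'.Stab, (a : H) ∈ dser P (n + 1) → (z : H) ∈ dser P n →
      (rw'.T a - 1) * (rw'.T z - 1) = 0) ∨ ∃ m, n = m + 1 ∧ dser P m ≤ rw'.Stab)
    (hc : (c : H) ∈ dser P n) (hb : (b : H) ∈ dser P n) :
    rw'.bar ⁅c, b⁆ = 1 ∨ rw'.bar (c ^ 2) = rw'.bar ⁅c, b⁆ := by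
  classical
  haveI := Fact.mk Nat.prime_two
  haveI := Fact.mk pc.L.prime
  refine or_iff_not_imp_left.2 fun ha1 => ?_
  set a := ⁅c, b⁆ with hadef
  have ha : (a : H) ∈ dser P (n + 1) := Subgroup.commutator_mem_commutator hc hb
  have hcP : (c : H) ∈ P := dser_antitone P (Nat.zero_le _) hc
  have haP : (a : H) ∈ P := dser_antitone P (Nat.zero_le _) ha
  have ha2 : rw'.bar a ^ 2 = 1 := by rw [← map_pow, sq_last rw' hinj h0 ha, map_one]
  have hcn : ∀ i : ℕ, ((c ^ i : rw'.Stab) : H) ∈ dser P n := fun i => by rw [Subgroup.coe_pow]; exact pow_mem hc i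
  have hinvol : ∀ v : rw'.Stab, (v : H) ∈ P → rw'.bar v ^ 2 = 1 → rw'.bar v ≠ 1 →
      (rw'.T a - 1) * (rw'.T v - 1) = 0 → rw'.bar v = rw'.bar a := fun v hv hv2 hv1 h =>
    bar_eq rw' hP hβ haP ha2 ha1 hv hv2 hv1 (last_central rw' hinj hP hβ h0 ha hv ha1).1.symm h
  obtain ⟨L, hL⟩ := pow_of_mem rw' hP hcP
  obtain ⟨l, -, hl⟩ := (Nat.dvd_prime_pow Nat.prime_two).1
    (orderOf_dvd_of_pow_eq_one (show rw'.bar c ^ 2 ^ L = 1 by rw [← map_pow, hL, map_one]))
  have hcomm1 : rw'.bar c * rw'.bar b ≠ rw'.bar b * rw'.bar c := fun h => ha1 (by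
    rw [hadef, map_commutatorElement, commutatorElement_eq_one_iff_mul_comm.2 h])
  rcases l with _ | _ | l
  · exact absurd (by rw [pow_zero, orderOf_eq_one_iff] at hl; rw [hl, one_mul, mul_one]) hcomm1
  · exfalso
    have hc2 : rw'.bar c ^ 2 = 1 := by rw [← pow_one 2, ← hl, pow_orderOf_eq_one]
    rcases hdich with htwo | ⟨m, hnm, hG⟩
    · have hc1 : rw'.bar c ≠ 1 := fun h => hcomm1 (by rw [h, one_mul, mul_one])
      refine hcomm1 ?_
      rw [hinvol c hcP hc2 hc1 (htwo a c ha hc)]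
      exact (last_central rw' hinj hP hβ h0 ha (dser_antitone P (Nat.zero_le _) hb) ha1).1.symm
    · exact false_of_involution rw' hinj hP hβ h0 hnm hG hc hb ha1 hc2
  set w := c ^ 2 ^ l with hw
  have hord : rw'.bar (w ^ 2) ≠ 1 := by
    rw [hw, ← pow_mul, ← pow_succ, map_pow]
    intro h
    have := orderOf_dvd_of_pow_eq_one h
    rw [hl] at this
    exact absurd ((Nat.pow_dvd_pow_iff_le_right (by norm_num)).1 this) (by omega)
  have hv2 : rw'.bar (w ^ 2) ^ 2 = 1 := by
    rw [hw, ← pow_mul, ← pow_succ, map_pow, ← pow_mul, ← pow_succ, ← hl, pow_orderOf_eq_one]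
  have hwP : ((w ^ 2 : rw'.Stab) : H) ∈ P := by
    rw [Subgroup.coe_pow, hw, Subgroup.coe_pow]
    exact pow_mem (pow_mem hcP _) 2
  have h3 : (rw'.T a - 1) * (rw'.T (w ^ 2) - 1) = 0 := by
    rw [← sub_one_sq, ← mul_assoc]
    exact rel_three rw' (three h0 ha (hcn _) (hcn _))
  have hva := hinvol _ hwP hv2 hord h3
  rcases l with _ | l
  · rwa [show w = c by rw [hw, pow_zero, pow_one]] at hva
  exfalso
  have hTv := T_eq rw' hP hβ haP ha2 ha1 hwP hva h3
  have hwP1 : (w : H) ∈ P := by rw [hw, Subgroup.coe_pow]; exact pow_mem hcP _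
  have hcube : (rw'.T w - 1) * (rw'.T w - 1) * (rw'.T w - 1) = 0 := by
    have e : (rw'.T w - 1) * (rw'.T w - 1) = rw'.T a - 1 := by rw [sub_one_sq, hTv]
    rw [e, show w = (c ^ 2 ^ l) ^ 2 by rw [hw, ← pow_mul, ← pow_succ], ← sub_one_sq, ← mul_assoc]
    exact rel_three rw' (three h0 ha (hcn _) (hcn _))
  obtain ⟨hq3, hcard⟩ := small_of_cubic rw' hβ hcube hord hv2
  haveI : Fact (Nat.Prime 3) := ⟨Nat.prime_three⟩
  have hM : IsPGroup 3 (PieceMod pc) := hq3 ▸ isPGroup_pieceMod pc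
  set U := negSub (rw'.bar (w ^ 2)) with hU
  have hd : rw'.bar (c ^ 2 ^ l) ∈ presSub U := by
    refine mem_presSub_neg_of_commute ?_
    rw [← map_mul, ← map_mul, hw, ← pow_mul, ← pow_add, ← pow_add, add_comm]
  haveI : Nontrivial U := by
    refine (Subgroup.nontrivial_iff_ne_bot _).2 fun h => hord ?_
    refine MulEquiv.ext fun x => ?_
    have h1 := (mul_apply_mem hv2 x).2
    rw [← hU, h, Subgroup.mem_bot, mul_inv_eq_one] at h1
    exact h1.symm
  refine false_of_pow_four (hM.to_subgroup U) (isAlt_res pc.L.ne_two (isPGroup_pieceMod pc) hβ.1 hv2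
    (isom_bar rw' hβ _)).2 hcard (c := resAut U ⟨_, hd⟩) (fun x y => isom_bar rw' hβ _ _ _) fun x => ?_
  refine Subtype.ext ?_
  rw [← map_pow]
  show (rw'.bar (c ^ 2 ^ l) ^ 4) (x : PieceMod pc) = _
  rw [← map_pow, show (c ^ 2 ^ l) ^ 4 = w ^ 2 by rw [hw, ← pow_mul, ← pow_mul]; congr 1; ring]
  exact x.2

end CfsgLib.PLengthTwoDer
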