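import Mathlib
import Cfsg.Agent.PLengthTwoDer.Square

/-!
The commutators of the last but one term of the derived series modulo the next term of the piece series.
-/

set_option autoImplicit false
set_option maxHeartbeats 400000

open scoped commutatorElement IsMulCommutative

namespace CfsgLib.PLengthTwoDer

open CfsgLib.PLengthExp CfsgLib.PLengthGross CfsgLib.PLengthTwoExp

universe u v w

variable {k : Type w} [Field k] [IsAlgClosed k] [CharP k 2] {V : Type v} [AddCommGroup V] [Module k V]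
  [FiniteDimensional k V] {H : Type u} [Group H] [Finite H] {ρ : H →* Module.End k V} {P : Subgroup H}

omit [FiniteDimensional k V] in
/-- The last term fixes the centres of the layers. -/
theorem mem_fixCenters (hinj : Function.Injective ρ) (hP : IsPGroup 2 P) {n : ℕ}
    (h0 : dmod ρ P (n + 1 + 1) = ⊥) {a : H} (ha : a ∈ dser P (n + 1)) : a ∈ fixCenters H := by
  intro L z hz
  haveI := Fact.mk L.prime
  refine Subtype.ext (hinj (sub_eq_zero.1 (CfsgLib.FpfAut.eq_zero_of_eigen (k := k) ?_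
    ((ρ.comp L.R.subtype).comp (Subgroup.center L.R).subtype) _ fun χ x hx => ?_)))
  · obtain ⟨i, hi⟩ := IsPGroup.iff_card.1 (L.isPGroup.to_subgroup (Subgroup.center L.R))
    rw [Ne, CharP.cast_eq_zero_iff k 2, hi]
    exact fun h => L.ne_two ((Nat.prime_dvd_prime_iff_eq Nat.prime_two L.prime).1
      (Nat.prime_two.dvd_of_dvd_pow h)).symm
  rcases eq_or_ne x 0 with rfl | hx0
  · exact map_zero _
  let pc : WeightPiece ρ := ⟨L, χ, x, hx0, hx⟩
  obtain ⟨rw'⟩ := exists_radWeight pc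
  have h : pc.χ (centerAut (pc.L.act a) ⟨z, hz⟩) = pc.χ ⟨z, hz⟩ :=
    RadWeight.mem_pieceStab (rw'.mem_stab hP h0 ha) ⟨z, hz⟩
  rw [LinearMap.sub_apply, sub_eq_zero,
    show ρ ((L.act a z : L.R) : H) x = (χ (centerAut (L.act a) ⟨z, hz⟩) : k) • x from
      hx (centerAut (L.act a) ⟨z, hz⟩),
    show ρ ((z : L.R) : H) x = (χ ⟨z, hz⟩ : k) • x from hx ⟨z, hz⟩]
  exact congrArg (fun e : kˣ => (e : k) • x) h

omit [CharP k 2] [FiniteDimensional k V] in
theorem mem_ker_of_bar {pc : WeightPiece ρ} (rw' : RadWeight pc) {m : H} (hm : m ∈ fixCenters H) {g : rw'.Stab}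
    (e : (g : H) = m) (h : rw'.bar g = 1) : m ∈ pc.ker := by
  subst e
  exact mem_ker_of_pieceAct hm h

/-- A commutator of the last but one term is in the next term. -/
theorem comm_mem_piece (hinj : Function.Injective ρ) (hP : IsPGroup 2 P) {n : ℕ}
    (h0 : dmod ρ P (n + 1 + 1) = ⊥) (pc : WeightPiece ρ) {X : Subgroup H} (hXP : X ≤ P) (hXf : X ≤ fixCenters H)
    (hXn : P ≤ Subgroup.normalizer (X : Set H)) {c y : H} (hc : c ∈ X) (hc' : c ∈ dser P n) (hy : y ∈ dser P n) :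
    ⁅c, y⁆ ∈ frattiniOf X ⊔ (X ⊓ pc.ker) := by
  classical
  obtain ⟨β, hβ⟩ := exists_pairing pc
  obtain ⟨rw'⟩ := exists_radWeight pc
  have ha : ⁅c, y⁆ ∈ dser P (n + 1) := Subgroup.commutator_mem_commutator hc' hy
  have haX : ⁅c, y⁆ ∈ X := by
    have h1 : y * c⁻¹ * y⁻¹ ∈ X :=
      (Subgroup.mem_normalizer_iff.1 (hXn (dser_antitone P (Nat.zero_le n) hy)) _).1 (inv_mem hc)
    rw [commutatorElement_def, show c * y * c⁻¹ * y⁻¹ = c * (y * c⁻¹ * y⁻¹) by group]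
    exact mul_mem hc h1
  have haS := rw'.mem_stab hP h0 ha
  by_cases hbar : rw'.bar ⟨_, haS⟩ = 1
  · exact Subgroup.mem_sup_right ⟨haX, mem_ker_of_bar rw' (hXf haX) rfl hbar⟩
  have hB := rw'.le_stab hP h0 (a := ⟨_, haS⟩) ha fun h => hbar (rw'.bar_eq_one_of_T h)
  have hdich : (∀ a z : rw'.Stab, (a : H) ∈ dser P (n + 1) → (z : H) ∈ dser P n →
      (rw'.T a - 1) * (rw'.T z - 1) = 0) ∨ ∃ m, n = m + 1 ∧ dser P m ≤ rw'.Stab := by
    rcases n with _ | m
    · exact Or.inl fun a z ha hz => rw'.two_factor hP h0 (fun i hi => absurd hi (Nat.not_lt_zero i)) ha hz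
    by_cases hm : dser P m ≤ rw'.Stab
    · exact Or.inr ⟨m, rfl, hm⟩
    · exact Or.inl fun a z ha hz => rw'.two_factor hP h0
        (fun i hi hle => hm ((dser_antitone P (Nat.le_of_lt_succ hi)).trans hle)) ha hz
  set cS : rw'.Stab := ⟨c, hB hc'⟩ with hcS
  set yS : rw'.Stab := ⟨y, hB hy⟩ with hyS
  have ecy : ⁅cS, yS⁆ = (⟨⁅c, y⁆, haS⟩ : rw'.Stab) := Subtype.ext (map_commutatorElement rw'.Stab.subtype cS yS)
  have hne : rw'.bar ⁅cS, yS⁆ ≠ 1 := fun h => hbar (ecy ▸ h)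
  have hsq := (bar_sq_eq rw' hinj hP hβ h0 hdich (c := cS) (b := yS) hc' hy).resolve_left hne
  have hmem : (c ^ 2)⁻¹ * ⁅c, y⁆ ∈ X := mul_mem (inv_mem (pow_mem hc 2)) haX
  rw [← mul_inv_cancel_left (c ^ 2) ⁅c, y⁆]
  refine Subgroup.mul_mem_sup (sq_mem_frattiniOf (hP.to_le hXP) hc) ⟨hmem, ?_⟩
  refine mem_ker_of_bar rw' (hXf hmem) (g := (cS ^ 2)⁻¹ * ⁅cS, yS⁆) ?_ ?_
  · rw [ecy, Subgroup.coe_mul, Subgroup.coe_inv, Subgroup.coe_pow, hcS]
  · rw [map_mul, map_inv, hsq, inv_mul_cancel]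

end CfsgLib.PLengthTwoDer
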