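import Mathlib
import Cfsg.Agent.PLengthTwoExp.Main
import Cfsg.Agent.PLengthTwoDer.PieceDer

/-!
The 2-length of a solvable group is at most the derived length of its Sylow 2-subgroups.
-/

set_option autoImplicit false
set_option maxHeartbeats 1600000

open scoped commutatorElement TensorProduct

namespace CfsgLib.PLengthTwoDer

open Cfsg CfsgLib.PLengthExp CfsgLib.PLengthGross CfsgLib.PLengthTwoExp

universe u v w

/-- The series of an extension of scalars. -/
theorem dmod_baseChange_le {K : Type w} [Field K] [Algebra (ZMod 2) K] {W : Type v} [AddCommGroup W]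
    [Module (ZMod 2) W] {G : Type u} [Group G] (ρ : G →* Module.End K (K ⊗[ZMod 2] W)) (P : Subgroup G)
    (S : ℕ → Set W) (h0 : ∀ w, w ∈ S 0)
    (hstep : ∀ i, ∀ y ∈ dser P i, ∃ L : Module.End (ZMod 2) W,
      ρ y = Module.End.baseChangeHom (ZMod 2) K W L ∧ ∀ w ∈ S i, (L - 1) w ∈ S (i + 1)) (i : ℕ) :
    dmod ρ P i ≤ Submodule.span K ((fun w => (1 : K) ⊗ₜ[ZMod 2] w) '' S i) := by
  induction i with
  | zero =>
    suffices h : ∀ x, x ∈ Submodule.span K ((fun w => (1 : K) ⊗ₜ[ZMod 2] w) '' S 0) from fun x _ => h x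
    intro x
    induction x using TensorProduct.induction_on with
    | zero => exact zero_mem _
    | tmul c w =>
      rw [← mul_one c, ← smul_eq_mul, ← TensorProduct.smul_tmul']
      exact Submodule.smul_mem _ _ (Submodule.subset_span ⟨w, h0 w, rfl⟩)
    | add a b ha hb => exact add_mem ha hb
  | succ i ih =>
    refine Submodule.span_le.2 ?_
    rintro _ ⟨y, hy, v, hv, rfl⟩
    obtain ⟨L, hL, hLS⟩ := hstep i y hy
    refine (?_ : Submodule.span K ((fun w => (1 : K) ⊗ₜ[ZMod 2] w) '' S i) ≤
      (Submodule.span K ((fun w => (1 : K) ⊗ₜ[ZMod 2] w) '' S (i + 1))).comap (ρ y - 1)) (ih hv)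
    refine Submodule.span_le.2 ?_
    rintro _ ⟨w, hw, rfl⟩
    refine Submodule.subset_span ⟨_, hLS w hw, ?_⟩
    rw [hL, LinearMap.sub_apply, Module.End.one_apply]
    show (1 : K) ⊗ₜ[ZMod 2] (L w - w) = (1 : K) ⊗ₜ[ZMod 2] L w - (1 : K) ⊗ₜ[ZMod 2] w
    exact TensorProduct.tmul_sub _ _ _

theorem dmod_baseChange_eq_bot {K : Type w} [Field K] [Algebra (ZMod 2) K] {W : Type v} [AddCommGroup W]
    [Module (ZMod 2) W] {G : Type u} [Group G] (ρ : G →* Module.End K (K ⊗[ZMod 2] W)) (P : Subgroup G)
    (S : ℕ → Set W) (h0 : ∀ w, w ∈ S 0)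
    (hstep : ∀ i, ∀ y ∈ dser P i, ∃ L : Module.End (ZMod 2) W,
      ρ y = Module.End.baseChangeHom (ZMod 2) K W L ∧ ∀ w ∈ S i, (L - 1) w ∈ S (i + 1)) {e : ℕ}
    (he : ∀ w ∈ S e, w = 0) : dmod ρ P e = ⊥ := by
  refine le_bot_iff.1 ((dmod_baseChange_le ρ P S h0 hstep e).trans (Submodule.span_le.2 ?_))
  rintro _ ⟨w, hw, rfl⟩
  show (1 : K) ⊗ₜ[ZMod 2] w ∈ (⊥ : Submodule K (K ⊗[ZMod 2] W))
  rw [he w hw, TensorProduct.tmul_zero]
  exact zero_mem _

/-- A 2-subgroup of a homomorphic image lifts to a Sylow subgroup. -/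
theorem exists_sylow_lift {G : Type u} [Group G] [Finite G] {G' : Type v} [Group G'] (f : G →* G')
    (hf : Function.Surjective f) {S : Subgroup G'} (hS : IsPGroup 2 S) :
    ∃ T : Sylow 2 G, S ≤ (T : Subgroup G).map f := by
  haveI := Fact.mk Nat.prime_two
  haveI : Finite G' := Finite.of_surjective f hf
  obtain ⟨S', hS'⟩ := hS.exists_le_sylow
  obtain ⟨T, rfl⟩ := Sylow.mapSurjective_surjective hf 2 S'
  exact ⟨T, by rwa [Sylow.coe_mapSurjective] at hS'⟩

/-- The recursion: a module series of length `n + 1` for the 2-subgroups gives 2-length at most `n`. -/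
theorem pLengthLE_of_dmod : ∀ (n : ℕ) (H : Type u) [Group H] [Finite H], Group.IsSolvable H → pCore 2 H = ⊥ →
    ∀ (V : Type u) [AddCommGroup V] [Module (Clo 2) V] [FiniteDimensional (Clo 2) V]
      (ρ : H →* Module.End (Clo 2) V), Function.Injective ρ →
      (∀ P : Subgroup H, IsPGroup 2 P → dmod ρ P (n + 1) = ⊥) → PLengthLE 2 n H := by
  haveI := Fact.mk Nat.prime_two
  intro n
  induction n with
  | zero =>
    intro H _ _ _ _ V _ _ _ ρ hinj hser
    rw [CfsgLib.Constrained.pLengthLE_zero_iff]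
    intro hd
    obtain ⟨x, hx⟩ := exists_prime_orderOf_dvd_card' 2 hd
    have h1 : ρ x = 1 := by
      rw [← sub_eq_zero]
      refine LinearMap.ext fun v => (Submodule.eq_bot_iff _).1 (hser (Subgroup.zpowers x)
        (IsPGroup.of_card (n := 1) (by rw [Nat.card_zpowers, hx, pow_one]))) _
        (sub_one_mem_succ (i := 0) (Subgroup.mem_zpowers x) (Submodule.mem_top (x := v)))
    rw [hinj (h1.trans (map_one ρ).symm), orderOf_one] at hx
    norm_num at hx
  | succ n ih =>
    intro H _ _ hsol hO V _ _ _ ρ hinj hser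
    haveI := hsol
    classical
    set M := pPrimePCore 2 H with hM
    obtain ⟨S⟩ : Nonempty (Sylow 2 H) := inferInstance
    set MS := M ⊓ (S : Subgroup H) with hMS
    have hMS2 : IsPGroup 2 MS := S.isPGroup'.to_le inf_le_right
    set N := Subgroup.normalizer (MS : Set H) with hN
    have hMSN : MS ≤ N := Subgroup.le_normalizer
    have hTidx : ¬ 2 ∣ (MS.subgroupOf M).index := not_dvd_relIndex_inf S M
    let T : Sylow 2 M := (hMS2.comap_of_injective M.subtype M.subtype_injective).toSylow hTidx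
    have hTmap : (T : Subgroup M).map M.subtype = MS := by
      show (MS.subgroupOf M).map M.subtype = MS
      rw [Subgroup.map_subgroupOf_eq_of_le inf_le_left]
    have hfr : N ⊔ M = ⊤ := by
      have h := Sylow.normalizer_sup_eq_top (N := M) T
      rwa [hTmap] at h
    set Z := MS ⊓ fixCenters H with hZ
    have hnorm : ∀ (X : Subgroup H), (∀ g ∈ N, ∀ z ∈ X, g * z * g⁻¹ ∈ X) → N ≤ Subgroup.normalizer (X : Set H) :=
      fun X h g hg => Subgroup.mem_normalizer_iff.2 fun z => ⟨h g hg z, fun hz => by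
        have := h g⁻¹ (inv_mem hg) _ hz
        simpa [mul_assoc] using this⟩
    have key : ∀ c, ∀ X : Subgroup H, Nat.card X = c → N ≤ Subgroup.normalizer (X : Set H) → X ≤ MS →
        (Z ≤ X ∨ X ≤ Z) → ∃ (L : Subgroup N) (_ : L.Normal), PLengthLE 2 n (N ⧸ L) ∧
          ∀ g ∈ L, ¬ 2 ∣ orderOf (g : H) → ∀ a ∈ X, (g : H) * a = a * g := by
      intro c
      induction c using Nat.strong_induction_on with
      | _ c ihc =>
      intro X hc hXN hXMS hXZ
      rcases eq_or_ne X ⊥ with rfl | hXne
      · refine ⟨⊤, inferInstance, CfsgLib.Constrained.pLengthLE_mono (Nat.zero_le n) ?_, fun g _ _ a ha => ?_⟩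
        · rw [CfsgLib.Constrained.pLengthLE_zero_iff, ← Subgroup.index_eq_card, Subgroup.index_top]
          norm_num
        · rw [Subgroup.mem_bot.1 ha, mul_one, one_mul]
      have hX2 : IsPGroup 2 X := hMS2.to_le hXMS
      -- the target
      obtain ⟨T₀, hT₀X, hT₀ne, hT₀N, hT₀F, hT₀Z, hT₀⟩ : ∃ T₀ : Subgroup H, T₀ ≤ X ∧ T₀ ≠ X ∧
          N ≤ Subgroup.normalizer (T₀ : Set H) ∧ frattiniOf X ≤ T₀ ∧ (Z ≤ T₀ ∨ X ≤ Z) ∧
          ∀ Pt : Subgroup H, IsPGroup 2 Pt → Pt ≤ N → X ≤ Pt → ∀ a ∈ X, a ∈ dser Pt n → ∀ y ∈ dser Pt n,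
            ⁅a, y⁆ ∈ T₀ := by
        have hcX : ∀ Pt : Subgroup H, Pt ≤ N → ∀ a ∈ X, ∀ y ∈ dser Pt n, ⁅a, y⁆ ∈ X := by
          intro Pt hPtN a ha y hy
          rw [commutatorElement_def, show a * y * a⁻¹ * y⁻¹ = a * (y * a⁻¹ * y⁻¹) by group]
          exact mul_mem ha ((Subgroup.mem_normalizer_iff.1
            (hXN (hPtN (dser_antitone Pt (Nat.zero_le n) hy))) _).1 (inv_mem ha))
        by_cases hlt : X ≤ Z
        · have hXf : X ≤ fixCenters H := hlt.trans inf_le_right
          refine ⟨next ρ X, inf_le_left, next_ne hinj inferInstance hX2 hXf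
            (fun a ha ha' => eq_one_of_centralizes_layers hO ha ha') hXne, le_normalizer_next hXN,
            le_inf (frattiniOf_le X) (le_iInf fun _ => le_sup_left), Or.inr hlt,
            fun Pt hPt hPtN hXPt a ha ha' y hy => ?_⟩
          exact Subgroup.mem_inf.2 ⟨hcX Pt hPtN a ha y hy, Subgroup.mem_iInf.2 fun pc =>
            comm_mem_piece hinj hPt (hser Pt hPt) pc hXPt hXf (hPtN.trans hXN) ha ha' hy⟩
        · have hZX : Z ≤ X := hXZ.resolve_right hlt
          refine ⟨frattiniOf X ⊔ Z, sup_le (frattiniOf_le X) hZX, fun h => hlt (le_of_eq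
            (eq_of_frattiniOf_sup hZX h.ge).symm), hnorm _ fun g hg z hz => ?_, le_sup_left, Or.inl le_sup_right,
            fun Pt hPt hPtN hXPt a ha ha' y hy => ?_⟩
          · refine ((sup_le ?_ ?_) : frattiniOf X ⊔ Z ≤ (frattiniOf X ⊔ Z).comap (MulAut.conj g).toMonoidHom) hz
            · exact fun y hy => Subgroup.mem_sup_left (conj_mem_frattiniOf (hXN hg) hy)
            · exact fun y hy => Subgroup.mem_sup_right (Subgroup.mem_inf.2
                ⟨(Subgroup.mem_normalizer_iff.1 hg y).1 hy.1, conj_mem_fixCenters hy.2⟩)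
          · exact Subgroup.mem_sup_right (Subgroup.mem_inf.2 ⟨hXMS (hcX Pt hPtN a ha y hy),
              mem_fixCenters hinj hPt (hser Pt hPt) (Subgroup.commutator_mem_commutator ha' hy)⟩)
      -- a maximal invariant subgroup over the target
      obtain ⟨Y, ⟨hTY, hYX, hYN⟩, hYmax⟩ :=
        (Set.toFinite {Y : Subgroup H | T₀ ≤ Y ∧ Y < X ∧ N ≤ Subgroup.normalizer (Y : Set H)}).exists_maximal
          ⟨T₀, le_rfl, lt_of_le_of_ne hT₀X hT₀ne, hT₀N⟩
      haveI hYn : (Y.subgroupOf X).Normal := normal_subgroupOf_of_frattini hX2 (hT₀F.trans hTY)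
      let A := X ⧸ Y.subgroupOf X
      have hsq : ∀ a : A, a ^ 2 = 1 := fun a => by
        induction a using QuotientGroup.induction_on with
        | _ a =>
          rw [← QuotientGroup.mk_pow, QuotientGroup.eq_one_iff]
          exact hTY (hT₀F (sq_mem_frattiniOf hX2 a.2))
      letI : CommGroup A := { (inferInstance : Group A) with
        mul_comm := fun a b => by
          have ha : a⁻¹ = a := inv_eq_of_mul_eq_one_right (by rw [← sq, hsq])
          have hb : b⁻¹ = b := inv_eq_of_mul_eq_one_right (by rw [← sq, hsq])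
          have hab : (a * b)⁻¹ = a * b := inv_eq_of_mul_eq_one_right (by rw [← sq, hsq])
          rw [← hab, mul_inv_rev, ha, hb] }
      letI : Module (ZMod 2) (Additive A) := AddCommGroup.zmodModule fun v => by
        refine Additive.toMul.injective ?_
        show (Additive.toMul v) ^ 2 = 1
        exact hsq _
      let cN : N →* MulAut X := X.normalizerMonoidHom.comp (Subgroup.inclusion hXN)
      have hcN : ∀ (g : N) (a : X), ((cN g a : X) : H) = g * a * (g : H)⁻¹ := fun g a => rfl
      have hcY : ∀ g : N, (Y.subgroupOf X).map (cN g).toMonoidHom = Y.subgroupOf X := by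
        intro g
        refine Subgroup.eq_of_le_of_card_ge ?_
          (Subgroup.card_map_of_injective (f := (cN g).toMonoidHom) (cN g).injective).ge
        rintro _ ⟨a, ha, rfl⟩
        exact (Subgroup.mem_normalizer_iff.1 (hYN g.2) _).1 ha
      let act : N →* MulAut A := MonoidHom.mk' (fun g => QuotientGroup.congr _ _ (cN g) (hcY g))
        fun g g' => MulEquiv.ext fun a => by
          induction a using QuotientGroup.induction_on with
          | _ a =>
            show ((cN (g * g') a : X) : A) = ((cN g (cN g' a) : X) : A)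
            rw [map_mul, MulAut.mul_apply]
      -- the range has no normal 2-subgroup
      have hrange : pCore 2 act.range = ⊥ := by
        set Q := pCore 2 act.range with hQ
        have hQ2 : IsPGroup 2 Q := CfsgLib.Constrained.isPGroup_pCore
        letI : MulAction Q A :=
          { smul := fun σ a => ((σ : act.range) : MulAut A) a
            one_smul := fun a => rfl
            mul_smul := fun σ τ a => rfl }
        let Y' : Subgroup H :=
          { carrier := {a | ∃ ha : a ∈ X, ∀ σ ∈ Q, ((σ : act.range) : MulAut A) ((⟨a, ha⟩ : X) : A) =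
              ((⟨a, ha⟩ : X) : A)}
            one_mem' := ⟨one_mem X, fun σ _ => map_one _⟩
            mul_mem' := fun {a b} ⟨ha, ha'⟩ ⟨hb, hb'⟩ => ⟨mul_mem ha hb, fun σ hσ => by
              rw [show ((⟨a * b, mul_mem ha hb⟩ : X) : A) = ((⟨a, ha⟩ : X) : A) * ((⟨b, hb⟩ : X) : A) from rfl,
                map_mul, ha' σ hσ, hb' σ hσ]⟩
            inv_mem' := fun {a} ⟨ha, ha'⟩ => ⟨inv_mem ha, fun σ hσ => by
              rw [show ((⟨a⁻¹, inv_mem ha⟩ : X) : A) = ((⟨a, ha⟩ : X) : A)⁻¹ from rfl, map_inv, ha' σ hσ]⟩ }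
        have hYY' : Y ≤ Y' := fun a ha => ⟨hYX.le ha, fun σ _ => by
          rw [(QuotientGroup.eq_one_iff (⟨a, hYX.le ha⟩ : X)).2 ha, map_one]⟩
        have hY'N : N ≤ Subgroup.normalizer (Y' : Set H) := by
          refine hnorm _ fun g hg a => ?_
          rintro ⟨ha, ha'⟩
          have hca : g * a * g⁻¹ ∈ X := (Subgroup.mem_normalizer_iff.1 (hXN hg) a).1 ha
          refine ⟨hca, fun σ hσ => ?_⟩
          let gr : act.range := ⟨act ⟨g, hg⟩, _, rfl⟩
          have h1 := ha' (gr⁻¹ * σ * gr⁻¹⁻¹) ((inferInstance : Q.Normal).conj_mem σ hσ gr⁻¹)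
          have h2 : ((⟨g * a * g⁻¹, hca⟩ : X) : A) = act ⟨g, hg⟩ ((⟨a, ha⟩ : X) : A) := rfl
          rw [h2]
          have h3 := congrArg (act ⟨g, hg⟩) h1
          rw [inv_inv, Subgroup.coe_mul, Subgroup.coe_mul, Subgroup.coe_inv, MulAut.mul_apply, MulAut.mul_apply,
            MulAut.apply_inv_self] at h3
          exact h3
        have hlt : Y < Y' := by
          refine lt_of_le_of_ne hYY' fun he => ?_
          have h2A : 2 ∣ Nat.card A := by
            haveI : Nontrivial A := QuotientGroup.nontrivial_iff.2 fun h => hYX.ne (le_antisymm hYX.le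
              (Subgroup.subgroupOf_eq_top.1 h))
            obtain ⟨l, hl, hl'⟩ := (hX2.to_quotient (Y.subgroupOf X)).nontrivial_iff_card.1 inferInstance
            show 2 ∣ Nat.card (X ⧸ Y.subgroupOf X)
            rw [hl']
            exact dvd_pow_self 2 hl.ne'
          obtain ⟨b, hb, hb1⟩ := hQ2.exists_fixed_point_of_prime_dvd_card_of_fixed_point A h2A
            (a := (1 : A)) (fun σ => map_one ((σ : act.range) : MulAut A))
          obtain ⟨b, rfl⟩ := QuotientGroup.mk_surjective b
          refine hb1 ((QuotientGroup.eq_one_iff b).2 ?_).symm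
          show (b : H) ∈ Y
          rw [he]
          exact ⟨b.2, fun σ hσ => hb ⟨σ, hσ⟩⟩
        have hY'X : Y' = X := by
          by_contra h
          exact hlt.not_ge (hYmax ⟨hTY.trans hYY', lt_of_le_of_ne (fun a ha => ha.1) h, hY'N⟩ hYY')
        rw [Subgroup.eq_bot_iff_forall]
        intro σ hσ
        refine Subtype.ext (MulEquiv.ext fun a => ?_)
        induction a using QuotientGroup.induction_on with
        | _ a =>
          obtain ⟨ha, ha'⟩ : (a : H) ∈ Y' := by rw [hY'X]; exact a.2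
          exact ha' σ hσ
      -- the representation
      let lin : MulAut A →* Module.End (ZMod 2) (Additive A) :=
        { toFun := fun σ => (MulEquiv.toAdditive σ).toAddMonoidHom.toZModLinearMap 2
          map_one' := LinearMap.ext fun _ => rfl
          map_mul' := fun _ _ => LinearMap.ext fun _ => rfl }
      let rA : act.range →* Module.End (Clo 2) (Clo 2 ⊗[ZMod 2] Additive A) :=
        ((Module.End.baseChangeHom (ZMod 2) (Clo 2) (Additive A)).toMonoidHom.comp lin).comp act.range.subtype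
      have hrA : Function.Injective rA := by
        intro σ τ h
        have h1 : lin σ = lin τ := by
          refine LinearMap.ext fun v => ?_
          have h1 := DFunLike.congr_fun h ((1 : Clo 2) ⊗ₜ v)
          exact Module.FaithfullyFlat.tensorProduct_mk_injective (A := ZMod 2) (B := Clo 2) (Additive A) h1
        exact Subtype.ext (MulEquiv.ext fun a =>
          congrArg Additive.toMul (DFunLike.congr_fun h1 (Additive.ofMul a)))
      have hA : PLengthLE 2 n act.range := by
        haveI : Group.IsSolvable act.range :=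
          solvable_of_surjective (f := act.rangeRestrict) act.rangeRestrict_surjective
        refine ih act.range inferInstance hrange _ rA hrA fun S' hS' => ?_
        obtain ⟨T', hT'⟩ := exists_sylow_lift act.rangeRestrict act.rangeRestrict_surjective hS'
        set Pt := (T' : Subgroup N).map N.subtype with hPt
        have hMST : MS ≤ Pt := by
          intro a ha
          haveI : (MS.subgroupOf N).Normal := ⟨fun b hb g => (Subgroup.mem_normalizer_iff.1 g.2 _).1 hb⟩
          obtain ⟨T'', hT''⟩ := (hMS2.comap_of_injective N.subtype N.subtype_injective).exists_le_sylow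
          obtain ⟨y, hy⟩ := MulAction.exists_smul_eq N T'' T'
          refine ⟨⟨a, hMSN ha⟩, ?_, rfl⟩
          show (⟨a, hMSN ha⟩ : N) ∈ (T' : Subgroup N)
          rw [← hy, Sylow.coe_subgroup_smul]
          exact Subgroup.mem_pointwise_smul_iff_inv_smul_mem.2
            (hT'' ((inferInstance : (MS.subgroupOf N).Normal).conj_mem' ⟨a, hMSN ha⟩ ha y))
        have hPtN : Pt ≤ N := Subgroup.map_subtype_le _
        have hPt2 : IsPGroup 2 Pt := T'.isPGroup'.map _
        let Sset : ℕ → Set (Additive A) := fun i =>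
          {w | (i ≤ n ∧ ∃ a : X, (a : H) ∈ dser Pt i ∧ Additive.ofMul (a : A) = w) ∨ (n < i ∧ w = 0)}
        refine dmod_baseChange_eq_bot rA S' Sset (fun w => ?_) (fun i y hy => ?_) fun w hw => ?_
        · obtain ⟨a, ha⟩ := QuotientGroup.mk_surjective (Additive.toMul w)
          exact Or.inl ⟨Nat.zero_le n, a, hMST (hXMS a.2), by rw [ha]; rfl⟩
        · obtain ⟨g, hg, rfl⟩ : y ∈ (dser (T' : Subgroup N) i).map act.rangeRestrict := by
            rw [map_dser]; exact dser_mono hT' i hy
          refine ⟨lin (act g), rfl, fun w hw => ?_⟩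
          rcases hw with ⟨hin, a, ha, rfl⟩ | ⟨hin, rfl⟩
          swap
          · exact Or.inr ⟨by omega, map_zero _⟩
          have hgP : (g : H) ∈ dser Pt i := by
            rw [hPt, ← map_dser]; exact ⟨g, hg, rfl⟩
          have hgN := Subgroup.mem_normalizer_iff.1 (hXN g.2)
          have hmem : (g : H) * a * (g : H)⁻¹ * (a : H)⁻¹ ∈ X := mul_mem ((hgN _).1 a.2) (inv_mem a.2)
          have hval : (lin (act g) - 1) (Additive.ofMul (a : A)) = Additive.ofMul ((⟨_, hmem⟩ : X) : A) := by
            rw [show (⟨_, hmem⟩ : X) = cN g a * a⁻¹ from rfl, QuotientGroup.mk_mul, QuotientGroup.mk_inv, ofMul_mul,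
              ofMul_inv, ← sub_eq_add_neg]
            rfl
          rw [hval]
          rcases Nat.lt_or_eq_of_le hin with hlt | rfl
          · exact Or.inl ⟨hlt, ⟨_, hmem⟩, Subgroup.commutator_mem_commutator hgP ha, rfl⟩
          · refine Or.inr ⟨Nat.lt_succ_self _, ?_⟩
            rw [(QuotientGroup.eq_one_iff _).2 ?_]
            · rfl
            show (g : H) * a * (g : H)⁻¹ * (a : H)⁻¹ ∈ Y
            refine hTY ?_
            rw [← commutatorElement_def, ← commutatorElement_inv]
            exact inv_mem (hT₀ Pt hPt2 hPtN (hXMS.trans hMST) _ a.2 ha _ hgP)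
        · rcases hw with ⟨h, -⟩ | ⟨-, h⟩
          · omega
          · exact h
      obtain ⟨L', hL'n, hL', hL'c⟩ := ihc (Nat.card Y) (by
          rw [← hc]
          exact lt_of_le_of_ne (Subgroup.card_le_of_le hYX.le)
            fun h => hYX.ne (Subgroup.eq_of_le_of_card_ge hYX.le h.ge))
        Y rfl hYN (hYX.le.trans hXMS) (hT₀Z.imp (fun h => h.trans hTY) fun h => hYX.le.trans h)
      haveI := hL'n
      refine ⟨L' ⊓ act.ker, inferInstance, ?_, fun g hg hgo a ha => ?_⟩
      · refine pLengthLE_of_pair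
          (QuotientGroup.lift (L' ⊓ act.ker) (QuotientGroup.mk' L') (by rw [QuotientGroup.ker_mk']; exact inf_le_left))
          (QuotientGroup.lift (L' ⊓ act.ker) act.rangeRestrict
            (by rw [MonoidHom.ker_rangeRestrict]; exact inf_le_right))
          (fun y h1 h2 => ?_) hL' hA
        induction y using QuotientGroup.induction_on with
        | _ y =>
          exact (QuotientGroup.eq_one_iff y).2 (Subgroup.mem_inf.2 ⟨(QuotientGroup.eq_one_iff y).1 h1,
            MonoidHom.mem_ker.2 (congrArg Subtype.val h2)⟩)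
      · let W : ℕ → Subgroup H := fun j => match j with
          | 0 => X
          | 1 => Y
          | _ + 2 => ⊥
        have hW : ∀ j, IsPGroup 2 (W j) := fun j => match j with
          | 0 => hX2
          | 1 => hX2.to_le hYX.le
          | _ + 2 => hX2.to_le bot_le
        refine commute_of_stabilizes (W := W) hW (N := 2) rfl hgo (fun j a ha => ?_) a ha
        match j with
        | 0 =>
          change (g : H) * a * (g : H)⁻¹ * a⁻¹ ∈ Y
          have h1 : ((cN g ⟨a, ha⟩ : X) : A) = ((⟨a, ha⟩ : X) : A) :=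
            DFunLike.congr_fun (MonoidHom.mem_ker.1 hg.2) ((⟨a, ha⟩ : X) : A)
          rw [eq_comm, QuotientGroup.eq, Subgroup.Normal.mem_comm_iff hYn] at h1
          exact h1
        | 1 =>
          change (g : H) * a * (g : H)⁻¹ * a⁻¹ ∈ (⊥ : Subgroup H)
          rw [Subgroup.mem_bot, hL'c g hg.1 hgo a ha]
          group
        | _ + 2 =>
          change (g : H) * a * (g : H)⁻¹ * a⁻¹ ∈ (⊥ : Subgroup H)
          rw [show a = 1 from Subgroup.mem_bot.1 ha]
          simp
    obtain ⟨L, hLn, hL, hLc⟩ := key _ MS rfl le_rfl le_rfl (Or.inl inf_le_left)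
    haveI := hLn
    set Q := pPrimeCore 2 H with hQ
    set Lh := L.map N.subtype with hLh
    have hodd : ∀ g ∈ Lh, ¬ 2 ∣ orderOf g → g ∈ M := by
      rintro _ ⟨g, hg, rfl⟩ hgo
      let f := QuotientGroup.mk' Q
      have hC := CfsgLib.Constrained.centralizer_pCore_le (p := 2) (G := H ⧸ Q)
        (CfsgLib.Constrained.IsPSolvable.quotient CfsgLib.Constrained.isPSolvable_of_isSolvable _)
        CfsgLib.Constrained.pPrimeCore_quotient_pPrimeCore
      show f (g : H) ∈ pCore 2 (H ⧸ Q)
      refine hC (Subgroup.mem_centralizer_iff.2 fun y hy => ?_)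
      have hy' : y ∈ ((T : Subgroup M).map M.subtype).map f := by
        rw [CfsgLib.Constrained.map_sylow_pPrimePCore T]; exact hy
      rw [hTmap] at hy'
      obtain ⟨a, ha, rfl⟩ := hy'
      rw [← map_mul, ← map_mul, hLc g hg hgo a ha]
    let fQ := QuotientGroup.mk' Q
    have hLMn : (Lh ⊔ M).Normal := by
      refine ⟨fun y hy g => ?_⟩
      obtain ⟨a, ha, b, hb, rfl⟩ := Subgroup.mem_sup_of_normal_right.1 (hfr ▸ Subgroup.mem_top g : g ∈ N ⊔ M)
      have hb' : b * y * b⁻¹ ∈ Lh ⊔ M :=
        mul_mem (mul_mem (Subgroup.mem_sup_right hb) hy) (inv_mem (Subgroup.mem_sup_right hb))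
      have hle : Lh ⊔ M ≤ (Lh ⊔ M).comap (MulAut.conj a).toMonoidHom := sup_le
        (by
          rintro _ ⟨l, hl, rfl⟩
          exact Subgroup.mem_sup_left ⟨⟨a, ha⟩ * l * ⟨a, ha⟩⁻¹, hLn.conj_mem l hl _, rfl⟩)
        (fun l hl => Subgroup.mem_sup_right ((inferInstance : M.Normal).conj_mem l hl a))
      have h : a * (b * y * b⁻¹) * a⁻¹ ∈ Lh ⊔ M := hle hb'
      convert h using 1
      group
    have hLM2 : IsPGroup 2 ((Lh ⊔ M).map fQ) := by
      rintro ⟨_, y, hy, rfl⟩
      obtain ⟨l, hl, b, hb, rfl⟩ := Subgroup.mem_sup_of_normal_right.1 hy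
      obtain ⟨e, d, hd, hed⟩ := Nat.exists_eq_pow_mul_and_not_dvd (orderOf_pos l).ne' 2 (by norm_num)
      have hlM : l ^ 2 ^ e ∈ M := hodd _ (pow_mem hl _) (by
        rw [orderOf_pow' l (pow_ne_zero _ two_ne_zero), hed, Nat.gcd_mul_right_left,
          Nat.mul_div_cancel_left _ (pow_pos two_pos e)]
        exact hd)
      have h1 : (l * b) ^ 2 ^ e ∈ M := by
        rw [← QuotientGroup.eq_one_iff, QuotientGroup.mk_pow, QuotientGroup.mk_mul, (QuotientGroup.eq_one_iff b).2 hb,
          mul_one, ← QuotientGroup.mk_pow, (QuotientGroup.eq_one_iff _).2 hlM]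
      obtain ⟨r, hr⟩ := CfsgLib.Constrained.isPGroup_pCore (p := 2) (G := H ⧸ Q) ⟨fQ ((l * b) ^ 2 ^ e), h1⟩
      refine ⟨e + r, Subtype.ext ?_⟩
      rw [Subgroup.coe_pow, pow_add, pow_mul, ← map_pow]
      exact congrArg Subtype.val hr
    have hLM : Lh ≤ M := le_sup_left.trans (CfsgLib.Constrained.le_pPrimePCore hLMn hLM2)
    let π : N →* H ⧸ M := (QuotientGroup.mk' M).comp N.subtype
    have hπ : Function.Surjective (QuotientGroup.lift L π fun l hl =>
        (QuotientGroup.eq_one_iff (l : H)).2 (hLM ⟨l, hl, rfl⟩)) := by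
      intro y
      induction y using QuotientGroup.induction_on with
      | _ g =>
        obtain ⟨a, ha, b, hb, rfl⟩ := Subgroup.mem_sup_of_normal_right.1 (hfr ▸ Subgroup.mem_top g : g ∈ N ⊔ M)
        refine ⟨(⟨a, ha⟩ : N), ?_⟩
        show (a : H ⧸ M) = ((a * b : H) : H ⧸ M)
        rw [QuotientGroup.mk_mul, (QuotientGroup.eq_one_iff b).2 hb, mul_one]
    exact CfsgLib.Constrained.pLengthLE_succ_of_quotient (CfsgLib.Constrained.pLengthLE_of_surjective hL _ hπ)

/-- The bound by the derived length. -/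
theorem pLengthLE_two_of_derLE (d : ℕ) (K : Type u) [Group K] [Finite K] (hK : Group.IsSolvable K)
    (hd : DerLE 2 d K) : PLengthLE 2 d K := by
  haveI := Fact.mk Nat.prime_two
  rcases d with _ | n
  · rw [CfsgLib.Constrained.pLengthLE_zero_iff]
    intro hdvd
    obtain ⟨x, hx⟩ := exists_prime_orderOf_dvd_card' 2 hdvd
    have h := hd (Subgroup.zpowers x) (IsPGroup.of_card (n := 1) (by rw [Nat.card_zpowers, hx, pow_one]))
    rw [dser_zero, Subgroup.zpowers_eq_bot] at h
    rw [h, orderOf_one] at hx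
    norm_num at hx
  haveI := hK
  let K' := K ⧸ pPrimeCore 2 K
  have hd' : DerLE 2 (n + 1) K' := hd.quotient _
  have hO : pPrimeCore 2 K' = ⊥ := CfsgLib.Constrained.pPrimeCore_quotient_pPrimeCore
  have h : PLengthLE 2 n (K' ⧸ pCore 2 K') := by
    refine pLengthLE_of_dmod n _ inferInstance CfsgLib.Constrained.pCore_quotient_pCore _ (rep 2 K')
      (rep_injective 2 K' CfsgLib.Constrained.isPSolvable_of_isSolvable hO) fun P hP => ?_
    obtain ⟨T, hT⟩ := exists_sylow_lift (QuotientGroup.mk' (pCore 2 K')) (QuotientGroup.mk'_surjective _) hP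
    have hle : pCore 2 K' ≤ (T : Subgroup K') := by
      obtain ⟨T'', hT''⟩ := (CfsgLib.Constrained.isPGroup_pCore (p := 2) (G := K')).exists_le_sylow
      obtain ⟨y, hy⟩ := MulAction.exists_smul_eq K' T'' T
      intro x hx
      show x ∈ (T : Subgroup K')
      rw [← hy, Sylow.coe_subgroup_smul]
      refine Subgroup.mem_pointwise_smul_iff_inv_smul_mem.2 (hT'' ?_)
      exact (inferInstance : (pCore 2 K').Normal).conj_mem' x hx y
    let Sset : ℕ → Set (Additive (FrattQuot 2 K')) := fun i =>
      {w | ∃ c : ↥(pCore 2 K'), (c : K') ∈ dser (T : Subgroup K') i ∧ Additive.ofMul (c : FrattQuot 2 K') = w}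
    refine dmod_baseChange_eq_bot (rep 2 K') P Sset (fun w => ?_) (fun i y hy => ?_) fun w hw => ?_
    · obtain ⟨c, hc⟩ := QuotientGroup.mk_surjective (Additive.toMul w)
      exact ⟨c, hle c.2, by rw [hc]; rfl⟩
    · obtain ⟨g, hg, rfl⟩ : y ∈ (dser (T : Subgroup K') i).map (QuotientGroup.mk' (pCore 2 K')) := by
        rw [map_dser]; exact dser_mono hT i hy
      refine ⟨autLin 2 K' (conjAut 2 K' g), rfl, ?_⟩
      rintro _ ⟨c, hc, rfl⟩
      refine ⟨MulAut.conjNormal g c * c⁻¹, ?_, ?_⟩
      · rw [Subgroup.coe_mul, Subgroup.coe_inv, MulAut.conjNormal_apply]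
        exact Subgroup.commutator_mem_commutator hg hc
      · rw [QuotientGroup.mk_mul, QuotientGroup.mk_inv, ofMul_mul, ofMul_inv, ← sub_eq_add_neg]
        rfl
    · obtain ⟨c, hc, rfl⟩ := hw
      rw [hd' _ T.isPGroup', Subgroup.mem_bot, OneMemClass.coe_eq_one] at hc
      rw [hc]
      rfl
  refine CfsgLib.Constrained.pLengthLE_succ_of_quotient ?_
  let q₁ : K' →* K ⧸ pPrimePCore 2 K :=
    QuotientGroup.lift _ (QuotientGroup.mk' _)
      (by rw [QuotientGroup.ker_mk']; exact CfsgLib.Constrained.pPrimeCore_le_pPrimePCore)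
  let q₂ : K' ⧸ pCore 2 K' →* K ⧸ pPrimePCore 2 K := QuotientGroup.lift _ q₁ fun b hb => by
    induction b using QuotientGroup.induction_on with
    | _ a => exact (QuotientGroup.eq_one_iff a).2 hb
  refine CfsgLib.Constrained.pLengthLE_of_surjective h q₂ fun y => ?_
  induction y using QuotientGroup.induction_on with
  | _ a => exact ⟨((a : K') : K' ⧸ pCore 2 K'), rfl⟩

end CfsgLib.PLengthTwoDer
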